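import Cfsg.Agent.H12.InvB
/-! Involution classes of F4 in characteristic two: `invF4`, `ncjF4`. -/

set_option autoImplicit false
set_option Elab.async false

namespace H12
open Cfsg.Lie

def clsF4 : List (List ℕ × List ℕ × List ℤ × ℤ) := [([47], [], [1, 2, 3, 2], 2), ([44], [], [2, 3, 4, 2], 2), ([47, 44], [], [3, 5, 7, 4], 4), ([39,
    45], [40, 44, 46, 47], [2, 4, 6, 3], 3)]
def stdF4 : List (List ℕ × List (List ℕ × List ℕ × List ℕ) × List ℕ) := [([24, 27, 32, 44], [([], [36, 37, 43, 30, 26, 28], [24, 27]), ([2, 1, 0, 1,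
    2, 3, 1, 2, 1, 2], [], [39, 45])], [39, 45]), ([27, 32, 44], [([], [39, 34, 43], [27, 32]), ([0, 1, 2, 3, 1, 2, 1, 3, 2], [], [39, 45])], [39,
    45]), ([24, 32, 44], [([0, 1, 2], [45, 25, 37], [26, 38]), ([1, 2, 1, 0, 1, 2, 1, 2], [], [39, 45])], [39, 45]), ([39, 45], [], [39, 45]), ([29,
    44], [([], [41], [29, 47]), ([0, 1, 2, 1, 0], [], [47, 44])], [47, 44]), ([44], [], [44]), ([47], [], [47]), ([], [], [])]
def enF4 : List (ℕ × ℕ × List ℕ) := [(2, 0, []), (2, 1, []), (2, 1, [3, 2]), (1, 2, [2, 3, 2]), (2, 2, []), (2, 3, [0, 1]), (2, 4, []), (2, 5, []),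
    (2, 2, [1, 0]), (2, 3, []), (2, 3, [3, 2]), (1, 2, [2, 3, 2, 0]), (1, 0, [0, 1, 0]), (1, 0, [3, 0, 1, 0]), (2, 6, []), (2, 7, [])]
theorem ncjF4 : NcjT (tab chevF4) auxF4.len [] clsF4 := by rw [tabF4_eq]; decide +kernel
theorem stdF4_ok : StdT (tab chevF4) id ([] :: [[47], [44], [47, 44], [39, 45]]) stdF4 := by rw [tabF4_eq]; decide +kernel
theorem allF4 : AllT (tab chevF4) id (fun i => [i]) [3, 2, 1, 2, 0, 1, 2, 3, 2, 1, 2, 0, 1, 2, 3, 2, 1, 2, 0, 1, 2, 0, 1, 0] (fun k r => (stdF4.getD k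
    default).1.foldr (tab chevF4).rfC r) stdF4.length enF4 := by
  rw [tabF4_eq]; decide +kernel
theorem invF4 {F : Type*} [Field F] [Finite F] [CharP F 2] : ∀ g ∈ (adS chevF4 F).T, orderOf g = 2 →
    ∃ O ∈ clsF4.map Prod.fst, Cj (adS chevF4 F).T g (xs chevF4 F O) := ch2_refl.classes orb_refl stdF4_ok allF4

end H12
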