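import Cfsg.Agent.H12.InvB
/-! Involution classes of G2 in characteristic two: `invG2`, `ncjG2`. -/

set_option autoImplicit false
set_option Elab.async false

namespace H12
open Cfsg.Lie

def clsG2 : List (List ℕ × List ℕ × List ℤ × ℤ) := [([11], [], [1, 2], 2), ([9], [10, 11], [2, 3], 3)]
def stdG2 : List (List ℕ × List (List ℕ × List ℕ × List ℕ) × List ℕ) := [([6, 9], [([0], [9, 7], [8]), ([0], [], [9])], [9]), ([9], [], [9]), ([11],
    [], [11]), ([], [], [])]
def enG2 : List (ℕ × ℕ × List ℕ) := [(2, 0, []), (2, 1, []), (2, 2, []), (2, 3, [])]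
theorem ncjG2 : NcjT (tab chevG2) auxG2.len [] clsG2 := by rw [tabG2_eq]; decide +kernel
theorem stdG2_ok : StdT (tab chevG2) id ([] :: [[11], [9]]) stdG2 := by rw [tabG2_eq]; decide +kernel
theorem allG2 : AllT (tab chevG2) id (fun i => [i]) [1, 0, 1, 0, 1, 0] (fun k r => (stdG2.getD k default).1.foldr (tab chevG2).rfC r) stdG2.length
    enG2 := by
  rw [tabG2_eq]; decide +kernel
theorem invG2 {F : Type*} [Field F] [Finite F] [CharP F 2] : ∀ g ∈ (adS chevG2 F).T, orderOf g = 2 →
    ∃ O ∈ clsG2.map Prod.fst, Cj (adS chevG2 F).T g (xs chevG2 F O) := ch2_refl.classes orb_refl stdG2_ok allG2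

end H12
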