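import Cfsg.Agent.H12.InvB
import Cfsg.Agent.H12.TwE6
import Cfsg.Agent.H12.TwD4
/-! Involution classes of `²E₆(q)`, `³D₄(q)`, `²F₄(q)` (`q` even) and of the Tits group: `ncard6`, `ncard4`, `ncardF`, `ncardTits`,
`invF_comm`. -/

set_option autoImplicit false
set_option Elab.async false

namespace H12
open Cfsg.Lie StSys

def clsT6 : List (List ℕ × List ℕ × List ℤ × ℤ) := [([71], [], [1, 2, 2, 3, 2, 1], 2), ([68, 66], [69, 70, 71], [2, 2, 3, 4, 3, 2], 2), ([55, 65, 67],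
    [66, 68, 69, 70, 71], [2, 3, 4, 6, 4, 2], 3)]
def stdT6 : List (List ℕ × List (List ℕ × List ℕ × List ℕ) × List ℕ) := [([39, 44, 60, 71], [([], [36, 56, 53, 63, 47, 51], [39, 44, 45, 59]), ([5, 0,
    4, 2], [37, 42, 36, 56], [41, 44, 58]), ([1, 3, 4, 2, 5, 0, 3, 4, 2, 3], [], [55, 65, 67])], [55, 65, 67]), ([44, 60, 71], [([1, 3], [37, 42],
    [53, 65, 66, 68]), ([4, 2, 5, 0], [36, 56, 37, 42], [55, 65, 67])], [55, 65, 67]), ([40, 43, 60, 71], [([], [53, 63, 48, 50], [40, 43, 60]), ([1,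
    3, 4, 2, 5, 0, 3, 4, 2, 3, 4, 2], [], [55, 65, 67])], [55, 65, 67]), ([60, 71], [([1, 3], [37, 42], [65, 66, 68]), ([4, 2, 3, 1], [], [68, 66,
    71])], [68, 66, 71]), ([55, 65, 67], [], [55, 65, 67]), ([68, 66], [], [68, 66]), ([71], [], [71]), ([], [], [])]
def enT6 : List (ℕ × ℕ × List ℕ) := [(2, 0, []), (0, 5, []), (0, 4, []), (0, 4, []), (2, 1, []), (0, 5, []), (0, 4, []), (0, 4, []), (0, 2, []), (0,
    2, []), (2, 2, []), (0, 5, []), (0, 2, []), (0, 2, []), (2, 3, []), (0, 5, []), (2, 1, [3, 1]), (0, 5, []), (0, 4, []), (0, 4, []), (1, 1, [1, 3,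
    1]), (0, 5, []), (0, 4, []), (0, 4, []), (0, 2, []), (0, 2, []), (2, 4, [5, 0]), (0, 5, []), (0, 2, []), (0, 2, []), (2, 5, []), (0, 5, []), (0,
    0, []), (2, 2, [4, 2, 5, 0]), (0, 0, []), (0, 4, []), (0, 0, []), (2, 4, [1, 3, 4, 2]), (0, 0, []), (0, 4, []), (0, 0, []), (0, 2, []), (0, 0,
    []), (1, 0, [4, 5, 4, 0, 2, 0]), (0, 0, []), (0, 2, []), (0, 0, []), (2, 6, []), (0, 0, []), (2, 4, [4, 2]), (0, 0, []), (0, 4, []), (0, 0, []),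
    (1, 1, [5, 1, 3, 1, 0]), (0, 0, []), (0, 4, []), (0, 0, []), (0, 2, []), (0, 0, []), (1, 0, [4, 5, 4, 0, 2, 1, 0]), (0, 0, []), (0, 2, []), (0, 0,
    []), (2, 7, [])]
theorem ncjT6 : NcjT (tab chevE6) auxE6.len [] clsT6 ∧ ∀ c ∈ clsT6, EqT (tab chevE6) (c.1.map gE6.ρ) c.1 := by rw [tabE6_eq]; decide +kernel
theorem stdT6_ok : StdT (tab chevE6) gE6.ρ ([] :: [[71], [68, 66], [55, 65, 67], [68, 66, 71]]) stdT6 := by rw [tabE6_eq]; decide +kernel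
theorem allT6 : AllT (tab chevE6) gE6.ρ ([[0, 5], [1], [2, 4], [3], [2, 4], [0, 5]].getD · []) [0, 2, 3, 4, 5, 1, 3, 4, 2, 3, 0, 2, 1, 3, 4, 5, 1, 3,
    4, 2, 3, 0, 2, 1, 3, 4, 2, 3, 0, 2, 1, 3, 0, 2, 1, 0] (fun k r => (stdT6.getD k default).1.foldr (tab chevE6).rfC r) stdT6.length enT6 := by
  rw [tabE6_eq]; decide +kernel
def clsT4 : List (List ℕ × List ℕ × List ℤ × ℤ) := [([23], [], [1, 2, 1, 1], 2), ([17, 20, 21], [22, 23], [2, 3, 2, 2], 3)]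
def stdT4 : List (List ℕ × List (List ℕ × List ℕ × List ℕ) × List ℕ) := [([12, 13, 18, 23], [([], [17, 20, 21, 15, 16, 19], [12, 13, 18]), ([1, 3, 2,
    0], [], [17, 20, 21])], [17, 20, 21]), ([17, 20, 21], [], [17, 20, 21]), ([23], [], [23]), ([], [], [])]
def enT4 : List (ℕ × ℕ × List ℕ) := [(2, 0, []), (0, 3, []), (0, 2, []), (0, 3, []), (2, 1, []), (0, 3, []), (0, 2, []), (0, 3, []), (0, 0, []), (0,
    0, []), (0, 2, []), (2, 2, []), (0, 0, []), (0, 0, []), (0, 2, []), (2, 3, [])]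
theorem ncjT4 : NcjT (tab chevD4) auxD4.len [] clsT4 ∧ ∀ c ∈ clsT4, EqT (tab chevD4) (c.1.map gD4a.ρ) c.1 := by rw [tabD4_eq]; decide +kernel
theorem stdT4_ok : StdT (tab chevD4) gD4a.ρ ([] :: [[23], [17, 20, 21]]) stdT4 := by rw [tabD4_eq]; decide +kernel
theorem allT4 : AllT (tab chevD4) gD4a.ρ ([[0, 2, 3], [1], [0, 2, 3], [0, 2, 3]].getD · []) [3, 1, 2, 0, 1, 3, 0, 1, 2, 0, 1, 0] (fun k r =>
    (stdT4.getD k default).1.foldr (tab chevD4).rfC r) stdT4.length enT4 := by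
  rw [tabD4_eq]; decide +kernel
def clsTF : List (List ℕ × List ℕ × List ℤ × ℤ) := [([47, 44], [], [3, 5, 7, 4], 4), ([39, 45], [40, 44, 46, 47], [2, 4, 6, 3], 3)]
def stdTF : List (List ℕ × List (List ℕ × List ℕ × List ℕ) × List ℕ) := [([24, 33, 39, 45], [([], [29, 41, 44, 31, 35, 40, 32, 37], [24, 33]), ([2, 1,
    2, 1, 3, 0, 2, 1, 2, 1], [], [39, 45])], [39, 45]), ([39, 45], [], [39, 45]), ([], [], [])]
def enTF : List (ℕ × ℕ × List ℕ) := [(2, 0, []), (0, 3, []), (0, 2, []), (0, 2, []), (0, 1, []), (0, 1, []), (2, 3, [3, 0, 2, 1, 2, 1, 3, 0]), (0, 3,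
    []), (0, 0, []), (2, 1, []), (0, 0, []), (0, 2, []), (0, 0, []), (0, 1, []), (0, 0, []), (2, 2, [])]
theorem ncjTF : NcjT (tab chevF4) auxF4.len [] clsTF ∧ ∀ c ∈ clsTF, EqT (tab chevF4) (c.1.map gF4.ρ) c.1 := by rw [tabF4_eq]; decide +kernel
theorem stdTF_ok : StdT (tab chevF4) gF4.ρ ([] :: [[47, 44], [39, 45]]) stdTF := by rw [tabF4_eq]; decide +kernel
theorem allTF : AllT (tab chevF4) gF4.ρ ([[0, 3], [1, 2], [1, 2], [0, 3]].getD · []) [3, 2, 1, 2, 0, 1, 2, 3, 2, 1, 2, 0, 1, 2, 3, 2, 1, 2, 0, 1, 2,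
    0, 1, 0] (fun k r => if k = 3 then runW (tab chevF4) [1, 2, 1, 2] r else (stdTF.getD k default).1.foldr (tab chevF4).rfC r) (stdTF.length + 1)
    enTF := by
  rw [tabF4_eq]; decide +kernel

theorem ncard_congr {A B : Type*} [Group A] [Group B] (e : A ≃* B) (n : ℕ) :
    (ConjClasses.mk '' {g : A | orderOf g = n}).ncard = (ConjClasses.mk '' {g : B | orderOf g = n}).ncard := by
  rw [← Set.ncard_image_of_injective _ (f := ConjClasses.map e.toMonoidHom) fun a b h => ?_, Set.image_image]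
  · congr 1; ext c
    exact ⟨fun ⟨g, h1, h2⟩ => ⟨e g, (e.orderOf_eq g).trans h1, h2⟩, fun ⟨g, h1, h2⟩ => ⟨e.symm g, (e.symm.orderOf_eq g).trans h1, by
      rw [← h2]; exact congrArg ConjClasses.mk (e.apply_symm_apply g)⟩⟩
  · obtain ⟨a, rfl⟩ := ConjClasses.mk_surjective a
    obtain ⟨b, rfl⟩ := ConjClasses.mk_surjective b
    simpa [ConjClasses.mk_eq_mk_iff_isConj] using e.symm.toMonoidHom.map_isConj (ConjClasses.mk_eq_mk_iff_isConj.1 h)
theorem ncard_comm {Γ : Type*} [Group Γ] {K : Subgroup Γ} {n : ℕ} {Y : List Γ} {c : Γ} (hc : c ∈ K) (h1 : ∀ y ∈ Y, y ∈ ⁅K, K⁆ ∧ orderOf y = n ∧ Commute c y)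
    (h2 : ∀ g ∈ K, orderOf g = n → ∃ y ∈ Y, Cj K g y) (h3 : Y.Pairwise fun a b => ¬ Cj K a b) (h4 : K ≤ Subgroup.zpowers c ⊔ ⁅K, K⁆) :
    (ConjClasses.mk '' {g : commutator K | orderOf g = n}).ncard = Y.length := by
  rw [ncard_congr ((Subgroup.equivMapOfInjective _ _ K.subtype_injective).trans (MulEquiv.subgroupCongr K.map_subtype_commutator))]
  refine ncard_of_cj (fun y hy => ⟨(h1 y hy).1, (h1 y hy).2.1⟩) (fun g hg e => ?_) (h3.imp fun h h' => h (h'.mono K.commutator_le_self))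
  obtain ⟨y, hy, k, hk, e⟩ := h2 g (K.commutator_le_self hg) e
  have h5 : k ∈ (↑(Subgroup.zpowers c ⊔ ⁅K, K⁆) : Set Γ) := h4 hk
  rw [Subgroup.coe_mul_of_left_le_normalizer_right _ _ ((Subgroup.zpowers_le.2 hc).trans (Subgroup.normalizer_commutator_ge_left _ _))] at h5
  obtain ⟨_, ⟨j, rfl⟩, t, ht, rfl⟩ := h5
  refine ⟨y, hy, t, ht, (conj_injective (x := c ^ j)) ?_⟩
  simpa [mul_assoc, ((h1 y hy).2.2.zpow_left j).eq] using e
theorem isPrimePow_of_card {K : Type*} [Field K] [Fintype K] {q m : ℕ} (hm : m ≠ 0) (hK : Fintype.card K = q ^ m) : IsPrimePow q :=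
  (isPrimePow_pow_iff hm).1 (hK ▸ Fintype.isPrimePow_card_of_field)
theorem Ch2.cj_orb {D : ChevalleyDatum} [Good D] {F : Type*} [Field F] [Finite F] [CharP F 2] {R : RSym D} {τ : TwF (adS D F) R}
    {K : Subgroup (GL D.Idx F)} {ρ : ℕ → ℕ} (hK : Ch2 τ K ρ) {i : I D} {v : GL D.Idx F} (h1 : v ∈ K)
    (h2 : v ∈ (adS D F).gen {r | ¬ IsPos r ∧ InJ (R.orb i) r}) (h3 : v ≠ 1) (h4 : v * v = 1) : Cj K v (ν F (w0J (R.orb i))) := by
  have hL : v ∈ (adS D F).LJ (R.orb i) := Subgroup.mem_sup_left ((adS D F).gen_mono (fun _ h => h.2) h2)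
  obtain ⟨w, hw, hc⟩ := mem_P.1 (UJ_sup_LJ (S := adS D F) _ ▸ Subgroup.mem_sup_right hL)
  obtain rfl : w = w0J (R.orb i) := (RSym.eq_one_or_w0J (Tw.mem_W1 cov_ad (hK.adm.le h1) hc) hw).resolve_left (by
    rintro rfl; exact h3 (cov_ad.eq_one_of_V_B ((adS D F).gen_mono (fun _ h => h.1) h2) (cell_one.1 hc)))
  obtain ⟨u, hu, n, hn, hn', u', hu', rfl⟩ := hK.adm.exists_unu cov_ad h1 hc
  have a4 : u' * u ∈ (adS D F).Um _ := mul_mem hu'.1 (cov_ad.mem_Um_of_LJ hu.1 (by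
    simpa using mul_mem (mul_mem hL (inv_mem (Subgroup.mem_sup_left ((adS D F).gen_mono (fun _ h => (mem_inv_w0J.1 h).2) hu'.1))))
      (inv_mem (NJ_le_LJ _ (mem_NJ.2 ⟨_, hw, hn'⟩)))))
  have a0 : n * (u' * u) * (n * (u' * u)) = 1 := by simpa [mul_assoc] using congrArg (u⁻¹ * · * u) h4
  have a1 : u' * u = 1 := by
    simpa using cov_ad.eq_one_of_V_B (hn'.conj_Um a4) (by
      rw [eq_inv_of_mul_eq_one_left a0, ← mul_inv_rev, ← mul_assoc]
      exact inv_mem (mul_mem ((adS D F).H_le_B (Rep.mem_H (w0J_mul_self (R.orb i) ▸ hn'.mul hn'))) ((adS D F).U_le_B ((adS D F).Um_le_U _ a4))))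
  refine Cj.trans ⟨u⁻¹, inv_mem hu.2, show _ = n by simp [mul_assoc, a1]⟩ ((cj_rep hn' (rep_ν _) (by simpa [a1] using a0) (by rw [← ν_mul]; simp)).mono
    (Subgroup.zpowers_le.2 (mul_mem (hK.mem _ (RSym.inv_orb i).w0J_mem) hn)))

variable {K : Type*} [Field K] [Fintype K] [CharP K 2] {q : ℕ} {φ : K →+* K}
theorem ncard4 (hK : Fintype.card K = q ^ 3) : (ConjClasses.mk '' {g : twistedD4 K q | orderOf g = 2}).ncard = 2 := by
  obtain ⟨φ, hφ⟩ := exists_frob (isPrimePow_of_card three_ne_zero hK) three_ne_zero hK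
  have h : Ch2 (tw4 φ) _ gD4a.ρ := ch2_of (adm4 hφ hK) (eq4 hφ hK) fun _ => rfl
  refine ncjT4.1.ncard h ncjT4.2 (h.classes (fun i j hj => ?_) stdT4_ok allT4)
  obtain ⟨O, h1, h2⟩ := exists_orb4 i
  rw [(orb4 O h1).orb i h2, Set.mem_setOf_eq] at hj
  exact (show ∀ O ∈ [[n4 1], [n4 0, n4 2, n4 3]], ∀ i ∈ O, ∀ j ∈ O, j.1 ∈ [[0, 2, 3], [1], [0, 2, 3], [0, 2, 3]].getD i.1 [] by decide +kernel) O h1 i h2 j hj
def r6 (i : Fin 72) : Φ chevE6 := i
theorem ncard6 (hK : Fintype.card K = q ^ 2) : (ConjClasses.mk '' {g : twistedE6 K q | orderOf g = 2}).ncard = 3 := by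
  obtain ⟨φ, hφ⟩ := exists_frob (isPrimePow_of_card two_ne_zero hK) two_ne_zero hK
  have h : Ch2 (tw6 φ) _ gE6.ρ := ch2_of (adm6 hφ hK) (eq6 hφ hK) fun _ => rfl
  have h0 : ∀ t, φ (φ t) = t := fun t => by rw [hφ, hφ, pow_sq6 hφ hK]
  obtain ⟨a, ha⟩ : ∃ a : K, a + φ a ≠ 0 := by
    by_contra! h1
    have h2 := card_fix (q_pos6 hφ hK |>.trans_lt' two_pos) hK
    rw [show {t : K | t ^ q = t} = Set.univ from Set.eq_univ_of_forall fun t => by simpa [CharTwo.add_eq_zero, hφ, eq_comm] using h1 t,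
      Nat.card_univ, Nat.card_eq_fintype_card, hK] at h2
    nlinarith [q_pos6 hφ hK]
  obtain ⟨v, hv, -⟩ := exists_v6 (a / (a + φ a)) 0 0 0 0 0
  have h1 : φ (v 2) = v 2 + 1 := by rw [hv, map_div₀, map_add, h0, add_comm (φ a)]; field_simp; linear_combination (-a) * CharTwo.two_eq_zero (R := K)
  have h2 : Cj (twistedE6 K q) (xs chevE6 K [68, 66, 71]) (xs chevE6 K [68, 66]) := by
    have e : ∀ t u, (adS chevE6 K).xN 48 t * ((adS chevE6 K).xN 50 u * 1) = (adS chevE6 K).x (r6 48) t * (adS chevE6 K).x (r6 50) u := fun t u => by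
      rw [mul_one]; exact congrArg₂ _ ((adS _ _).xN_val (r6 48) t) ((adS _ _).xN_val (r6 50) u)
    have e' : ∀ r t, (tw6 φ).ψ r t = φ t ^ gE6.lam r := adTw_ψ _ _ _ _ _
    refine ⟨(adS chevE6 K).evE v [(48, .var 2), (50, .var 2 + .cst 1)], h.adm.U_le cov_ad ⟨mul_mem ((adS _ _).xN_mem (fun _ => (by decide : IsPos (r6 48))) _)
      (mul_mem ((adS _ _).xN_mem (fun _ => (by decide : IsPos (r6 50))) _) (one_mem _)), (adS _ _).evE_mem_T _ _, ?_⟩, ?_⟩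
    · rw [(adS _ _).eq_of_coll v ok2 (key := id) (n := 9) (w' := [(50, .var 2 + .cst 1), (48, .var 2)]) (by rw [tabE6_eq]; decide +kernel)]
      conv_lhs => rw [← (adS _ _).eq_of_coll v ok2 (key := id) (n := 9) (w := [(48, .var 2), (50, .var 2 + .cst 1)]) (by rw [tabE6_eq]; decide +kernel)]
      simp only [evE_cons, evE_nil, Ex.ev_add, Ex.ev_var, Ex.ev_cst, Int.cast_one]
      rw [e, (tw6 φ).mul _ ((adS _ _).x_mem_T _ _) _ ((adS _ _).x_mem_T _ _), TwF.σ_x, TwF.σ_x, e', e', ← h1, h0, show gE6.lam _ = 1 by decide +kernel,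
        show gE6.lam _ = 1 by decide +kernel, pow_one, pow_one, mul_one]
      exact congrArg₂ _ ((adS _ _).xN_val (R6.ρ (r6 48)) _).symm ((adS _ _).xN_val (R6.ρ (r6 50)) _).symm
    · rw [mul_inv_eq_iff_eq_mul, xs_eq_evE v, xs_eq_evE v, ← evE_append, ← evE_append]
      exact (adS _ _).eq_of_coll v ok2 (key := id) (n := 19) (by rw [tabE6_eq]; decide +kernel)
  refine ncjT6.1.ncard h ncjT6.2 fun g hg h3 => ?_
  obtain ⟨O, h4, h5⟩ := h.classes (fun i j hj => by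
    obtain ⟨O, h1, h2⟩ := exists_orb6 i
    rw [(orb6 O h1).orb i h2, Set.mem_setOf_eq] at hj
    exact (show ∀ O ∈ [[n6 1], [n6 3], [n6 0, n6 5], [n6 2, n6 4]], ∀ i ∈ O, ∀ j ∈ O,
      j.1 ∈ [[0, 5], [1], [2, 4], [3], [2, 4], [0, 5]].getD i.1 [] by decide +kernel) O h1 i h2 j hj) stdT6_ok allT6 g hg h3
  by_cases e : O = [68, 66, 71]
  · exact ⟨_, by decide, h5.trans (e ▸ h2)⟩
  · exact ⟨O, by simpa [e, clsT6] using h4, h5⟩

variable {m : ℕ} (h2 : ∀ t, φ (φ t) ^ 2 = t) (hφ : ∀ t, φ t = t ^ 2 ^ m)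
include h2 hφ
theorem ch2F : Ch2 (twF φ) (twistedF4 K (2 ^ m)) gF4.ρ := ch2_of (admF h2 hφ) (eqF h2 hφ) fun _ => rfl
theorem invF : ∀ g ∈ twistedF4 K (2 ^ m), orderOf g = 2 → ∃ O ∈ clsTF.map Prod.fst, Cj (twistedF4 K (2 ^ m)) g (xs chevF4 K O) := fun g hg h3 => by
  have h := ch2F h2 hφ
  obtain ⟨O, h4, h5⟩ := h.all_inv (P := fun a => ∃ O ∈ [[], [47, 44], [39, 45]], Cj _ a (xs chevF4 K O)) (fun a b h ⟨O, h1, h2⟩ => ⟨O, h1, h.trans h2⟩)
    (fun i j hj => by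
      rcases orbF_cases i with h1 | h1
      · rw [orbF1.orb i h1, Set.mem_setOf_eq] at hj; revert i j; decide +kernel
      · rw [orbF2 i h1, Set.mem_setOf_eq] at hj; revert i j; decide +kernel) allTF (fun k hk => by
      split_ifs with e
      · have a1 := (h.mvs (ms := [([2, 1, 2, 1, 3, 0, 2, 1, 2, 1, 3, 0], [], [47, 44])]) (s := [19, 17]) (s' := [47, 44])
          (by rw [tabF4_eq]; decide +kernel)).symm
        have a2 := ClsT.orderOf (F := K) (ncjTF.1.1 _ List.mem_cons_self)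
        refine ⟨(wp [nF 1, nF 2, nF 1, nF 2])⁻¹, fun r _ => (runW_eq _ r).symm, [47, 44], by simp, Cj.trans ?_ a1.symm⟩
        obtain ⟨k, b1, b2⟩ := a1
        rw [← w0F2, w0J_inv, ← orbF2 (nF 1) (by simp)]
        refine (h.cj_orb (b2 ▸ mul_mem (mul_mem b1 (h.xs_mem_U (by decide) (ncjTF.2 _ List.mem_cons_self))) (inv_mem b1)) (xs_mem fun r hr => ?_)
          (fun e => by simp [show xs chevF4 K [47, 44] = 1 by simpa [e] using b2, clsTF] at a2)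
          (by rw [← xs_append]; exact EqT.eq (L' := []) (by rw [tabF4_eq]; decide +kernel))).symm
        rw [orbF2 _ (by simp), ← negF2]; revert r; decide +kernel
      · exact h.std stdTF_ok k (by change k < 3 + 1 at hk; change k < 3; omega)) hg (by rw [← sq, ← h3, pow_orderOf_eq_one])
  refine ⟨O, (List.mem_cons.1 h4).resolve_left ?_, h5⟩
  rintro rfl
  obtain ⟨k, -, e⟩ := h5.symm
  simp [← e] at h3
theorem ncardF : (ConjClasses.mk '' {g : twistedF4 K (2 ^ m) | orderOf g = 2}).ncard = 2 := ncjTF.1.ncard (ch2F h2 hφ) ncjTF.2 (invF h2 hφ)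
theorem invF_comm {g : GL chevF4.Idx K} (hg : g ∈ twistedF4 K (2 ^ m)) (h3 : g * g = 1) : g ∈ ⁅twistedF4 K (2 ^ m), twistedF4 K (2 ^ m)⁆ := by
  have h := ch2F h2 hφ
  by_cases e : g = 1
  · exact e ▸ one_mem _
  haveI := Fact.mk Nat.prime_two
  obtain ⟨O, h4, k, hk, h5⟩ := invF h2 hφ g hg (orderOf_eq_prime (by rwa [sq]) e)
  obtain ⟨a, -, b, -, ⟨a1, a2⟩, ⟨a3, a4⟩, a5⟩ := (show ∀ O ∈ clsTF.map Prod.fst, ∃ a ∈ [[35, 31, 40]], ∃ b ∈ [[38, 43], [29, 41, 44]],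
    ((∀ r ∈ a, r < 48 ∧ 48 ≤ 2 * r) ∧ EqT (tab chevF4) (a.map gF4.ρ) a) ∧ ((∀ r ∈ b, r < 48 ∧ 48 ≤ 2 * r) ∧ EqT (tab chevF4) (b.map gF4.ρ) b) ∧
      EqT (tab chevF4) (a ++ b) (O ++ b ++ a) by rw [tabF4_eq]; decide +kernel) O h4
  have a6 := a5.eq (F := K)
  rw [xs_append, xs_append, xs_append, ← h5] at a6
  have a7 := Subgroup.commutator_mem_commutator (mul_mem (mul_mem (inv_mem hk) (h.xs_mem_U a1 a2)) hk) (mul_mem (mul_mem (inv_mem hk) (h.xs_mem_U a3 a4)) hk)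
  convert a7 using 1
  rw [commutatorElement_def, show g = k⁻¹ * (xs chevF4 K a * xs chevF4 K b * (xs chevF4 K a)⁻¹ * (xs chevF4 K b)⁻¹) * k by rw [a6]; group]
  group
omit h2 hφ in
theorem ncardTits : (ConjClasses.mk '' {g : commutator (twistedF4 (ZMod 2) (2 ^ 0)) | orderOf g = 2}).ncard = 2 := by
  obtain ⟨_, φ, hφ, h2⟩ := exists_frob2 (K := ZMod 2) (m := 0) (by simp)
  have h := ch2F h2 hφ
  have hc := fun g => invF_comm (g := g) h2 hφ
  have h3 : ∀ O ∈ clsTF.map Prod.fst, xs chevF4 (ZMod 2) O ∈ twistedF4 (ZMod 2) (2 ^ 0) ∧ orderOf (xs chevF4 (ZMod 2) O) = 2 := fun O hO => by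
    obtain ⟨c, h1, rfl⟩ := List.mem_map.1 hO
    exact ⟨h.xs_mem_U ((show ∀ c ∈ clsTF, ∀ r ∈ c.1, r < 48 ∧ 48 ≤ 2 * r by decide +kernel) c h1) (ncjTF.2 c h1), (ncjTF.1.1 c h1).orderOf⟩
  have h4 := h.mvs (ms := [([3, 0, 2, 1, 2, 1, 3, 0], [], [29, 41, 44])]) (s := [27, 25, 28]) (s' := [29, 41, 44]) (by rw [tabF4_eq]; decide +kernel)
  have h5 : xs chevF4 (ZMod 2) [29, 41, 44] ∈ twistedF4 (ZMod 2) (2 ^ 0) := h.xs_mem_U (by decide) (by rw [tabF4_eq]; decide +kernel)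
  have h6 := ncjTF.1.pairwise (F := ZMod 2) (K := twistedF4 (ZMod 2) (2 ^ 0)) fun g hg => (h.adm.le hg).1
  refine (ncard_comm h5 (fun y hy => ?_) (fun g hg e => ?_) h6 (le_trans (eqF h2 hφ).le ?_)).trans rfl
  on_goal 3 => refine h.adm.G1_le' cov_ad (fun g hg m hm => ?_) fun i g hg => ?_
  · obtain ⟨c, h1, rfl⟩ := List.mem_map.1 hy
    obtain ⟨a1, a2⟩ := h3 _ (List.mem_map_of_mem h1)
    refine ⟨hc _ a1 (by rw [← sq]; exact orderOf_dvd_iff_pow_eq_one.1 a2.dvd), a2, ?_⟩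
    rw [commute_iff_eq, ← xs_append, ← xs_append]
    exact EqT.eq ((show ∀ c ∈ clsTF, EqT (tab chevF4) ([29, 41, 44] ++ c.1) (c.1 ++ [29, 41, 44]) by rw [tabF4_eq]; decide +kernel) c h1)
  · obtain ⟨O, h1, a⟩ := invF h2 hφ g hg e
    obtain ⟨c, h7, rfl⟩ := List.mem_map.1 h1
    exact ⟨_, List.mem_map_of_mem h7, a⟩
  · simpa [commutatorElement_def] using mul_mem (Subgroup.mem_sup_right (Subgroup.commutator_mem_commutator hg
      (sup_le (Subgroup.zpowers_le.2 h5) (Subgroup.commutator_le_self _) hm))) hm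
  · rcases orbF_cases i with h1 | h1
    · refine Subgroup.mem_sup_right (hc g (h.adm.hU i hg) ?_)
      rw [orbF1.orb i h1] at hg
      obtain ⟨c, -, rfl⟩ := (TwF.mem_Um_fix cov_ad orbF1.orth orbF1.inv).1 hg
      rw [← orbF1.orth.prod_mul (adS _ _) (fun j => x_mem_A1 _ j _) fun j => x_mem_A1 _ j _]
      simp only [x_mul_self]; simp
    · rw [orbF2 i h1] at hg
      obtain ⟨t, u, rfl⟩ := (mem_UF2 h2).1 hg
      have a : ∀ u, yF φ 0 u ∈ ⁅twistedF4 (ZMod 2) (2 ^ 0), twistedF4 (ZMod 2) (2 ^ 0)⁆ := fun u =>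
        hc _ (eqF h2 hφ ▸ yF_mem h2 0 u) (by rw [(szF h2).y_mul]; simp [CharTwo.add_self_eq_zero])
      obtain rfl | rfl := (show ∀ t : ZMod 2, t = 0 ∨ t = 1 by decide) t
      · exact Subgroup.mem_sup_right (a u)
      · obtain ⟨k, b1, b2⟩ := h4.symm
        have b3 : yF φ 1 u = k * xs chevF4 (ZMod 2) [29, 41, 44] * k⁻¹ * (xs chevF4 (ZMod 2) [29, 41, 44])⁻¹ * xs chevF4 (ZMod 2) [29, 41, 44] * yF φ 0 u := by
          rw [inv_mul_cancel_right, b2, show xs chevF4 (ZMod 2) [27, 25, 28] = yF φ 1 0 by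
            refine (xs_map (F := ZMod 2) [rF 27, rF 25, rF 28]).trans ?_
            simp only [szY, q4, map_zero, map_one, mul_one, add_zero, ne_eq, OfNat.ofNat_ne_zero, not_false_eq_true, zero_pow, StSys.x_zero]; simp [prod, mul_assoc], (szF h2).y_mul]; simp
        rw [b3]
        exact mul_mem (mul_mem (Subgroup.mem_sup_right (Subgroup.commutator_mem_commutator b1 h5)) (Subgroup.mem_sup_left (Subgroup.mem_zpowers _)))
          (Subgroup.mem_sup_right (a u))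

end H12
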