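import Cfsg.Agent.H12.Tab
import Cfsg.Agent.H24.HP
/-! Minimal degrees of simply-laced groups: abstract root systems `MD.Sys`, fixed spaces `Fx`, weight spaces `W`,
Heisenberg halving (`heis`, `lag`), the vacuum line of a Lagrangian (`run`) and the lower bound `lower`. -/

set_option autoImplicit false

namespace H12.MD
open H24 Module

/-- root elements indexed by naturals with simply-laced relations -/
structure Sys (n : ℕ) (c : ℕ → ℕ → ℕ) (pr : ℕ → ℕ → ℤ) (F G : Type*) [Field F] [Group G] where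
  x : ℕ → F → G
  h : ℕ → Fˣ → G
  add : ∀ r t u, x r (t + u) = x r t * x r u
  rel0 : ∀ r < n, ∀ s < n, r + s + 1 ≠ n → c r s = 0 → ∀ t u, x s u * x r t = x r t * x s u
  rel1 : ∀ r < n, ∀ s < n, c r s ≠ 0 → c r s % 256 < n ∧ ∃ e : F, e ≠ 0 ∧
    ∀ t u, x s u * x r t = x r t * x s u * x (c r s % 256) (e * t * u)
  tor : ∀ e < n, ∀ r < n, ∀ z t, h e z * x r t * (h e z)⁻¹ = x r ((z ^ pr e r : Fˣ) * t)

section chk
variable (n : ℕ) (c : ℕ → ℕ → ℕ) (pr : ℕ → ℕ → ℤ)

noncomputable def tb (K r : ℕ) : Bool := Nat.beq (Nat.land (Nat.shiftRight K r) 1) 1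
noncomputable def ok (K b r : ℕ) : Bool :=
  Bool.rec (Bool.rec (tb K (Nat.mod (c b r) 256)) true (Nat.beq (c b r) 0)) false (Nat.beq (Nat.succ (Nat.add b r)) n)
noncomputable def allB (f : ℕ → Bool) (u : List ℕ) (X : ℕ) : Bool :=
  List.rec (motive := fun _ => ℕ → Bool) (fun X => Nat.beq X 0) (fun r _ ih X =>
    Bool.rec false (ih (Nat.xor X (Nat.pow 2 r))) (f r)) u X
noncomputable def pres (K L : ℕ) (l : List ℕ) (a b : ℕ) : Bool :=
  and (Nat.blt b n) (and (ok n c K b a) (allB (ok n c K b) l L))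
noncomputable def ins (K b : ℕ) : ℕ := Nat.lor K (Nat.pow 2 b)
noncomputable def lagM : List (ℕ × ℕ) → ℕ → ℕ
  | [], K => K
  | p :: L, K => lagM L (ins K p.1)
noncomputable def lagOK (a : ℕ) : List (ℕ × ℕ) → ℕ → List ℕ → Bool
  | [], _, _ => true
  | p :: L, K, l => and (and (and (pres n c K K l a p.1) (pres n c K K l a p.2))
      (and (not (Nat.beq (c p.2 p.1) 0)) (Nat.beq (Nat.mod (c p.2 p.1) 256) a))) (lagOK a L (ins K p.1) (p.1 :: l))
noncomputable def runOK (T : Bool) (L : ℕ) (l : List ℕ) (a N : ℕ) : List (Bool × ℕ × ℕ) → ℕ → Bool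
  | [], K => Nat.beq (Nat.land N K) N
  | (false, b, d) :: S, K => and (and (pres n c K L l a b) (and (pres n c K L l a d) (not (Nat.beq (c b d) 0))))
      (runOK T L l a N S (ins K (Nat.mod (c b d) 256)))
  | (true, b, d) :: S, K => and (and (and T (pres n c K L l a b))
      (and (Nat.blt d n) (and (decide (pr d a = 0)) (decide (pr d b = 1))))) (runOK T L l a N S (ins K b))
noncomputable def mskL : ℕ → List ℕ
  | 0 => []
  | k + 1 => (n - 1 - k) :: mskL k
noncomputable def msk : ℕ → ℕ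
  | 0 => 0
  | k + 1 => ins (msk k) (n - 1 - k)

end chk

theorem testBit_ins (K b r : ℕ) : (ins K b).testBit r = true ↔ K.testBit r = true ∨ r = b := by
  change (K ||| 2 ^ b).testBit r = true ↔ _
  rw [Nat.testBit_or, Nat.testBit_two_pow, Bool.or_eq_true, decide_eq_true_eq]
  exact or_congr_right eq_comm

theorem beq_false {a b : ℕ} : Nat.beq a b = false ↔ a ≠ b := by
  rw [← Bool.not_eq_true, Nat.beq_eq]

theorem tb_eq {K r : ℕ} (h : tb K r = true) : K.testBit r = true := by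
  have : (K >>> r) &&& 1 = 1 := Nat.eq_of_beq_eq_true h
  rw [Nat.testBit, Nat.and_comm, this]; rfl

theorem allB_spec {f : ℕ → Bool} {u : List ℕ} {X : ℕ} (h : allB f u X = true) {r : ℕ} (hr : X.testBit r = true) :
    f r = true := by
  induction u generalizing X with
  | nil => rw [Nat.eq_of_beq_eq_true h] at hr; simp at hr
  | cons x u ih =>
    change Bool.rec (motive := fun _ => Bool) false (allB f u (X ^^^ 2 ^ x)) (f x) = true at h
    cases h1 : f x
    · rw [h1] at h; exact absurd h (by simp)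
    rw [h1] at h
    by_cases e : x = r
    · rw [← e, h1]
    · exact ih h (by rw [Nat.testBit_xor, hr, Nat.testBit_two_pow_of_ne e]; rfl)

theorem ok_spec {n : ℕ} {c : ℕ → ℕ → ℕ} {K b r : ℕ} (h : ok n c K b r = true) :
    b + r + 1 ≠ n ∧ (c b r = 0 ∨ K.testBit (c b r % 256) = true) := by
  unfold ok at h
  cases h0 : Nat.beq (Nat.succ (Nat.add b r)) n <;> rw [h0] at h
  · refine ⟨beq_false.1 h0, ?_⟩
    cases h1 : Nat.beq (c b r) 0 <;> rw [h1] at h
    · exact Or.inr (tb_eq h)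
    · exact Or.inl (Nat.eq_of_beq_eq_true h1)
  · exact absurd h (by simp)

variable {n : ℕ} {c : ℕ → ℕ → ℕ} {pr : ℕ → ℕ → ℤ} {F G : Type*} [Field F] [Group G] (S : Sys n c pr F G)
  {M : Type*} [AddCommGroup M] [Module ℂ M] (ρ : G →* End ℂ M) (ψ : AddChar F ℂ)

theorem app (g h : G) (v : M) : ρ (g * h) v = ρ g (ρ h v) := by rw [map_mul, End.mul_apply]

/-- vectors fixed by the root subgroups in a mask -/
def Fx (K : ℕ) : Submodule ℂ M where
  carrier := {v | ∀ r < n, K.testBit r = true → ∀ t, ρ (S.x r t) v = v}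
  add_mem' ha hb r h1 h2 t := by rw [map_add, ha r h1 h2, hb r h1 h2]
  zero_mem' r h1 h2 t := map_zero _
  smul_mem' a v hv r h1 h2 t := by rw [map_smul, hv r h1 h2]

/-- weight space of one root subgroup -/
noncomputable def J (r : ℕ) (a : F) : Submodule ℂ M := jes (fun t => ρ (S.x r t)) fun t => ψ (t * a)
/-- weight space inside a fixed space -/
noncomputable def W (K r : ℕ) (a : F) : Submodule ℂ M := Fx S ρ K ⊓ J S ρ ψ r a

theorem mem_Fx {K : ℕ} {v : M} : v ∈ Fx S ρ K ↔ ∀ r < n, K.testBit r = true → ∀ t, ρ (S.x r t) v = v := Iff.rfl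
theorem mem_J {r : ℕ} {a : F} {v : M} : v ∈ J S ρ ψ r a ↔ ∀ t, ρ (S.x r t) v = ψ (t * a) • v := Iff.rfl
theorem Fx_zero : Fx S ρ 0 = ⊤ := eq_top_iff.2 fun _ _ r _ h => by simp at h
theorem Fx_ins {K b : ℕ} (hb : b < n) : Fx S ρ (ins K b) = Fx S ρ K ⊓ J S ρ ψ b 0 := by
  ext v
  simp only [Submodule.mem_inf, mem_Fx, mem_J, testBit_ins, mul_zero, AddChar.map_zero_eq_one, one_smul]
  exact ⟨fun h => ⟨fun r h1 h2 => h r h1 (Or.inl h2), h b hb (Or.inr rfl)⟩,
    fun h r h1 h2 => h2.elim (h.1 r h1) fun e => e ▸ h.2⟩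

variable {S ρ} in
theorem ok_comm {K b r : ℕ} (hb : b < n) (hr : r < n) (h : ok n c K b r = true) {v : M} (hv : v ∈ Fx S ρ K) (t u : F) :
    ρ (S.x r t) (ρ (S.x b u) v) = ρ (S.x b u) (ρ (S.x r t) v) := by
  replace h := ok_spec h
  by_cases h0 : c b r = 0
  · rw [← app, ← app, S.rel0 b hb r hr h.1 h0]
  · obtain ⟨h1, e, -, he⟩ := S.rel1 b hb r hr h0
    rw [← app, he, app, hv _ h1 (h.2.resolve_left h0), app]

theorem pres_lt {K L a b : ℕ} {l : List ℕ} (h : pres n c K L l a b = true) : b < n := by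
  simp only [pres, Bool.and_eq_true, Nat.blt_eq] at h
  exact h.1

variable {S ρ} in
theorem pres_Fx {K L a b : ℕ} {l : List ℕ} (h : pres n c K L l a b = true) {v : M} (hv : v ∈ Fx S ρ K) (hL : v ∈ Fx S ρ L) (u : F) :
    ρ (S.x b u) v ∈ Fx S ρ L := fun r h1 h2 t => by
  simp only [pres, Bool.and_eq_true, Nat.blt_eq] at h
  rw [ok_comm h.1 h1 (allB_spec h.2.2 h2) hv, hL r h1 h2]

variable {S ρ ψ} in
theorem pres_W {K L a b : ℕ} {l : List ℕ} (ha : a < n) (h : pres n c K L l a b = true) {m : F} {v : M} (hv : v ∈ Fx S ρ K)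
    (hL : v ∈ W S ρ ψ L a m) (u : F) : ρ (S.x b u) v ∈ W S ρ ψ L a m := ⟨pres_Fx h hv hL.1 u, fun t => by
  simp only [pres, Bool.and_eq_true, Nat.blt_eq] at h
  change ρ _ _ = _
  rw [ok_comm h.1 ha h.2.1 hv, (mem_J S ρ ψ).1 hL.2, map_smul]⟩

variable {S ρ ψ} in
theorem tor_W {K a e : ℕ} (ha : a < n) (he : e < n) (z : Fˣ) {m : F} {v : M} (hv : v ∈ W S ρ ψ K a m) :
    ρ (S.h e z) v ∈ W S ρ ψ K a (m * (z ^ pr e a : Fˣ)⁻¹) := by
  have key : ∀ r < n, ∀ t, ρ (S.x r t) (ρ (S.h e z) v) = ρ (S.h e z) (ρ (S.x r ((z ^ pr e r : Fˣ)⁻¹ * t)) v) := fun r hr t => by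
    rw [← app, ← app, mul_inv_eq_iff_eq_mul.1 (S.tor e he r hr z _), Units.mul_inv_cancel_left]
  refine ⟨fun r h1 h2 t => by rw [key r h1, hv.1 r h1 h2], fun t => ?_⟩
  change ρ _ _ = _
  rw [key a ha, (mem_J S ρ ψ).1 hv.2, map_smul]
  congr 2; ring

variable [FiniteDimensional ℂ M]

theorem scal {U : Submodule ℂ M} (hU : finrank ℂ U ≤ 1) {v w : M} (hv : v ∈ U) (hw : w ∈ U) (h0 : v ≠ 0) :
    ∃ d : ℂ, w = d • v := by
  obtain ⟨u, hu⟩ := finrank_le_one_iff.1 hU
  obtain ⟨a, ha⟩ := hu ⟨v, hv⟩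
  obtain ⟨b, hb⟩ := hu ⟨w, hw⟩
  have ha' : a • (u : M) = v := congrArg Subtype.val ha
  have hb' : b • (u : M) = w := congrArg Subtype.val hb
  have a0 : a ≠ 0 := by rintro rfl; exact h0 (by rw [← ha', zero_smul])
  exact ⟨b / a, by rw [← ha', ← hb', smul_smul, div_mul_cancel₀ _ a0]⟩

variable {S ρ ψ} in
theorem run {T : Bool} {L a N : ℕ} {l' : List ℕ} (ha : a < n) {m : F} (h1 : finrank ℂ (W S ρ ψ L a m) ≤ 1)
    (hT : T = true → ∃ z : Fˣ, z ≠ 1) (l : List (Bool × ℕ × ℕ)) (K : ℕ) (h : runOK n c pr T L l' a N l K = true)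
    (hK : W S ρ ψ L a m ≤ Fx S ρ K) : W S ρ ψ L a m ≤ Fx S ρ N := by
  induction l generalizing K with
  | nil =>
    have e : N &&& K = N := Nat.eq_of_beq_eq_true h
    refine fun v hv r h2 h3 => hK hv r h2 ?_
    rw [← e, Nat.testBit_and, Bool.and_eq_true] at h3
    exact h3.2
  | cons p l ih =>
    obtain ⟨k, b, d⟩ := p
    cases k
    · simp only [runOK, Bool.and_eq_true, Bool.not_eq_true', beq_false] at h
      obtain ⟨⟨hb, hd, h0⟩, h⟩ := h
      refine ih _ h fun v hv r h2 h3 s => ?_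
      rcases (testBit_ins _ _ _).1 h3 with h3 | rfl
      · exact hK hv r h2 h3 s
      by_cases v0 : v = 0
      · rw [v0, map_zero]
      obtain ⟨-, e, e0, he⟩ := S.rel1 b (pres_lt hb) d (pres_lt hd) h0
      obtain ⟨c1, e1⟩ := scal h1 hv (pres_W ha hb (hK hv) hv (s / e)) v0
      obtain ⟨c2, e2⟩ := scal h1 hv (pres_W ha hd (hK hv) hv 1) v0
      have := congrArg (fun g => ρ g v) (he (s / e) 1)
      simp only [app] at this
      rw [mul_one, mul_div_cancel₀ _ e0] at this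
      refine rep_inj' ρ (S.x d 1) (rep_inj' ρ (S.x b (s / e)) ?_)
      change _ = ρ _ (ρ _ v)
      rw [show Nat.mod (c b d) 256 = c b d % 256 from rfl, ← this, e1, e2, map_smul, map_smul, e1, e2, smul_comm]
    · simp only [runOK, Bool.and_eq_true, Nat.blt_eq, decide_eq_true_eq] at h
      obtain ⟨⟨⟨t1, hb⟩, hd, p0, p1⟩, h⟩ := h
      refine ih _ h fun v hv r h2 h3 s => ?_
      rcases (testBit_ins _ _ _).1 h3 with h3 | rfl
      · exact hK hv r h2 h3 s
      by_cases v0 : v = 0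
      · rw [v0, map_zero]
      obtain ⟨z, hz⟩ := hT t1
      have z1 : (z : F) - 1 ≠ 0 := sub_ne_zero.2 fun e => hz (Units.ext e)
      have hh := tor_W ha hd z hv
      rw [p0, zpow_zero, inv_one, Units.val_one, mul_one] at hh
      obtain ⟨c1, e1⟩ := scal h1 hv hh v0
      obtain ⟨c2, e2⟩ := scal h1 hv (pres_W ha hb (hK hv) hv (s / (z - 1))) v0
      have c0 : c1 ≠ 0 := by
        rintro rfl
        exact v0 (rep_inj' ρ (S.h d z) (by rw [e1, zero_smul, map_zero]))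
      have := congrArg (fun g => ρ g v) (mul_inv_eq_iff_eq_mul.1 (S.tor d hd r h2 z (s / (z - 1))))
      simp only [app, p1, zpow_one] at this
      rw [show (z : F) * (s / (z - 1)) = s / (z - 1) + s by field_simp; ring, S.add, app, e2, map_smul, e1, map_smul, map_smul,
        smul_comm] at this
      refine rep_inj' ρ (S.x r (s / (z - 1))) ?_
      rw [← smul_right_injective M c0 this, e2]

variable [Fintype F] {ψ} (hψ : ψ ≠ 1)
include hψ

theorem sum_fr {U : Submodule ℂ M} {b : ℕ} (hU : ∀ u, ∀ v ∈ U, ρ (S.x b u) v ∈ U) :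
    ∑ m, finrank ℂ ↥(U ⊓ J S ρ ψ b m) = finrank ℂ U := by
  let π : Act F ℂ U :=
    { π u := (ρ (S.x b u)).restrict (hU u)
      map_zero := by
        have : S.x b 0 = 1 := by simpa using S.add b 0 0
        ext v; simp [this]
      map_add s t := by ext v; simp [S.add] }
  rw [← π.sum_finrank_W (mulPairing hψ) (Nat.cast_ne_zero.2 Fintype.card_ne_zero)]
  refine Finset.sum_congr rfl fun m _ => ?_
  have e : (U ⊓ J S ρ ψ b m).comap U.subtype = π.W (mulPairing hψ) m := by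
    ext v
    simp only [Submodule.mem_comap, Submodule.subtype_apply, Submodule.mem_inf, v.2, true_and, mem_J, Act.mem_W]
    exact forall_congr' fun t => ⟨fun h => Subtype.ext h, fun h => congrArg Subtype.val h⟩
  rw [← (Submodule.comapSubtypeEquivOfLe (inf_le_left : U ⊓ J S ρ ψ b m ≤ U)).finrank_eq, e]

theorem heis {K a b d : ℕ} {l : List ℕ} (ha : a < n) (hb : pres n c K K l a b = true) (hd : pres n c K K l a d = true) (h0 : c d b ≠ 0)
    (h1 : c d b % 256 = a) {m : F} (hm : m ≠ 0) :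
    finrank ℂ (W S ρ ψ K a m) = Fintype.card F * finrank ℂ (W S ρ ψ (ins K b) a m) := by
  obtain ⟨-, e, e0, he⟩ := S.rel1 d (pres_lt hd) b (pres_lt hb) h0
  have key : ∀ y y', finrank ℂ ↥(W S ρ ψ K a m ⊓ J S ρ ψ b y) ≤ finrank ℂ ↥(W S ρ ψ K a m ⊓ J S ρ ψ b y') := fun y y' =>
    Act.finrank_le_of_map (rep_inj' ρ (S.x d ((y' - y) / (e * m)))) fun v hv => ⟨pres_W ha hd hv.1.1 hv.1 _, fun t => by
      change ρ _ _ = _
      rw [← app, he, h1, app, app, (mem_J S ρ ψ).1 hv.1.2, map_smul, (mem_J S ρ ψ).1 hv.2, map_smul, map_smul, smul_smul,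
        ← AddChar.map_add_eq_mul]
      congr 2; field_simp; ring⟩
  have e : W S ρ ψ (ins K b) a m = W S ρ ψ K a m ⊓ J S ρ ψ b 0 := by
    rw [W, W, Fx_ins S ρ ψ (pres_lt hb), inf_right_comm]
  rw [← sum_fr S ρ hψ (U := W S ρ ψ K a m) fun u v hv => pres_W ha hb hv.1 hv u,
    Finset.sum_congr rfl fun y _ => le_antisymm (key y 0) (key 0 y), Finset.sum_const, Finset.card_univ, smul_eq_mul, e]

theorem lag {a : ℕ} (ha : a < n) {m : F} (hm : m ≠ 0) (L : List (ℕ × ℕ)) (K : ℕ) {l : List ℕ} (h : lagOK n c a L K l = true) :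
    finrank ℂ (W S ρ ψ K a m) = Fintype.card F ^ L.length * finrank ℂ (W S ρ ψ (lagM L K) a m) := by
  induction L generalizing K l with
  | nil => rw [List.length_nil, pow_zero, one_mul]; rfl
  | cons p L ih =>
    simp only [lagOK, Bool.and_eq_true, Bool.not_eq_true', beq_false, Nat.beq_eq] at h
    rw [heis S ρ hψ ha h.1.1.1 h.1.1.2 h.1.2.1 h.1.2.2 hm, ih _ h.2, lagM, List.length_cons, pow_succ]
    ring

omit hψ [Fintype F] in
theorem tor_le {K a e : ℕ} (ha : a < n) (he : e < n) (hp : pr e a = 1) {m m' : F} (hm : m ≠ 0) (hm' : m' ≠ 0) :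
    finrank ℂ (W S ρ ψ K a m) ≤ finrank ℂ (W S ρ ψ K a m') :=
  Act.finrank_le_of_map (rep_inj' ρ (S.h e (Units.mk0 (m / m') (div_ne_zero hm hm')))) fun v hv => by
    have := tor_W ha he (Units.mk0 (m / m') (div_ne_zero hm hm')) hv
    rwa [hp, zpow_one, Units.val_inv_eq_inv_val, Units.val_mk0, show m * (m / m')⁻¹ = m' by field_simp] at this

theorem split {K a : ℕ} {l : List ℕ} (h : pres n c K K l a a = true) {r : ℕ} (hr : ∀ m ≠ 0, r ≤ finrank ℂ (W S ρ ψ K a m)) :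
    finrank ℂ (Fx S ρ (ins K a)) + (Fintype.card F - 1) * r ≤ finrank ℂ (Fx S ρ K) := by
  classical
  rw [← sum_fr S ρ hψ fun u v hv => pres_Fx h hv hv u, ← Finset.add_sum_erase _ _ (Finset.mem_univ 0),
    Fx_ins S ρ ψ (pres_lt h)]
  have := Finset.card_nsmul_le_sum (Finset.univ.erase (0 : F)) _ r fun m hm => hr m (Finset.mem_erase.1 hm).1
  rw [Finset.card_erase_of_mem (Finset.mem_univ _), Finset.card_univ, smul_eq_mul] at this
  exact Nat.add_le_add_left this _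

theorem W_pos {a e : ℕ} (h : pres n c 0 0 [] a a = true) (he : e < n) (hp : pr e a = 1) (hx : ρ (S.x a 1) ≠ 1) {m : F}
    (hm : m ≠ 0) : 0 < finrank ℂ (W S ρ ψ 0 a m) := by
  obtain ⟨y, h1, h2⟩ := (Act.ofRep ρ (S.x a) (S.add a)).exists_W_ne_bot (mulPairing hψ)
    (Nat.cast_ne_zero.2 Fintype.card_ne_zero) (a := 1) hx
  have y0 : y ≠ 0 := by rintro rfl; exact h1 (Pairing.zero_right _ _)
  refine lt_of_lt_of_le ?_ (tor_le S ρ (pres_lt h) he hp y0 hm)
  rw [W, Fx_zero, top_inf_eq]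
  exact one_le_finrank_of_ne_bot h2

end H12.MD

namespace H12.MD
open H24 Module

/-- certificate for one root -/
structure Ct where
  e : ℕ
  L : List (ℕ × ℕ)
  a : ℕ
  d : ℕ
  ea : ℕ
  La : List (ℕ × ℕ)
  T : Bool
  S : List (Bool × ℕ × ℕ)
  H : List (ℕ × ℕ)

/-- the check for the `k`-th root from the top -/
noncomputable def chk (n : ℕ) (c : ℕ → ℕ → ℕ) (pr : ℕ → ℕ → ℤ) (N k : ℕ) (C : Ct) : Bool :=
  and (and (and (pres n c 0 0 [] (n - 1 - k) (n - 1 - k)) (and (Nat.blt C.e n) (decide (pr C.e (n - 1 - k) = 1))))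
    (and (Nat.beq C.L.length N) (lagOK n c (n - 1 - k) C.L 0 [])))
  (and (and (and (pres n c 0 0 [] C.a C.a) (and (Nat.blt C.ea n) (decide (pr C.ea C.a = 1))))
    (and (Nat.beq (C.La.length + 1) N) (lagOK n c C.a ((n - 1 - k, C.d) :: C.La) 0 [])))
  (and (runOK n c pr C.T (lagM C.L 0) (C.L.map Prod.fst) (n - 1 - k) (msk n k) C.S (lagM C.L 0))
    (and (lagOK n c (n - 1 - k) C.H (msk n k) (mskL n k))
      (pres n c (msk n k) (msk n k) (mskL n k) (n - 1 - k) (n - 1 - k)))))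

variable {n : ℕ} {c : ℕ → ℕ → ℕ} {pr : ℕ → ℕ → ℤ} {F G : Type*} [Field F] [Group G] (S : Sys n c pr F G)
  {M : Type*} [AddCommGroup M] [Module ℂ M] (ρ : G →* End ℂ M) [FiniteDimensional ℂ M] [Fintype F]

theorem step (hx : ∀ a < n, ρ (S.x a 1) ≠ 1) {N k : ℕ} {C : Ct} (h : chk n c pr N k C = true)
    (hn : finrank ℂ M < Fintype.card F ^ (N - 1) + (Fintype.card F - 1) * (2 * Fintype.card F ^ N)) :
    finrank ℂ (Fx S ρ (msk n (k + 1))) + (if C.T = true ∧ Fintype.card F = 2 then 0 else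
      (Fintype.card F - 1) * Fintype.card F ^ C.H.length) ≤ finrank ℂ (Fx S ρ (msk n k)) := by
  obtain ⟨ψ, hψ⟩ := exists_addChar_complex F
  simp only [chk, Bool.and_eq_true, Nat.blt_eq, Nat.beq_eq, decide_eq_true_eq] at h
  obtain ⟨⟨⟨h1, h2, h3⟩, h4, h5⟩, ⟨⟨g1, g2, g3⟩, g4, g5⟩, h6, h7, h8⟩ := h
  have ha := pres_lt h1
  have q0 : 0 < Fintype.card F := Fintype.card_pos
  split_ifs with hT
  · exact split S ρ hψ h8 (r := 0) fun _ _ => Nat.zero_le _
  refine split S ρ hψ h8 fun m hm => ?_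
  have l1 := fun m' (hm' : m' ≠ 0) => lag S ρ hψ ha hm' _ _ h5
  have p1 := W_pos S ρ hψ h1 h2 h3 (hx _ ha) hm
  have f1 : Fintype.card F ^ (N - 1) ≤ finrank ℂ (Fx S ρ (ins 0 (n - 1 - k))) := by
    have p2 := W_pos S ρ hψ g1 g2 g3 (hx _ (pres_lt g1)) hm
    have l2 := lag S ρ hψ (pres_lt g1) hm _ _ g5
    simp only [lagOK, Bool.and_eq_true] at g5
    have l3 := lag S ρ hψ (pres_lt g1) hm _ _ g5.2
    rw [l2, lagM] at p2
    refine le_trans ?_ (Submodule.finrank_mono (s := W S ρ ψ (ins 0 (n - 1 - k)) C.a m) inf_le_left)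
    rw [l3, ← g4, Nat.add_sub_cancel]
    exact Nat.le_mul_of_pos_right _ (Nat.pos_of_mul_pos_left p2)
  have one : finrank ℂ (W S ρ ψ (lagM C.L 0) (n - 1 - k) m) ≤ 1 := by
    by_contra hc
    have := split S ρ hψ h1 (r := 2 * Fintype.card F ^ N) fun m' hm' => by
      rw [l1 m' hm', h4, mul_comm]
      exact Nat.mul_le_mul_left _ (le_trans (by omega) (tor_le S ρ ha h2 h3 hm hm'))
    rw [Fx_zero, finrank_top] at this
    omega
  have r1 := run ha one (fun t => by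
    have : 2 < Fintype.card F := lt_of_le_of_ne Fintype.one_lt_card fun e => hT ⟨t, e.symm⟩
    classical
    have : 1 < Fintype.card Fˣ := by rw [Fintype.card_units]; omega
    exact Fintype.exists_ne_of_one_lt_card this 1) _ _ h6 inf_le_left
  have p3 : 0 < finrank ℂ (W S ρ ψ (msk n k) (n - 1 - k) m) := by
    rw [l1 m hm] at p1
    exact lt_of_lt_of_le (Nat.pos_of_mul_pos_left p1) (Submodule.finrank_mono (le_inf r1 inf_le_right))
  rw [lag S ρ hψ ha hm _ _ h7] at p3 ⊢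
  exact Nat.le_mul_of_pos_right _ (Nat.pos_of_mul_pos_left p3)

theorem lower (hx : ∀ a < n, ρ (S.x a 1) ≠ 1) {N : ℕ} {C : ℕ → Ct} (k : ℕ) (h : ∀ i < k, chk n c pr N i (C i) = true)
    (hn : finrank ℂ M < Fintype.card F ^ (N - 1) + (Fintype.card F - 1) * (2 * Fintype.card F ^ N)) :
    finrank ℂ (Fx S ρ (msk n k)) + ((List.range k).map fun i => if (C i).T = true ∧ Fintype.card F = 2 then 0 else
      (Fintype.card F - 1) * Fintype.card F ^ (C i).H.length).sum ≤ finrank ℂ M := by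
  induction k with
  | zero => simpa using Submodule.finrank_le _
  | succ k ih =>
    have := step S ρ hx (h k (by omega)) hn
    have := ih fun i hi => h i (by omega)
    rw [List.range_succ, List.map_append, List.sum_append]
    simp only [List.map_cons, List.map_nil, List.sum_cons, List.sum_nil]
    omega

end H12.MD
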