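import Cfsg.Agent.H12.MD2
import Cfsg.Agent.H11.PSLn
import Cfsg.Agent.H24.LSsl
/-! Minimal degree of `E₆(q)`: re-indexed systems (`Sys.perm`), the Levi factor `SL₆(q)` (`lowerE6`). -/

set_option autoImplicit false

namespace H12.MD
open Cfsg.Lie H12.StSys H24 Module

/-- compatibility of a re-indexing -/
def PermT (n : ℕ) (c c' : ℕ → ℕ → ℕ) (π : ℕ → ℕ) : Prop := ∀ r < n, π r < n ∧ ∀ s < n,
  (c' r s = 0 → r + s + 1 ≠ n → π r + π s + 1 ≠ n ∧ c (π r) (π s) = 0) ∧
  (c' r s ≠ 0 → c' r s % 256 < n ∧ c (π r) (π s) ≠ 0 ∧ c (π r) (π s) % 256 = π (c' r s % 256))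
noncomputable instance decPermT (n : ℕ) (c c' : ℕ → ℕ → ℕ) (π : ℕ → ℕ) : Decidable (PermT n c c' π) := by
  unfold PermT; infer_instance

/-- a re-indexed system -/
def Sys.perm {n : ℕ} {c c' : ℕ → ℕ → ℕ} {pr : ℕ → ℕ → ℤ} {F G : Type*} [Field F] [Group G] (S : Sys n c pr F G) {π : ℕ → ℕ}
    (h : PermT n c c' π) : Sys n c' (fun e r => pr (π e) (π r)) F G where
  x r := S.x (π r)
  h e := S.h (π e)
  add r := S.add (π r)
  rel0 r hr s hs h1 h2 := S.rel0 _ (h r hr).1 _ (h s hs).1 (((h r hr).2 s hs).1 h2 h1).1 (((h r hr).2 s hs).1 h2 h1).2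
  rel1 r hr s hs h1 := by
    obtain ⟨a, b, d⟩ := ((h r hr).2 s hs).2 h1
    exact ⟨a, d ▸ (S.rel1 _ (h r hr).1 _ (h s hs).1 b).2⟩
  tor e he r hr := S.tor _ (h e he).1 _ (h r hr).1

theorem comm_sgn {D : ChevalleyDatum} [Good D] {F Γ : Type*} [Field F] [Group Γ] (S : StSys D F Γ) {r s k : ℕ} {e : ℤ}
    (h : r < D.nroots ∧ s < D.nroots ∧ k < D.nroots ∧ s ≠ r ∧ s ≠ (tab D).ng r ∧ (tab D).terms r s = [(k, e, 1, 1)]) (t u : F) :
    S.xN s u * S.xN r t = S.xN r t * S.xN s u * S.xN k (e * (-t) * u) := by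
  obtain ⟨hr, hs, hk, a1, a2, a4⟩ := h
  rw [xN_lt _ hr, xN_lt _ hs, xN_lt _ hk, S.comm (r := ⟨r, hr⟩) (s := ⟨s, hs⟩) (fun e' => a1 (congrArg Fin.val e'))
    (fun e' => a2 (congrArg Fin.val e')), cword, cterms, show D.commTerms r s = _ from a4, toΦ_cons_lt hk]
  simp

noncomputable def lP6 : List Ct := [
  ⟨51, decP 10 0x33463445354436433742384139403a3f3b3e3c3d, 70, 20, 20, decP 9 0x2745284429432b422c412d40303c313b323a, false, decS 0 0x0, decP 10 0x33463445354436433742384139403a3f3b3e3c3d⟩,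
  ⟨20, decP 10 0x14472745284429432b422c412d40303c313b323a, 71, 51, 51, decP 9 0x3445354436433742384139403a3f3b3e3c3d, false, decS 0 0x0, decP 9 0x2745284429432b422c412d40303c313b323a⟩,
  ⟨19, decP 10 0x13472046254426432a422c3f2d3e2f3c31393238, 71, 52, 51, decP 9 0x3346354436433742384139403a3f3b3e3c3d, false, decS 0 0x0, decP 8 0x254426432a422c3f2d3e2f3c31393238⟩,
  ⟨18, decP 10 0x12471f46224524432a412b3f2d3d2f3b30393237, 71, 53, 51, decP 9 0x3346344536433742384139403a3f3b3e3c3d, false, decS 0 0x0, decP 7 0x24432a412b3f2d3d2f3b30393237⟩,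
  ⟨17, decP 10 0x11471e46214523442a402b3e2c3d2f3a30383137, 71, 54, 51, decP 9 0x3346344535443742384139403a3f3b3e3c3d, false, decS 0 0x0, decP 6 0x2a402b3e2c3d2f3a30383137⟩,
  ⟨16, decP 10 0x10471c461d4525412640283f293e2e3c31363235, 71, 55, 51, decP 9 0x3346344535443643384139403a3f3b3e3c3d, false, decS 2 0x4324004423, decP 7 0x25412640283f293e2e3c31363235⟩,
  ⟨15, decP 10 0xf471b461d4422422440273f293d2e3b30363234, 71, 56, 51, decP 9 0x3346344535443643374239403a3f3b3e3c3d, false, decS 2 0x4326004521, decP 6 0x2440273f293d2e3b30363234⟩,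
  ⟨14, decP 10 0xe471a461d4321422341273e283d2e3a30353134, 71, 57, 51, decP 9 0x3346344535443643374238413a3f3b3e3c3d, false, decS 2 0x4425004522, decP 5 0x273e283d2e3a30353134⟩,
  ⟨13, decP 10 0xd471b451c441f422041243e263d2e392f363233, 71, 58, 51, decP 9 0x33463445354436433742384139403b3e3c3d, false, decS 3 0x432900461e00461a, decP 5 0x243e263d2e392f363233⟩,
  ⟨12, decP 10 0xc471a451c431e422040233f253d2e382f353133, 71, 59, 51, decP 9 0x33463445354436433742384139403a3f3c3d, false, decS 3 0x442800461f00461b, decP 4 0x253d2e382f353133⟩,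
  ⟨11, decP 10 0xb471a441b431e411f40213f223e2e372f343033, 71, 60, 51, decP 9 0x33463445354436433742384139403a3f3b3e, false, decS 3 0x452700462000461c, decP 3 0x2e372f343033⟩,
  ⟨10, decP 10 0xa47174618451942253b263a283929382c362d35, 71, 61, 51, decP 9 0x33463445354436433742384139403a3f3b3e, false, decS 9 0x441a00432400442300441d00431d00441c00431c004115003f15, decP 6 0x253b263a283929382c362d35⟩,
  ⟨9, decP 10 0x947164618441941223c243a273929372b362d34, 71, 62, 51, decP 9 0x33463445354436433742384139403a3f3c3d, false, decS 9 0x451a00432600452100451d00431d00451b00431b004215003f15, decP 5 0x243a273929372b362d34⟩,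
  ⟨8, decP 10 0x847154618431940213c233b273828372b352c34, 71, 63, 51, decP 9 0x33463445354436433742384139403b3e3c3d, false, decS 9 0x451b00442500452200451d00441d00451a00441a004216003e16, decP 4 0x273828372b352c34⟩,
  ⟨7, decP 10 0x74716451744193f1f3c203b243826372a362d33, 71, 64, 51, decP 9 0x3346344535443643374238413a3f3b3e3c3d, false, decS 10 0x461a00432900461e00461c00431c00461b00431b004615004215004115, decP 4 0x243826372a362d33⟩,
  ⟨6, decP 10 0x64715451743193e1e3c203a233925372a352c33, 71, 65, 51, decP 9 0x3346344535443643374239403a3f3b3e3c3d, false, decS 10 0x461b00442800461f00461c00441c00461a00441a004616004216004016, decP 3 0x25372a352c33⟩,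
  ⟨5, decP 10 0x54715441643193d1e3b1f3a21392238342a332b, 71, 66, 51, decP 9 0x3346344535443643384139403a3f3b3e3c3d, false, decS 9 0x412500362c004527004024004123004620004120004020003c11, decP 2 0x2a342b33⟩,
  ⟨4, decP 10 0x44716421741183f1b3c1c3b1d39243526342933, 71, 67, 51, decP 9 0x3346344535443742384139403a3f3b3e3c3d, false, decS 10 0x461e00452700462000461f00461a00451a00441a004615004515004415, decP 3 0x243526342933⟩,
  ⟨3, decP 10 0x34715421740183e1a3c1c3a1d38233625342833, 71, 68, 51, decP 9 0x3346344536433742384139403a3f3b3e3c3d, false, decS 10 0x461f00452700462000461e00461b00451b00431b004616004516004316, decP 2 0x25342833⟩,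
  ⟨2, decP 10 0x24715411640183d1a3b1b3a1d37213622352733, 71, 69, 51, decP 9 0x3346354436433742384139403a3f3b3e3c3d, false, decS 10 0x462000442800461f00461e00461c00441c00431c004617004417004317, decP 1 0x2733⟩,
  ⟨1, decP 10 0x147153f163e173d1a391b381c371e361f352034, 71, 70, 51, decP 9 0x3445354436433742384139403a3f3b3e3c3d, false, decS 10 0x452700442500452200452100451d00441d00431d004518004418004318, decP 0 0x0⟩,
  ⟨13, decP 10 0xd460f45104412421341143f24312630292f2d2e, 70, 58, 20, decP 9 0x14472745284429432b422c412d40303c313b, false, decS 15 0x3c21003c1e003b1e003c1a003b1a00391a004336003b25003c22003c1f003c1b00471100470e00470c00470b, decP 4 0x24312630292f2d2e⟩]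
def thP6 : List (Bool × ℕ) := [(false, 10), (false, 9), (false, 8), (false, 7), (false, 6), (false, 7), (false, 6), (false, 5), (false, 5), (false, 4), (false, 3), (false, 6), (false, 5), (false, 4), (false, 4), (false, 3), (false, 2), (false, 3), (false, 2), (false, 1), (false, 0), (false, 4)]
def piE6 : ℕ := 0x47464544434241403f3e3d37363534333231302f2e3c3b3a39382d2c2b2a292827262524232221201f1e1d1c1b1a0f0e0d0c0b191817161514131211100a09080706050403020100
def pinvE6 : ℕ := 0x47464544434241403f3e3d3231302f2e3c3b3a393837363534332d2c2b2a292827262524232221201f1e1d1c1b1a14131211100f0e0d0c0b19181716150a09080706050403020100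
def rtA5 : ℕ := 0x23211e1a152400221f1b16262500201c17292827001d182d2c2b2a00193231302f2e00
def sgA5 : ℕ := 0x222888222888222888
noncomputable def ctP6 (i : ℕ) : Ct := lP6.getD i ⟨0, [], 0, 0, 0, [], true, [], []⟩
noncomputable def πE6 (r : ℕ) : ℕ := fld piE6 8 r
noncomputable def cP6 (r s : ℕ) : ℕ :=
  Bool.rec (Nat.add 256 (fld pinvE6 8 (Nat.mod (cE6 (πE6 r) (πE6 s)) 256))) 0 (Nat.beq (cE6 (πE6 r) (πE6 s)) 0)
noncomputable def rt5 (i j : Fin 6) : ℕ := fld rtA5 8 (6 * i + j)
noncomputable def sg5 (i j : Fin 6) : ℤ := fldZ sgA5 2 1 (6 * i + j)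

theorem permE6 : PermT 72 cE6 cP6 πE6 := by decide +kernel
theorem chkP6 : ∀ i < 22, chk 72 cP6 (fun e r => (tab chevE6).pr (πE6 e) (πE6 r)) 10 i (ctP6 i) = true := by
  rw [tabE6_eq]; decide +kernel
theorem lenP6 : (List.range 21).map (fun i => ((ctP6 i).T, (ctP6 i).H.length)) = thP6.take 21 ∧ (ctP6 21).T = false := by
  decide +kernel
theorem a5_pres : ∀ i j, i ≠ j → pres 72 cP6 (msk 72 21) (msk 72 21) (mskL 72 21) (rt5 i j) (rt5 i j) = true := by decide +kernel
theorem a5_comm : ∀ i j k l, i ≠ j → k ≠ l → i ≠ l → j ≠ k → rt5 i j < 72 ∧ rt5 k l < 72 ∧ rt5 i j + rt5 k l + 1 ≠ 72 ∧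
    cP6 (rt5 i j) (rt5 k l) = 0 := by decide +kernel
set_option synthInstance.maxSize 1000 in
theorem a5_sgn : ∀ i j l, i ≠ j → j ≠ l → i ≠ l → sg5 i j * sg5 i j = 1 ∧ sg5 j l * sg5 j l = 1 ∧ πE6 (rt5 j l) < 72 ∧
    πE6 (rt5 i j) < 72 ∧ πE6 (rt5 i l) < 72 ∧ πE6 (rt5 i j) ≠ πE6 (rt5 j l) ∧ πE6 (rt5 i j) ≠ (tab chevE6).ng (πE6 (rt5 j l)) ∧
    (tab chevE6).terms (πE6 (rt5 j l)) (πE6 (rt5 i j)) = [(πE6 (rt5 i l), -(sg5 i j * sg5 j l * sg5 i l), 1, 1)] := by
  rw [tabE6_eq]; decide +kernel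

theorem lowerE6 {F G M : Type*} [Field F] [Fintype F] [Group G] (S : StSys chevE6 F G) [AddCommGroup M] [Module ℂ M]
    [FiniteDimensional ℂ M] (ρ : G →* End ℂ M) (hx : ∀ a < 72, ρ (S.xN a 1) ≠ 1)
    (hn : finrank ℂ M < Fintype.card F ^ 9 + (Fintype.card F - 1) * (2 * Fintype.card F ^ 10)) :
    ([1, 4, 5, 7, 8, 11].map fun d => Fintype.card F ^ d).sum ≤ finrank ℂ M + 1 := by
  classical
  let S' := (show Sys 72 cE6 _ F G from sysOf S relE6).perm permE6
  have hx' : ∀ a < 72, ρ (S'.x a 1) ≠ 1 := fun a ha => hx _ (permE6 a ha).1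
  have lo := lower S' ρ hx' 21 (fun i hi => chkP6 i (by omega)) hn
  have st := step S' ρ hx' (chkP6 21 (by omega)) hn
  rw [show (List.range 21).map _ = (thP6.take 21).map fun x => if x.1 = true ∧ Fintype.card F = 2 then 0 else
    (Fintype.card F - 1) * Fintype.card F ^ x.2 by rw [← lenP6.1, List.map_map]; rfl] at lo
  have q2 : 2 ≤ Fintype.card F := Fintype.one_lt_card
  have cm : ∀ i j k l, i ≠ j → k ≠ l → i ≠ l → j ≠ k → ∀ a b, Commute (S'.x (rt5 i j) a) (S'.x (rt5 k l) b) :=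
    fun i j k l h1 h2 h3 h4 a b => by
      obtain ⟨b1, b2, b3, b4⟩ := a5_comm i j k l h1 h2 h3 h4
      exact (S'.rel0 _ b1 _ b2 b3 b4 a b).symm
  obtain ⟨θ, hθ⟩ := H11.sl_hom (n := 6) (F := F) (by norm_num) (fun i j a => S'.x (rt5 i j) (sg5 i j * a))
    (fun i j _ => ⟨fun a b => by rw [mul_add, S'.add]⟩) (fun i j k l h1 h2 h3 h4 a b => cm i j k l h1 h2 h3 h4 _ _)
    fun i j l h1 h2 h3 a b => by
      obtain ⟨b1, b2, b3⟩ := a5_sgn i j l h1 h2 h3
      have := comm_sgn S b3 (sg5 j l * b) (sg5 i j * a)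
      have e : ((-(sg5 i j * sg5 j l * sg5 i l) : ℤ) : F) * -(sg5 j l * b) * (sg5 i j * a) = sg5 i l * (a * b) := by
        have c1 := congrArg (Int.cast : ℤ → F) b1
        have c2 := congrArg (Int.cast : ℤ → F) b2
        push_cast at c1 c2 ⊢
        linear_combination (sg5 j l * sg5 j l * sg5 i l * a * b : F) * c1 + (sg5 i l * a * b : F) * c2
      rw [e] at this
      change S'.x (rt5 i j) _ * S'.x (rt5 j l) _ = S'.x (rt5 j l) _ * S'.x (rt5 i j) _ * S'.x (rt5 i l) _ at this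
      rw [this, mul_assoc, mul_assoc, mul_assoc, ← mul_assoc (S'.x (rt5 i l) _), (cm i l i j h3 h1 h1 h3.symm _ _).inv_right.eq,
        mul_assoc, mul_inv_cancel_left, (cm i l j l h3 h2 h3 h2.symm _ _).inv_right.eq, mul_inv_cancel_left]
  have inv : ∀ g, Fx S' ρ (msk 72 21) ≤ (Fx S' ρ (msk 72 21)).comap ((ρ.comp θ) g) := fun g =>
    H10.SL_transvection_induction (fun g => Fx S' ρ (msk 72 21) ≤ (Fx S' ρ (msk 72 21)).comap ((ρ.comp θ) g))
      (fun i j h a v hv => by
        have := hθ i j h a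
        rw [H11.trv, dif_pos h] at this
        rw [Submodule.mem_comap, MonoidHom.comp_apply, this]
        exact pres_Fx (a5_pres i j h) hv hv _)
      (fun a b ha hb v hv => by rw [Submodule.mem_comap, map_mul]; exact ha (hb hv)) g
  have md := SL_min_degree (n := 6) (by norm_num) (by simp) (Representation.subrepresentation (ρ.comp θ) _ inv) (by
    by_contra hc
    push Not at hc
    have : Fx S' ρ (msk 72 21) ≤ Fx S' ρ (msk 72 (21 + 1)) := fun v hv r h1 h2 t => by
      rcases (testBit_ins _ _ _).1 h2 with h2 | rfl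
      · exact hv r h1 h2 t
      have := congrArg (fun f => (f ⟨v, hv⟩).1) (hc (H11.trv 0 5 t))
      change ρ (θ _) v = v at this
      rwa [hθ 0 5 (by decide), show sg5 0 5 = 1 by decide +kernel, show rt5 0 5 = 72 - 1 - 21 by decide +kernel, Int.cast_one,
        one_mul] at this
    have := Submodule.finrank_mono this
    rw [lenP6.2, if_neg (by simp)] at st
    have : 0 < (Fintype.card F - 1) * Fintype.card F ^ (ctP6 21).H.length := Nat.mul_pos (by omega) (by positivity)
    omega)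
  generalize Fintype.card F = q at *
  obtain ⟨r, rfl⟩ : ∃ r, q = r + 1 := ⟨q - 1, by omega⟩
  simp only [thP6, List.take, List.map_cons, List.map_nil, List.sum_cons, List.sum_nil, Nat.add_sub_cancel, Bool.false_eq_true,
    false_and, if_false, geo, Finset.sum_range_succ, Finset.sum_range_zero] at lo md ⊢
  ring_nf at lo md ⊢
  omega

end H12.MD
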