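import Cfsg.Agent.H12.MD
/-! Minimal degrees of twisted groups with root groups over `F_q` (long) and `F_{q²}` (short): `MD.Sy2`, `lower2`. -/

set_option autoImplicit false

namespace H12.MD
open H24 Module

/-- twisted root elements indexed by naturals -/
structure Sy2 (n : ℕ) (c1 c2 : ℕ → ℕ → ℕ) (lg : ℕ → Bool) (pr : ℕ → ℕ → ℤ) {K : Type*} [Field K] (φ : K →+* K)
    (χ : AddChar K ℂ) (G : Type*) [Group G] where
  x : ℕ → K → G
  h : ℕ → Kˣ → G
  add : ∀ r t u, x r (t + u) = x r t * x r u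
  xn : ∀ t, x n t = 1
  ker : ∀ r < n, lg r = true → ∀ w, x r (w - φ w) = 1
  rel : ∀ r < n, ∀ s < n, r + s + 1 ≠ n → c1 r s ≤ n ∧ c2 r s ≤ n ∧ ∃ f g : K → K → K,
    (∀ t u, x s u * x r t = x r t * x s u * (x (c1 r s) (f t u) * x (c2 r s) (g t u))) ∧
    (c1 r s < n → ∀ w, ∃ t u, f t u = w) ∧ (c2 r s < n → ∀ w, ∃ t u, g t u = w) ∧
    (lg (c1 r s) = true → c1 r s < n → c2 r s = n → ∀ b, (lg s = true → φ b = b) →
      ∃ t, ∀ u m, φ m = m → χ (f t u * m) = χ (u * b * m))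
  tor : ∀ e < n, lg e = true → ∀ r < n, ∀ z : Kˣ, φ z = z → ∀ t, h e z * x r t * (h e z)⁻¹ = x r ((z ^ pr e r : Kˣ) * t)
  inv : ∀ t, φ (φ t) = t
  χφ : ∀ t, χ (φ t) = χ t
  χne : χ ≠ 1

section chk
variable (n : ℕ) (c1 c2 : ℕ → ℕ → ℕ) (lg : ℕ → Bool) (pr : ℕ → ℕ → ℤ)

noncomputable def tbn (K c : ℕ) : Bool := or (Nat.beq c n) (tb K c)
noncomputable def ok2 (K b r : ℕ) : Bool :=
  and (not (Nat.beq (b + r + 1) n)) (and (tbn n K (c1 b r)) (tbn n K (c2 b r)))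
noncomputable def pres2 (K L : ℕ) (l : List ℕ) (a b : ℕ) : Bool :=
  and (Nat.blt b n) (and (ok2 n c1 c2 K b a) (allB (ok2 n c1 c2 K b) l L))
noncomputable def lagOK2 (a : ℕ) : List (ℕ × ℕ) → ℕ → List ℕ → Bool
  | [], _, _ => true
  | p :: L, K, l => and (and (and (pres2 n c1 c2 K K l a p.1) (pres2 n c1 c2 K K l a p.2)) (and (not (Nat.beq (p.2 + p.1 + 1) n))
      (and (Nat.beq (c1 p.2 p.1) a) (Nat.beq (c2 p.2 p.1) n)))) (lagOK2 a L (ins K p.1) (p.1 :: l))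
noncomputable def runOK2 (L : ℕ) (l : List ℕ) (a N : ℕ) : List (Bool × ℕ × ℕ) → ℕ → Bool
  | [], K => Nat.beq (Nat.land N K) N
  | (k, b, d) :: S, K => and (and (and (pres2 n c1 c2 K L l a b) (pres2 n c1 c2 K L l a d)) (and (not (Nat.beq (b + d + 1) n))
      (tbn n K (cond k (c1 b d) (c2 b d))))) (runOK2 L l a N S (ins K (cond k (c2 b d) (c1 b d))))
def ex (L : List (ℕ × ℕ)) : ℕ := (L.map fun p => cond (lg p.1) 1 2).sum
/-- the check for the `k`-th root from the top -/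
noncomputable def chk2 (N k : ℕ) (C : Ct) : Bool :=
  or (and (Nat.blt (n - 1 - k) n) (not (lg (n - 1 - k)))) (and (and (and (pres2 n c1 c2 0 0 [] (n - 1 - k) (n - 1 - k))
    (and (and (Nat.blt C.e n) (lg C.e)) (decide (pr C.e (n - 1 - k) = 1))))
    (and (Nat.beq (ex lg C.L) N) (lagOK2 n c1 c2 (n - 1 - k) C.L 0 [])))
  (and (runOK2 n c1 c2 (lagM C.L 0) (C.L.map Prod.fst) (n - 1 - k) (msk n k) C.S (lagM C.L 0))
    (and (lagOK2 n c1 c2 (n - 1 - k) C.H (msk n k) (mskL n k))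
      (pres2 n c1 c2 (msk n k) (msk n k) (mskL n k) (n - 1 - k) (n - 1 - k)))))

end chk

variable {n : ℕ} {c1 c2 : ℕ → ℕ → ℕ} {lg : ℕ → Bool} {pr : ℕ → ℕ → ℤ} {F G : Type*} [Field F] [Group G] {φ : F →+* F}
  {ψ : AddChar F ℂ} (S : Sy2 n c1 c2 lg pr φ ψ G) {M : Type*} [AddCommGroup M] [Module ℂ M] (ρ : G →* End ℂ M)

namespace Sy2

/-- vectors fixed by the root subgroups in a mask -/
def Fx (K : ℕ) : Submodule ℂ M where
  carrier := {v | ∀ r < n, K.testBit r = true → ∀ t, ρ (S.x r t) v = v}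
  add_mem' ha hb r h1 h2 t := by rw [map_add, ha r h1 h2, hb r h1 h2]
  zero_mem' r h1 h2 t := map_zero _
  smul_mem' a v hv r h1 h2 t := by rw [map_smul, hv r h1 h2]
/-- weight space of one root subgroup -/
noncomputable def J (r : ℕ) (a : F) : Submodule ℂ M := jes (fun t => ρ (S.x r t)) fun t => ψ (t * a)
/-- weight space inside a fixed space -/
noncomputable def W (K r : ℕ) (a : F) : Submodule ℂ M := S.Fx ρ K ⊓ S.J ρ r a

theorem mem_Fx {K : ℕ} {v : M} : v ∈ S.Fx ρ K ↔ ∀ r < n, K.testBit r = true → ∀ t, ρ (S.x r t) v = v := Iff.rfl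
theorem mem_J {r : ℕ} {a : F} {v : M} : v ∈ S.J ρ r a ↔ ∀ t, ρ (S.x r t) v = ψ (t * a) • v := Iff.rfl
theorem Fx_zero : S.Fx ρ 0 = ⊤ := eq_top_iff.2 fun _ _ r _ h => by simp at h
theorem Fx_ins {K b : ℕ} (hb : b < n) : S.Fx ρ (ins K b) = S.Fx ρ K ⊓ S.J ρ b 0 := by
  ext v
  simp only [Submodule.mem_inf, mem_Fx, mem_J, testBit_ins, mul_zero, AddChar.map_zero_eq_one, one_smul]
  exact ⟨fun h => ⟨fun r h1 h2 => h r h1 (Or.inl h2), h b hb (Or.inr rfl)⟩,
    fun h r h1 h2 => h2.elim (h.1 r h1) fun e => e ▸ h.2⟩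

theorem J_bot {r : ℕ} (hr : r < n) (h : lg r = true) {y : F} (hy : φ y ≠ y) : S.J ρ r y = ⊥ := by
  refine eq_bot_iff.2 fun v hv => by_contra fun v0 => hy (sub_eq_zero.1 (eq_zero_of_forall_addChar_mul S.χne fun w => ?_)).symm
  have h1 := (S.mem_J ρ).1 hv (w - φ w)
  rw [S.ker r hr h, map_one, End.one_apply] at h1
  have h2 : ψ ((w - φ w) * y) = 1 := smul_left_injective ℂ v0 (h1.symm.trans (one_smul ℂ v).symm)
  rw [← h2, mul_sub, sub_mul, AddChar.map_sub_eq_div, AddChar.map_sub_eq_div, ← S.χφ (w * φ y), φ.map_mul, S.inv]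

variable {S ρ} in
theorem tbn_fix {K c : ℕ} (hc : c ≤ n) (h : tbn n K c = true) {v : M} (hv : v ∈ S.Fx ρ K) (t : F) : ρ (S.x c t) v = v := by
  rcases hc.eq_or_lt with rfl | hc
  · rw [S.xn, map_one, End.one_apply]
  · simp only [tbn, Bool.or_eq_true, Nat.beq_eq] at h
    exact hv c hc (tb_eq (h.resolve_left hc.ne)) t

variable {S ρ} in
theorem ok_comm {K b r : ℕ} (hb : b < n) (hr : r < n) (h : ok2 n c1 c2 K b r = true) {v : M} (hv : v ∈ S.Fx ρ K) (t u : F) :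
    ρ (S.x r t) (ρ (S.x b u) v) = ρ (S.x b u) (ρ (S.x r t) v) := by
  simp only [ok2, Bool.and_eq_true, Bool.not_eq_true', beq_false] at h
  obtain ⟨h1, h2, f, g, he, -⟩ := S.rel b hb r hr h.1
  rw [← app, he, app, app, app, tbn_fix h2 h.2.2 hv, tbn_fix h1 h.2.1 hv]

theorem pres_lt {K L a b : ℕ} {l : List ℕ} (h : pres2 n c1 c2 K L l a b = true) : b < n := by
  simp only [pres2, Bool.and_eq_true, Nat.blt_eq] at h
  exact h.1

variable {S ρ} in
theorem pres_Fx {K L a b : ℕ} {l : List ℕ} (h : pres2 n c1 c2 K L l a b = true) {v : M} (hv : v ∈ S.Fx ρ K) (hL : v ∈ S.Fx ρ L)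
    (u : F) : ρ (S.x b u) v ∈ S.Fx ρ L := fun r h1 h2 t => by
  simp only [pres2, Bool.and_eq_true, Nat.blt_eq] at h
  rw [ok_comm h.1 h1 (allB_spec h.2.2 h2) hv, hL r h1 h2]

variable {S ρ} in
theorem pres_W {K L a b : ℕ} {l : List ℕ} (ha : a < n) (h : pres2 n c1 c2 K L l a b = true) {m : F} {v : M} (hv : v ∈ S.Fx ρ K)
    (hL : v ∈ S.W ρ L a m) (u : F) : ρ (S.x b u) v ∈ S.W ρ L a m := ⟨pres_Fx h hv hL.1 u, fun t => by
  simp only [pres2, Bool.and_eq_true, Nat.blt_eq] at h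
  change ρ _ _ = _
  rw [ok_comm h.1 ha h.2.1 hv, (S.mem_J ρ).1 hL.2, map_smul]⟩

variable {S ρ} in
theorem tor_W {K a e : ℕ} (ha : a < n) (he : e < n) (hl : lg e = true) (z : Fˣ) (hz : φ z = z) {m : F} {v : M}
    (hv : v ∈ S.W ρ K a m) : ρ (S.h e z) v ∈ S.W ρ K a (m * (z ^ pr e a : Fˣ)⁻¹) := by
  have key : ∀ r < n, ∀ t, ρ (S.x r t) (ρ (S.h e z) v) = ρ (S.h e z) (ρ (S.x r ((z ^ pr e r : Fˣ)⁻¹ * t)) v) := fun r hr t => by
    rw [← app, ← app, mul_inv_eq_iff_eq_mul.1 (S.tor e he hl r hr z hz _), Units.mul_inv_cancel_left]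
  refine ⟨fun r h1 h2 t => by rw [key r h1, hv.1 r h1 h2], fun t => ?_⟩
  change ρ _ _ = _
  rw [key a ha, (S.mem_J ρ).1 hv.2, map_smul]
  congr 2; ring

variable [FiniteDimensional ℂ M]

variable {S ρ} in
theorem run {L a N : ℕ} {l' : List ℕ} (ha : a < n) {m : F} (h1 : finrank ℂ (S.W ρ L a m) ≤ 1)
    (l : List (Bool × ℕ × ℕ)) (K : ℕ) (h : runOK2 n c1 c2 L l' a N l K = true)
    (hK : S.W ρ L a m ≤ S.Fx ρ K) : S.W ρ L a m ≤ S.Fx ρ N := by
  induction l generalizing K with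
  | nil =>
    have e : N &&& K = N := Nat.eq_of_beq_eq_true h
    refine fun v hv r h2 h3 => hK hv r h2 ?_
    rw [← e, Nat.testBit_and, Bool.and_eq_true] at h3
    exact h3.2
  | cons p l ih =>
    obtain ⟨k, b, d⟩ := p
    simp only [runOK2, Bool.and_eq_true, Bool.not_eq_true', beq_false] at h
    obtain ⟨⟨⟨hb, hd⟩, h0, h4⟩, h⟩ := h
    refine ih _ h fun v hv r h2 h3 s => ?_
    rcases (testBit_ins _ _ _).1 h3 with h3 | h3
    · exact hK hv r h2 h3 s
    by_cases v0 : v = 0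
    · rw [v0, map_zero]
    obtain ⟨b1, b2, f, g, he, s1, s2, -⟩ := S.rel b (pres_lt hb) d (pres_lt hd) h0
    have key : ∀ t u, ρ (S.x (c1 b d) (f t u)) (ρ (S.x (c2 b d) (g t u)) v) = v := fun t u => by
      obtain ⟨d1, e1⟩ := scal h1 hv (pres_W ha hb (hK hv) hv t) v0
      obtain ⟨d2, e2⟩ := scal h1 hv (pres_W ha hd (hK hv) hv u) v0
      have := congrArg (fun g => ρ g v) (he t u)
      simp only [app] at this
      refine rep_inj' ρ (S.x d u) (rep_inj' ρ (S.x b t) ?_)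
      rw [← this, e1, e2, map_smul, map_smul, e1, e2, smul_comm]
    cases k
    · obtain ⟨t, u, rfl⟩ := s1 ((show r = c1 b d from h3) ▸ h2) s
      have := key t u
      rwa [tbn_fix b2 h4 (hK hv), ← show r = c1 b d from h3] at this
    · obtain ⟨t, u, rfl⟩ := s2 ((show r = c2 b d from h3) ▸ h2) s
      refine rep_inj' ρ (S.x (c1 b d) (f t u)) ?_
      rw [show r = c2 b d from h3, key, tbn_fix b1 h4 (hK hv)]

theorem tor_le {K a e : ℕ} (ha : a < n) (he : e < n) (hl : lg e = true) (hp : pr e a = 1) {m m' : F} (hm : m ≠ 0) (hm' : m' ≠ 0)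
    (f1 : φ m = m) (f2 : φ m' = m') : finrank ℂ (S.W ρ K a m) ≤ finrank ℂ (S.W ρ K a m') :=
  Act.finrank_le_of_map (rep_inj' ρ (S.h e (Units.mk0 (m / m') (div_ne_zero hm hm')))) fun v hv => by
    have := tor_W ha he hl (Units.mk0 (m / m') (div_ne_zero hm hm')) (by simp [f1, f2]) hv
    rwa [hp, zpow_one, Units.val_inv_eq_inv_val, Units.val_mk0, show m * (m / m')⁻¹ = m' by field_simp] at this

variable [Fintype F] [DecidableEq F]

theorem sum_fr {U : Submodule ℂ M} {b : ℕ} (hU : ∀ u, ∀ v ∈ U, ρ (S.x b u) v ∈ U) :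
    ∑ m, finrank ℂ ↥(U ⊓ S.J ρ b m) = finrank ℂ U := by
  let π : Act F ℂ U :=
    { π u := (ρ (S.x b u)).restrict (hU u)
      map_zero := by
        have : S.x b 0 = 1 := by simpa using S.add b 0 0
        ext v; simp [this]
      map_add s t := by ext v; simp [S.add] }
  rw [← π.sum_finrank_W (mulPairing S.χne) (Nat.cast_ne_zero.2 Fintype.card_ne_zero)]
  refine Finset.sum_congr rfl fun m _ => ?_
  have e : (U ⊓ S.J ρ b m).comap U.subtype = π.W (mulPairing S.χne) m := by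
    ext v
    simp only [Submodule.mem_comap, Submodule.subtype_apply, Submodule.mem_inf, v.2, true_and, mem_J, Act.mem_W]
    exact forall_congr' fun t => ⟨fun h => Subtype.ext h, fun h => congrArg Subtype.val h⟩
  rw [← (Submodule.comapSubtypeEquivOfLe (inf_le_left : U ⊓ S.J ρ b m ≤ U)).finrank_eq, e]

variable {q : ℕ} (hq : (Finset.univ.filter fun b : F => φ b = b).card = q) (hF : Fintype.card F = q ^ 2)
include hq hF

theorem heis {K a b d : ℕ} {l : List ℕ} (ha : a < n) (hl : lg a = true) (hb : pres2 n c1 c2 K K l a b = true)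
    (hd : pres2 n c1 c2 K K l a d = true) (h0 : d + b + 1 ≠ n) (h1 : c1 d b = a) (h2 : c2 d b = n) {m : F} (hm : m ≠ 0)
    (fm : φ m = m) : finrank ℂ (S.W ρ K a m) = q ^ cond (lg b) 1 2 * finrank ℂ (S.W ρ (ins K b) a m) := by
  obtain ⟨-, -, f, g, he, -, -, hs⟩ := S.rel d (pres_lt hd) b (pres_lt hb) h0
  have key : ∀ y y', (lg b = true → φ y = y) → (lg b = true → φ y' = y') →
      finrank ℂ ↥(S.W ρ K a m ⊓ S.J ρ b y) ≤ finrank ℂ ↥(S.W ρ K a m ⊓ S.J ρ b y') := fun y y' hy hy' => by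
    obtain ⟨t, ht⟩ := hs (h1 ▸ hl) (h1 ▸ ha) h2 ((y' - y) / m) fun h => by rw [map_div₀, map_sub, hy h, hy' h, fm]
    refine Act.finrank_le_of_map (rep_inj' ρ (S.x d t)) fun v hv => ⟨pres_W ha hd hv.1.1 hv.1 _, fun u => ?_⟩
    change ρ _ _ = _
    rw [← app, he, h1, h2, S.xn, mul_one, app, app, (S.mem_J ρ).1 hv.1.2, map_smul, (S.mem_J ρ).1 hv.2, map_smul, map_smul,
      smul_smul, ht u m fm, ← AddChar.map_add_eq_mul]
    congr 2; field_simp; ring
  have e : S.W ρ (ins K b) a m = S.W ρ K a m ⊓ S.J ρ b 0 := by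
    rw [W, W, Fx_ins S ρ (pres_lt hb), inf_right_comm]
  rw [← sum_fr S ρ (U := S.W ρ K a m) fun u v hv => pres_W ha hb hv.1 hv u, e]
  cases h : lg b
  · rw [Finset.sum_congr rfl fun y _ => le_antisymm (key y 0 (by simp [h]) (by simp)) (key 0 y (by simp) (by simp [h])),
      Finset.sum_const, Finset.card_univ, smul_eq_mul, hF]; rfl
  · rw [← Finset.sum_filter_of_ne (p := fun y => φ y = y) fun y _ hy => by
      by_contra hc
      exact hy (by rw [S.J_bot ρ (pres_lt hb) h hc, inf_bot_eq, finrank_bot]),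
      Finset.sum_congr rfl fun y hy => le_antisymm (key y 0 (fun _ => (Finset.mem_filter.1 hy).2) (by simp))
        (key 0 y (by simp) fun _ => (Finset.mem_filter.1 hy).2), Finset.sum_const, hq, smul_eq_mul]
    simp

theorem lag {a : ℕ} (ha : a < n) (hl : lg a = true) {m : F} (hm : m ≠ 0) (fm : φ m = m) (L : List (ℕ × ℕ)) (K : ℕ) {l : List ℕ}
    (h : lagOK2 n c1 c2 a L K l = true) :
    finrank ℂ (S.W ρ K a m) = q ^ ex lg L * finrank ℂ (S.W ρ (lagM L K) a m) := by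
  induction L generalizing K l with
  | nil => rw [ex, List.map_nil, List.sum_nil, pow_zero, one_mul]; rfl
  | cons p L ih =>
    simp only [lagOK2, Bool.and_eq_true, Bool.not_eq_true', beq_false, Nat.beq_eq] at h
    rw [heis S ρ hq hF ha hl h.1.1.1 h.1.1.2 h.1.2.1 h.1.2.2.1 h.1.2.2.2 hm fm, ih _ h.2, lagM, ex, ex, List.map_cons,
      List.sum_cons, pow_add, mul_assoc]

omit hF in
theorem split {K a : ℕ} {l : List ℕ} (h : pres2 n c1 c2 K K l a a = true) {r : ℕ}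
    (hr : ∀ m ≠ 0, φ m = m → r ≤ finrank ℂ (S.W ρ K a m)) :
    finrank ℂ (S.Fx ρ (ins K a)) + (q - 1) * r ≤ finrank ℂ (S.Fx ρ K) := by
  rw [← sum_fr S ρ fun u v hv => pres_Fx h hv hv u, ← Finset.add_sum_erase _ _ (Finset.mem_univ 0), Fx_ins S ρ (pres_lt h)]
  have := Finset.card_nsmul_le_sum ((Finset.univ.filter fun b : F => φ b = b).erase (0 : F)) _ r fun m hm =>
    hr m (Finset.mem_erase.1 hm).1 (Finset.mem_filter.1 (Finset.mem_erase.1 hm).2).2
  rw [Finset.card_erase_of_mem (by simp), hq, smul_eq_mul] at this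
  exact Nat.add_le_add_left (this.trans (Finset.sum_le_sum_of_subset (Finset.erase_subset_erase _ (Finset.subset_univ _)))) _

omit hq hF [DecidableEq F] in
theorem W_pos {a e : ℕ} (ha : a < n) (la : lg a = true) (he : e < n) (hl : lg e = true) (hp : pr e a = 1)
    (hx : ∃ t, ρ (S.x a t) ≠ 1) {m : F} (hm : m ≠ 0) (fm : φ m = m) : 0 < finrank ℂ (S.W ρ 0 a m) := by
  obtain ⟨t, hx⟩ := hx
  obtain ⟨y, h1, h2⟩ := (Act.ofRep ρ (S.x a) (S.add a)).exists_W_ne_bot (mulPairing S.χne)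
    (Nat.cast_ne_zero.2 Fintype.card_ne_zero) (a := t) hx
  have y0 : y ≠ 0 := by rintro rfl; exact h1 (Pairing.zero_right _ _)
  refine lt_of_lt_of_le ?_ (tor_le S ρ ha he hl hp y0 hm (by_contra fun h => h2 (S.J_bot ρ ha la h)) fm)
  rw [W, Fx_zero, top_inf_eq]
  exact one_le_finrank_of_ne_bot h2

theorem step (hx : ∀ a < n, lg a = true → ∃ t, ρ (S.x a t) ≠ 1) {N k : ℕ} {C : Ct} (h : chk2 n c1 c2 lg pr N k C = true)
    (hn : finrank ℂ M < (q - 1) * (2 * q ^ N)) : finrank ℂ (S.Fx ρ (msk n (k + 1))) +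
      cond (lg (n - 1 - k)) ((q - 1) * q ^ ex lg C.H) 0 ≤ finrank ℂ (S.Fx ρ (msk n k)) := by
  simp only [chk2, Bool.or_eq_true, Bool.and_eq_true, Nat.blt_eq, Nat.beq_eq, decide_eq_true_eq, Bool.not_eq_true'] at h
  cases la : lg (n - 1 - k)
  · exact Submodule.finrank_mono fun v hv r h1 h2 => hv r h1 ((testBit_ins _ _ _).2 (Or.inl h2))
  obtain ⟨⟨⟨h1, ⟨h2, h2'⟩, h3⟩, h4, h5⟩, h6, h7, h8⟩ := h.resolve_left (by simp [la])
  have ha := pres_lt h1
  refine split S ρ hq h8 fun m hm fm => ?_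
  have l1 := fun m' (hm' : m' ≠ 0) (fm' : φ m' = m') => lag S ρ hq hF ha la hm' fm' _ _ h5
  have p1 := W_pos S ρ ha la h2 h2' h3 (hx _ ha la) hm fm
  have one : finrank ℂ (S.W ρ (lagM C.L 0) (n - 1 - k) m) ≤ 1 := by
    by_contra hc
    have := split S ρ hq h1 (r := 2 * q ^ N) fun m' hm' fm' => by
      rw [l1 m' hm' fm', h4, mul_comm]
      exact Nat.mul_le_mul_left _ (le_trans (by omega) (tor_le S ρ ha h2 h2' h3 hm hm' fm fm'))
    rw [Fx_zero, finrank_top] at this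
    omega
  have r1 := run ha one _ _ h6 inf_le_left
  have p3 : 0 < finrank ℂ (S.W ρ (msk n k) (n - 1 - k) m) := by
    rw [l1 m hm fm] at p1
    exact lt_of_lt_of_le (Nat.pos_of_mul_pos_left p1) (Submodule.finrank_mono (le_inf r1 inf_le_right))
  rw [lag S ρ hq hF ha la hm fm _ _ h7] at p3 ⊢
  exact Nat.le_mul_of_pos_right _ (Nat.pos_of_mul_pos_left p3)

theorem lower2 (hx : ∀ a < n, lg a = true → ∃ t, ρ (S.x a t) ≠ 1) {N : ℕ} {C : ℕ → Ct} (k : ℕ) (h : ∀ i < k, chk2 n c1 c2 lg pr N i (C i) = true)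
    (hn : finrank ℂ M < (q - 1) * (2 * q ^ N)) : finrank ℂ (S.Fx ρ (msk n k)) +
      ((List.range k).map fun i => cond (lg (n - 1 - i)) ((q - 1) * q ^ ex lg (C i).H) 0).sum ≤ finrank ℂ M := by
  induction k with
  | zero => simpa using Submodule.finrank_le _
  | succ k ih =>
    have := step S ρ hq hF hx (h k (by omega)) hn
    have := ih fun i hi => h i (by omega)
    rw [List.range_succ, List.map_append, List.sum_append]
    simp only [List.map_cons, List.map_nil, List.sum_cons, List.sum_nil]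
    omega

end Sy2
end H12.MD
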