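import Cfsg.Agent.H12.MD6
/-! Minimal degree of `²E₆(q)`: the twisted root elements `XT` and the system `syT`. -/

set_option autoImplicit false

namespace H12.MD
open Cfsg.Lie H12.StSys Ex

theorem pp_map {α β : Type*} [Add α] [Add β] (f : α → β) (h : ∀ a b, f (a + b) = f a + f b) (i : ℕ) (a b : α) :
    f (pp i a b) = pp i (f a) (f b) := by
  unfold pp; split_ifs <;> simp [h]
theorem sg_sq (b : ℕ) {K : Type*} [Field K] : (sg b : K) * sg b = 1 := by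
  unfold sg; split_ifs <;> simp

variable {K : Type*} [Field K] {φ : K →+* K}

theorem pp_hit (inv : ∀ t, φ (φ t) = t) {t0 : K} (h0 : t0 + φ t0 = 1) (i : ℕ) (b : K) (h : i < 2 ∨ φ b = b) :
    ∃ t, pp i t (φ t) = b := by
  unfold pp; split_ifs with h1 h2
  exacts [⟨b, rfl⟩, ⟨φ b, inv b⟩, ⟨b * t0, by rw [map_mul, h.resolve_left (by omega), ← mul_add, h0, mul_one]⟩]

variable {Γ : Type*} [Group Γ] (S : StSys chevE6 K Γ) (φ)
/-- twisted root elements -/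
noncomputable def XT (a : ℕ) (u : K) : Γ := if a < 48 then S.xN (r0 a) u * S.xN (r1 a) (ep a * φ u) else 1

theorem ev_wd (v : ℕ →* K) (a : ℕ) {A B : Ex} (h : B.ev v = φ (A.ev v)) : S.evE v (wd a A B) = XT φ S a (A.ev v) := by
  unfold wd XT; split_ifs <;> simp [h]

theorem XT_add (a : ℕ) (t u : K) : XT φ S a (t + u) = XT φ S a t * XT φ S a u := by
  by_cases h : a < 48
  · obtain ⟨v, h2, h3, h5, h7, -⟩ := exists_v6 t (φ t) u (φ u) 0 0
    have := S.eq_of_coll v (Or.inl rfl) (rootT a h).2.1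
    rw [evE_append, ev_wd φ, ev_wd φ, ev_wd φ] at this <;> simp_all
  · simp [XT, h]

theorem XT_swap {a : ℕ} (h : a < 48) (t u : K) : S.xN (r0 a) t * S.xN (r1 a) u = S.xN (r1 a) u * S.xN (r0 a) t := by
  obtain ⟨v, rfl, rfl, -⟩ := exists_v6 t u 0 0 0 0
  simpa using S.eq_of_coll v (Or.inl rfl) (rootT a h).2.2

theorem XT_long {a : ℕ} (h : a < 48) (hl : lgT a = true) (u : K) : XT φ S a u = S.xN (r0 a) (u + φ u) := by
  rw [XT, if_pos h, ← Nat.eq_of_beq_eq_true hl, ((rootT a h).1.2.2.2.2.2.2.2 hl).1, xN_add]; simp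

theorem XT_rel (inv : ∀ t, φ (φ t) = t) {r s : ℕ} (hr : r < 48) (hs : s < 48) (h : r + s + 1 ≠ 48) (t u : K) :
    XT φ S s u * XT φ S r t = XT φ S r t * XT φ S s u *
      (XT φ S (c1T r s) (sg (cd r s 4096 2) * (pp (cd r s 32768 4) t (φ t) * pp (cd r s 131072 4) u (φ u))) *
        XT φ S (c2T r s) (sg (cd r s 8192 2) * (pp (cd r s 16384 2) t u * (pp (cd r s 16384 2) u t *
          pp (cd r s 16384 2) (φ u) (φ t))))) := by
  obtain ⟨v, h2, h3, h5, h7, -⟩ := exists_v6 t (φ t) u (φ u) 0 0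
  have := S.eq_of_coll v (Or.inl rfl) (pairT r hr s hs h).2
  have e := pp_map (Ex.ev v) (Ex.ev_add v)
  have e' := pp_map φ φ.map_add
  simp only [evE_append] at this
  rw [ev_wd φ, ev_wd φ, ev_wd φ, ev_wd φ] at this
  · simpa only [fE, gE, Ex.ev_mul, ev_cst, ev_var, e, h2, h3, h5, h7] using this
  all_goals simp only [fE, gE, Ex.ev_mul, ev_cst, ev_var, e, e', h2, h3, h5, h7, inv, map_mul, map_intCast]

section mem
variable [Fintype K] {q : ℕ} {φ} (hφ : ∀ t, φ t = t ^ q) (hK : Fintype.card K = q ^ 2)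

theorem tw6_val (r : Φ chevE6) (h : gE6.lam r = 1) (t : K) : (tw6 φ).ε r * (tw6 φ).ψ r t = gE6.ε r * φ t := by
  have h1 : (tw6 φ).ψ r t = φ t ^ gE6.lam r := rfl
  have h2 : ((tw6 φ).ε r : K) = gE6.ε r := adTw_ε _ _ _ _ _ r
  rw [h1, h2, h, pow_one]

theorem σ6_xN (r : ℕ) (h : r < 72) (h' : gE6.lam r = 1) (t : K) :
    (tw6 φ).σ ((adS chevE6 K).xN r t) = (adS chevE6 K).xN (gE6.ρ r) (gE6.ε r * φ t) := by
  obtain ⟨s, rfl⟩ : ∃ s : Φ chevE6, r = s := ⟨⟨r, h⟩, rfl⟩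
  rw [xN_val, (tw6 φ).hxf, tw6_val _ h', ← xN_val]
  rfl

include hφ hK
theorem inv6 (t : K) : φ (φ t) = t := by rw [hφ, hφ, pow_sq6 hφ hK]

theorem XT_mem (a : ℕ) (u : K) : XT φ (adS chevE6 K) a u ∈ twistedE6 K q := by
  unfold XT; split_ifs with h
  swap; · exact one_mem _
  obtain ⟨a0, a1, a2, a3, a4, a5, a6, -⟩ := (rootT a h).1
  have f : (tw6 φ).σ ((adS chevE6 K).xN (r0 a) u * (adS chevE6 K).xN (r1 a) (ep a * φ u)) =
      (adS chevE6 K).xN (r0 a) u * (adS chevE6 K).xN (r1 a) (ep a * φ u) := by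
    rw [(tw6 φ).mul _ (xN_mem_T _ _ _) _ (xN_mem_T _ _ _), σ6_xN _ a0 a2, σ6_xN _ a1 a3, a4, XT_swap _ h, map_mul, map_intCast,
      inv6 hφ hK, ← mul_assoc, ← Int.cast_mul, a5, Int.cast_one, one_mul]
    rfl
  by_cases p : 36 ≤ r0 a
  · exact (adm6 hφ hK).U_le cov_ad ⟨mul_mem (xN_mem _ (fun _ => show 72 ≤ 2 * r0 a by omega) _)
      (xN_mem _ (fun _ => show 72 ≤ 2 * r1 a by omega) _), mul_mem (xN_mem_T _ _ _) (xN_mem_T _ _ _), f⟩
  · exact (adm6 hφ hK).V_le cov_ad ⟨mul_mem (xN_mem _ (fun _ => show ¬ 72 ≤ 2 * r0 a by omega) _)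
      (xN_mem _ (fun _ => show ¬ 72 ≤ 2 * r1 a by omega) _), mul_mem (xN_mem_T _ _ _) (xN_mem_T _ _ _), f⟩

theorem x_mem6 (r : Φ chevE6) (h : gE6.ρ r = r ∧ gE6.ε r = 1 ∧ gE6.lam r = 1) {t : K} (ht : φ t = t) :
    (adS chevE6 K).x r t ∈ twistedE6 K q := by
  rw [eq6 hφ hK]
  exact TwF.x_mem_G1 (Fin.ext h.1) (by rw [tw6_val _ h.2.2, h.2.1, ht]; simp)

theorem h_mem6 {e : ℕ} (he : e < 48) (hl : lgT e = true) {z : Kˣ} (hz : φ z = z) :
    (adS chevE6 K).h ⟨r0 e, (rootT e he).1.1⟩ z ∈ twistedE6 K q := by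
  obtain ⟨a0, -, a2, -, -, -, -, a7⟩ := (rootT e he).1
  obtain ⟨b0, b1, b2, b3, -⟩ := a7 hl
  have e1 : (ng (⟨r0 e, a0⟩ : Φ chevE6) : ℕ) = 71 - r0 e := by
    have : _ + r0 e + 1 = 72 := ng_add (⟨r0 e, a0⟩ : Φ chevE6); omega
  have n : ∀ t : Kˣ, φ t = t → (adS chevE6 K).n ⟨r0 e, a0⟩ t ∈ twistedE6 K q := fun t ht =>
    have k := x_mem6 hφ hK ⟨r0 e, a0⟩ ⟨(Nat.eq_of_beq_eq_true hl).symm, b0, a2⟩ ht
    mul_mem (mul_mem k (x_mem6 hφ hK _ (by rw [e1]; exact ⟨b1, b2, b3⟩) (by simp [ht]))) k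
  exact mul_mem (n z hz) (n _ (by simp))

open Classical in
/-- the system of `²E₆(q)` -/
noncomputable def syT {t0 : K} (h0 : t0 + φ t0 = 1) {χ : AddChar K ℂ} (h1 : ∀ t, χ (φ t) = χ t) (h2 : χ ≠ 1) :
    Sy2 48 c1T c2T lgT prT φ χ (twistedE6 K q) where
  x a u := ⟨_, XT_mem hφ hK a u⟩
  h e z := if H : e < 48 ∧ lgT e = true ∧ φ z = z then ⟨_, h_mem6 hφ hK H.1 H.2.1 H.2.2⟩ else 1
  add r t u := Subtype.ext (XT_add φ _ r t u)
  xn t := Subtype.ext (show XT φ (adS chevE6 K) 48 t = 1 from if_neg (by omega))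
  ker r hr hl w := Subtype.ext ((XT_long φ _ hr hl _).trans (by rw [map_sub, inv6 hφ hK, sub_add_sub_cancel, sub_self, xN_zero]; rfl))
  rel r hr s hs h := by
    obtain ⟨a1, a2, a3, a4, a5⟩ := (pairT r hr s hs h).1
    have hit := pp_hit (inv6 hφ hK) h0
    refine ⟨a1, a2, _, _, fun t u => Subtype.ext (XT_rel φ _ (inv6 hφ hK) hr hs h t u), fun _ w => ?_, fun _ w => ?_,
      fun b1 b2 b3 b hb => ?_⟩
    · rcases a4 with a4 | a4
      · obtain ⟨t, ht⟩ := hit _ (sg (cd r s 4096 2) * w) (Or.inl a4)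
        obtain ⟨u, hu⟩ := hit (cd r s 131072 4) 1 (Or.inr (map_one φ))
        exact ⟨t, u, by rw [ht, hu, mul_one, ← mul_assoc, sg_sq, one_mul]⟩
      · obtain ⟨u, hu⟩ := hit _ (sg (cd r s 4096 2) * w) (Or.inl a4)
        obtain ⟨t, ht⟩ := hit (cd r s 32768 4) 1 (Or.inr (map_one φ))
        exact ⟨t, u, by rw [ht, hu, one_mul, ← mul_assoc, sg_sq, one_mul]⟩
    · by_cases k : cd r s 16384 2 = 0
      · exact ⟨sg (cd r s 8192 2) * w, 1, by simp [pp, k, ← mul_assoc, sg_sq]⟩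
      · exact ⟨1, sg (cd r s 8192 2) * w, by simp [pp, show cd r s 16384 2 = 1 by omega, ← mul_assoc, sg_sq]⟩
    · obtain ⟨c1, c2⟩ := a5 b1 b2 b3
      obtain ⟨t, ht⟩ := hit _ (sg (cd r s 4096 2) * b) (c2.imp_right fun c => by rw [map_mul, map_intCast, hb c])
      refine ⟨t, fun u m _ => ?_⟩
      rw [ht, c1, ← mul_assoc, ← mul_assoc, sg_sq, one_mul, mul_comm b]; rfl
  tor e he hl r hr z hz t := by
    rw [dif_pos ⟨he, hl, hz⟩]
    refine Subtype.ext ?_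
    obtain ⟨a0, a1, -⟩ := (rootT r hr).1
    have k := ((rootT e he).1.2.2.2.2.2.2.2 hl).2.2.2.2 r hr
    have k0 : prT e r = (tab chevE6).pr (r0 e) (r0 r) := by rw [tabE6_eq]; rfl
    change (adS chevE6 K).h _ z * XT _ _ _ _ * ((adS chevE6 K).h _ z)⁻¹ = XT _ _ _ _
    rw [XT, XT, if_pos hr, if_pos hr, ← conj_mul, xN_lt _ a0, xN_lt _ a1, xN_lt _ a0, xN_lt _ a1]
    rw [h_conj_x, h_conj_x, ← pr_tab, ← pr_tab, k0, k]
    simp [hz, mul_left_comm]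
  inv := inv6 hφ hK
  χφ := h1
  χne := h2

theorem cardT [DecidableEq K] : (Finset.univ.filter fun b : K => φ b = b).card = q := by
  rw [← card_fix (F := K) (by have := q_pos6 hφ hK; omega) hK, Nat.card_eq_fintype_card, Fintype.card_subtype]
  simp [hφ]

theorem exists_t0 : ∃ t0, t0 + φ t0 = 1 := by
  classical
  obtain ⟨a, ha⟩ : ∃ a, a + φ a ≠ 0 := by
    by_contra! h
    have h2 : (1 : K) + 1 = 0 := by simpa using h 1
    have := cardT hφ hK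
    rw [Finset.filter_true_of_mem fun b _ => by linear_combination h b - b * h2, Finset.card_univ, hK] at this
    have := q_pos6 hφ hK
    nlinarith
  exact ⟨a / (a + φ a), by rw [map_div₀, map_add, inv6 hφ hK, add_comm (φ a), ← add_div, div_self ha]⟩

theorem lowerT {M : Type*} [AddCommGroup M] [Module ℂ M] [FiniteDimensional ℂ M] (ρ : twistedE6 K q →* Module.End ℂ M)
    (hρ : ∀ g, ρ g = 1 → g = 1) (hn : Module.finrank ℂ M < (q - 1) * (2 * q ^ 10)) :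
    (q - 1) * (q ^ 10 + q ^ 9 + q ^ 8 + q ^ 6 + q ^ 5 + 2 * q ^ 4 + q ^ 3 + q ^ 2 + q + 2) ≤ Module.finrank ℂ M := by
  classical
  obtain ⟨t0, h0⟩ := exists_t0 hφ hK
  obtain ⟨ψ, hψ⟩ := H24.exists_addChar_complex K
  obtain ⟨c, hc⟩ := AddChar.ne_one_iff.1 hψ
  let χ : AddChar K ℂ :=
    { toFun t := ψ (c * (t + φ t))
      map_zero_eq_one' := by simp
      map_add_eq_mul' a b := by rw [← AddChar.map_add_eq_mul]; congr 1; rw [map_add]; ring }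
  have h1 : ∀ t, χ (φ t) = χ t := fun t => by
    change ψ _ = ψ _
    rw [inv6 hφ hK, add_comm]
  have h2 : χ ≠ 1 := AddChar.ne_one_iff.2 ⟨t0, by change ψ _ ≠ 1; rwa [h0, mul_one]⟩
  have lo := (syT hφ hK h0 h1 h2).lower2 ρ (cardT hφ hK) hK (fun a ha hl => ⟨t0, fun h => ?_⟩) 24 chkT hn
  · rw [show (List.range 24).map (fun i => cond (lgT (48 - 1 - i)) ((q - 1) * q ^ ex lgT (ctT i).H) 0) =
      thT.map fun p => cond p.1 ((q - 1) * q ^ p.2) 0 by rw [← lenT, List.map_map]; rfl] at lo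
    refine le_trans (le_of_eq ?_) (le_trans (Nat.le_add_left _ _) lo)
    simp [thT]; ring
  · have e : XT φ (adS chevE6 K) a t0 = 1 := congrArg Subtype.val (hρ _ h)
    rw [XT_long φ _ ha hl, h0, xN_lt _ (rootT a ha).1.1] at e
    exact one_ne_zero (xR_eq_one.1 (congrArg Units.val e))

end mem
end H12.MD
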