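import Cfsg.Agent.H12.MR
import Cfsg.Agent.H12.Coll

/-! More steps for the splitting of central extensions along a chain: commutators act trivially (`Good.mil`), layers of order two
(`Good.two`); leading coordinates of words (`Lay.ld_evE`), fixed roots (`Lay.Orb.rp_fix`). -/

set_option autoImplicit false

namespace H12
open Cfsg.Lie H13 H24 StSys Tw Subgroup
open scoped commutatorElement

namespace Chn
variable {E : Type*} [Group E] {c : Chn E} {i : ℕ} {W : Subgroup E}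

theorem Good.mil (h : c.Good (i + 1) W) {a a' b : E} (ha : a ∈ c.V 0) (ha' : a' ∈ c.V 0) (hb : b ∈ c.V i) : ⁅⁅a, a'⁆, b⁆ ∈ W := by
  obtain ⟨w, hw, z, hz, e⟩ := h.sup _ (c.comm i _ (inv_mem ha) b hb)
  obtain ⟨w', hw', z', hz', e'⟩ := h.sup _ (c.comm i _ (inv_mem ha') b hb)
  have k : ∀ {x u : E}, ⁅x⁻¹, b⁆ = u → b * x * b⁻¹ = x * u := fun e => by rw [← e]; group
  rw [show ⁅⁅a, a'⁆, b⁆ = ⁅a, a'⁆ * (b * ⁅a, a'⁆ * b⁻¹)⁻¹ by group, conjugate_commutatorElement, k e, k e', ← mul_assoc, ← mul_assoc,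
    c.cz hz', c.cz' hz, show ⁅a, a'⁆ * ⁅a * w, a' * w'⁆⁻¹ = ⁅a, a'⁆ * a' * (a * (a'⁻¹ * w * a'⁻¹⁻¹ * w' * w⁻¹) * a⁻¹ * w'⁻¹)⁻¹ * (⁅a, a'⁆ * a')⁻¹ by group]
  exact h.nV _ (mul_mem (c.anti 0 (c.comm 0 a ha a' ha')) ha') _ (inv_mem (mul_mem (h.nV a ha _
    (mul_mem (mul_mem (h.nV _ (inv_mem ha') w hw) hw') (inv_mem hw))) (inv_mem hw')))

theorem Good.two (h : c.Good (i + 1) W) (hp : c.Pr W 0 i) (hZ : c.Z ≤ c.V (i + 1)) {w : E} (hw : w ∈ c.V i) (h1 : w ∉ c.V (i + 1))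
    (h2 : w * w ∈ W) (h3 : ∀ v ∈ c.V i, v ∈ c.V (i + 1) ∨ w⁻¹ * v ∈ c.V (i + 1)) (hT : ∀ t ∈ c.T, ∃ m, t ^ (2 * m + 1) ∈ c.Z) :
    ∃ W', c.Good i W' ∧ W ≤ W' ∧ w ∈ W' := by
  obtain ⟨W', a1, a2, a3⟩ := h.ext hp (A := {1, w}) (by simp) (by simp [hw]) (by
      rintro _ (rfl | rfl) _ (rfl | rfl)
      exacts [⟨1, by simp, by simp⟩, ⟨_, Or.inr rfl, by simpa using inv_mem h2⟩, ⟨_, Or.inr rfl, by simp⟩, ⟨1, by simp, by simp⟩])
    (by simp [h1]) hZ (fun v hv => by simpa using h3 v hv) (by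
      rintro t ht _ (rfl | rfl)
      · exact ⟨1, by simp, by simp⟩
      rename_i w
      obtain ⟨m, hm⟩ := hT t ht
      have e0 : t ^ (2 * m + 1) * w * (t ^ (2 * m + 1))⁻¹ = w := by rw [c.zc hm]; simp
      obtain ⟨u, hu, z, hz, e⟩ := h.sup _ ((h3 _ (c.nrm i t ht w hw)).resolve_left fun e => h1 (by
        have : ∀ k, t ^ (k + 1) * w * (t ^ (k + 1))⁻¹ ∈ c.V (i + 1) := fun k => by
          induction k with
          | zero => simpa using e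
          | succ k ih => simpa [pow_succ' t (k + 1), mul_assoc] using c.nrm _ t ht _ ih
        exact e0 ▸ this _))
      have k : ∀ k, ∃ u ∈ W, w⁻¹ * (t ^ k * w * (t ^ k)⁻¹) = u * z ^ k := fun k => by
        induction k with
        | zero => exact ⟨1, one_mem _, by simp⟩
        | succ k ih =>
          obtain ⟨u', hu', e'⟩ := ih
          refine ⟨_, mul_mem hu (h.nT t ht _ hu'), ?_⟩
          rw [show w⁻¹ * (t ^ (k + 1) * w * (t ^ (k + 1))⁻¹) = w⁻¹ * (t * w * t⁻¹) * (t * (w⁻¹ * (t ^ k * w * (t ^ k)⁻¹)) * t⁻¹) by group,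
            e, e', ← mul_assoc t, mul_assoc _ (z ^ k), c.zc (pow_mem hz k), mul_assoc u, c.zc hz]; group
      obtain ⟨u', hu', e'⟩ := k (2 * m + 1)
      have z1 : z * z ∈ W := by
        have := mul_mem (inv_mem hu) (mul_mem (inv_mem (h.nV _ (inv_mem (c.le0 i hw)) _ hu)) (mul_mem (inv_mem h2) (h.nT t ht _ h2)))
        rwa [show (w * w)⁻¹ * (t * (w * w) * t⁻¹) = w⁻¹ * (w⁻¹ * (t * w * t⁻¹)) * w * (w⁻¹ * (t * w * t⁻¹)) by group, e,
          show w⁻¹ * (u * z) * w * (u * z) = w⁻¹ * u * (z * (w * u)) * z by group, c.zc hz, show ∀ x, u⁻¹ * ((w⁻¹ * u * w⁻¹⁻¹)⁻¹ *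
            (w⁻¹ * u * (w * u * z) * x)) = z * x by intro; group] at this
      have z2 : z ^ (2 * m + 1) ∈ W := by
        rw [e0, inv_mul_cancel, eq_comm, mul_eq_one_iff_inv_eq] at e'; exact e' ▸ inv_mem hu'
      refine ⟨w, Or.inr rfl, e ▸ mul_mem hu ?_⟩
      rwa [pow_succ, pow_mul, sq, W.mul_mem_cancel_left (pow_mem z1 m)] at z2)
  exact ⟨W', a1, a2, a3 w (by simp)⟩
end Chn

variable {D : ChevalleyDatum} [G : Good D] {F : Type*} [Field F] {Γ : Type*} [Group Γ] {S : StSys D F Γ} {θ : Γ →* GL D.Idx F} {L : Lay D F}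

/-- a commutator identity checked by collection -/
def Cq (T : Tab) (p : ℕ) (w w' d : List (ℕ × Ex)) : Prop := coll T p id 60 (w ++ w') = coll T p id 60 (d ++ w' ++ w)
noncomputable instance decCq (T : Tab) (p : ℕ) (w w' d : List (ℕ × Ex)) : Decidable (Cq T p w w' d) := by unfold Cq; infer_instance
theorem Cq.eq {p : ℕ} {w w' d : List (ℕ × Ex)} (h : Cq (tab D) p w w' d) (hF : CharOK F p) (S : StSys D F Γ) (v : ℕ →* F) :
    ⁅S.evE v w, S.evE v w'⁆ = S.evE v d := by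
  have := S.eq_of_coll v hF h
  simp only [evE_append] at this
  rw [commutatorElement_def, this]; group

namespace Lay
theorem evE_mem (v : ℕ →* F) {i : ℕ} {w : List (ℕ × Ex)} (h : ∀ c ∈ w, ∀ h : c.1 < D.nroots, IsPos ⟨c.1, h⟩ ∧ i ≤ L.κ ⟨c.1, h⟩) :
    S.evE v w ∈ L.U S i := list_prod_mem fun g hg => by obtain ⟨c, hc, rfl⟩ := List.mem_map.1 hg; exact S.xN_mem (h c hc) _
theorem ld_evE (hθ : S.Cov θ) (v : ℕ →* F) {r : Φ D} (hr : IsPos r) (e : Ex) {w : List (ℕ × Ex)}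
    (h : ∀ c ∈ w, c.1 ≠ r.1 ∧ ∀ h : c.1 < D.nroots, IsPos ⟨c.1, h⟩ ∧ L.κ r ≤ L.κ ⟨c.1, h⟩) :
    S.evE v ((r, e) :: w) ∈ L.U S (L.κ r) ∧ L.ld S r (S.evE v ((r, e) :: w)) = e.ev v := by
  have m := evE_mem (S := S) v fun c hc => (h c hc).2
  rw [evE_cons, xN_val, ld_mul hθ hr (L.x_mem S hr le_rfl _) m, ld_self hθ hr, add_eq_left]
  refine ⟨mul_mem (L.x_mem S hr le_rfl _) m, ?_⟩
  induction w with
  | nil => simpa using ld_one hθ hr
  | cons c w ih =>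
    have h' := fun d hd => h d (List.mem_cons_of_mem _ hd)
    obtain ⟨h1, h2⟩ := h c (by simp)
    have m' := evE_mem (S := S) v fun c hc => (h' c hc).2
    rw [evE_cons, ld_mul hθ hr (S.xN_mem h2 _) m', ih h' m', add_zero]
    by_cases e : c.1 < D.nroots
    · rw [xN_lt _ e, ld_x hθ hr (h2 e).1 (h2 e).2, if_neg fun e => h1 (congrArg Fin.val e).symm]
    · simp [xN, e, ld_one hθ hr]

theorem Orb.rp_fix {R : RSym D} {τ : TwF S R} (o : L.Orb R) (hθ : S.Cov θ) {E : Type*} [Group E] {π : E →* Γ} (hG : π.range = τ.G1) {r : Φ D}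
    (hr : IsPos r) (h : R.ρ r = r) : L.Rp S π r {x | ∃ t, τ.ε r * τ.ψ r t = t ∧ x = S.x r t} := fun x hx => by
  have := o.ld_σ (τ := τ) hθ hr hx.1
  rw [(G1_le_fix (hG.le hx.2)).2, h] at this
  exact ⟨_, ⟨_, this.symm, rfl⟩, ⟨L.x_mem S hr le_rfl _, hG ▸ TwF.x_mem_G1 h this.symm⟩, Lay.ld_self hθ hr _⟩
end Lay

end H12
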