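import Cfsg.Agent.H12.Fi7
import Cfsg.Agent.H11.Carm

/-! The subgroup `A₃(2) ≅ A₈` of `E₆` in characteristic `2` (`O5.exists_A8`), from Carmichael's presentation. -/

set_option autoImplicit false

namespace H12.O5
open Cfsg.Lie Matrix StSys Fi Subgroup

theorem exists_homA8 {Δ : Type*} [Group Δ] {y : ℕ → Δ} (h : H11.Car y 6) : ∃ φ : alternatingGroup (Fin 8) →* Δ, φ.range = H11.W y 6 := by
  let f : ℕ → Fin 8 := fun i => Fin.ofNat 8 (i + 2)
  have P : H11.Pts (0 : Fin 8) 1 f 6 := ⟨by decide, by decide, by decide, by decide⟩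
  let x : ℕ → Δ × Equiv.Perm (Fin 8) := fun i => (y i, H11.cy 0 1 (f i))
  have hx : H11.Car x 6 := ⟨fun i hi => Prod.ext (h.c3 i hi) (P.car.c3 i hi), fun i hi j hj e => Prod.ext (h.c2 i hi j hj e) (P.car.c2 i hi j hj e)⟩
  have e := H11.map_W (MonoidHom.snd _ _) (x := x) (y := fun i => H11.cy 0 1 (f i)) (k := 6) fun _ _ => rfl
  let ψ : H11.W x 6 →* alternatingGroup (Fin 8) := ((MonoidHom.snd _ _).comp (H11.W x 6).subtype).codRestrict _ fun w =>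
    Equiv.Perm.mem_alternatingGroup.2 (H11.sign_W P (e ▸ mem_map_of_mem _ w.2))
  have hψ : Function.Bijective ψ := ⟨fun a b hab => Subtype.ext (hx.eq P (MonoidHom.snd _ _) (fun _ _ => rfl) a.2 b.2 (congrArg Subtype.val hab)), fun σ => by
    obtain ⟨w, hw, e'⟩ := mem_map.1 (e ▸ H11.mem_W_cy P (Equiv.Perm.mem_alternatingGroup.1 σ.2) fun t h1 h2 h3 => absurd h3 (by revert t; decide))
    exact ⟨⟨w, hw⟩, Subtype.ext e'⟩⟩
  refine ⟨((MonoidHom.fst _ _).comp (H11.W x 6).subtype).comp (MulEquiv.ofBijective ψ hψ).symm.toMonoidHom, ?_⟩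
  rw [MonoidHom.range_comp, MonoidHom.range_eq_top.2 (MulEquiv.surjective _), ← MonoidHom.range_eq_map, MonoidHom.range_comp, range_subtype]
  exact H11.map_W _ fun _ _ => rfl

theorem xN_rf {D : ChevalleyDatum} [Good D] {F Γ : Type*} [Field F] [CharP F 2] [Group Γ] {S : StSys D F Γ} {K : Subgroup Γ} {r s u : ℕ}
    (h : r < (tab D).n ∧ s < (tab D).n ∧ u < (tab D).n ∧ ∀ i < (tab D).l, (tab D).ca i u = (tab D).ca i s - (tab D).pr r s * (tab D).ca i r)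
    (h1 : S.xN r 1 ∈ K) (h2 : S.xN ((tab D).ng r) 1 ∈ K) (h3 : S.xN s 1 ∈ K) : S.xN u 1 ∈ K := by
  obtain ⟨a, b, c, d⟩ := h
  lift r to Φ D using a; lift s to Φ D using b; lift u to Φ D using c
  have e : rf r s = u := wt_injective (by rw [wt_rf]; exact funext fun i => by rw [pr_tab] at d; exact (d i i.2).symm)
  have h4 : S.n r 1 ∈ K := by
    rw [n_def]; exact mul_mem (mul_mem (by simpa using h1) (by simpa [CharTwo.neg_eq] using (xN_val S (ng r) 1) ▸ h2)) (by simpa using h1)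
  have := S.n_conj_x' r s 1 1
  have h5 := mul_mem (mul_mem h4 (xN_val S s 1 ▸ h3)) (inv_mem h4)
  rw [this, e] at h5
  rcases ηu_pm (F := F) r s with h | h <;> simpa [h, CharTwo.neg_eq] using h5

def Ps : List ℕ := [60, 11, 44, 27, 12, 26, 36, 56, 15, 35, 45, 59]
def yw (i : ℕ) : List (ℕ × ℕ) := ([[60, 11, 27, 44], [12, 44, 11, 60, 12, 27], [26, 44, 11, 60, 26, 27], [60, 12, 26, 60, 44, 12, 26, 44],
  [12, 26, 60, 11, 27, 44, 12, 26], [12, 44, 12, 26, 60, 44, 12, 26, 60, 12]].getD i []).map fun r => (r, 0)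
def yc (r : ℕ) (l : List ℕ) : ℕ × List ℕ := (r, l)
def ycert : List (ℕ × List ℕ) := [yc 60 [0, 1, 3, 2, 0, 1, 5, 4], yc 11 [0, 1, 4, 2, 0, 1, 3, 5], yc 44 [0, 1, 3, 2, 0, 1, 4, 5], yc 27 [0, 1, 4, 2, 0, 1, 5, 3],
  yc 12 [0, 1, 1, 0, 2, 3, 4, 5, 2, 3], yc 26 [0, 1, 1, 4, 3, 1, 5, 2, 3, 0]]
theorem yw_spec : (∀ i < 6, (Ok (yw i) ∧ (act (yw i))^[3] (one, 0) = (one, 0)) ∧ (∀ c ∈ yw i, c.1 ∈ Ps ∧ c.2 = 0) ∧
    ∀ j < i, Ok (yw i ++ yw j) ∧ (act (yw i ++ yw j))^[2] (one, 0) = (one, 0)) ∧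
    ∀ c ∈ ycert, Ok [(c.1, 0)] ∧ (∀ i ∈ c.2, i < 6) ∧ Ok (c.2.flatMap yw) ∧ act (c.2.flatMap yw) (one, 0) = act [(c.1, 0)] (one, 0) := by decide +kernel
theorem rf_spec : (tab chevE6).ng 60 = 11 ∧ (tab chevE6).ng 44 = 27 ∧ ∀ c ∈ [(60, 12, 36), (60, 26, 56), (44, 12, 15), (44, 26, 35), (44, 36, 45), (44, 56, 59)],
    c.1 < (tab chevE6).n ∧ c.2.1 < (tab chevE6).n ∧ c.2.2 < (tab chevE6).n ∧ ∀ i < (tab chevE6).l,
      (tab chevE6).ca i c.2.2 = (tab chevE6).ca i c.2.1 - (tab chevE6).pr c.1 c.2.1 * (tab chevE6).ca i c.1 := by rw [tabE6_eq]; decide +kernel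

theorem exists_A8 {k : Type*} [Field k] [CharP k 2] {ω : k} (hω : ω ^ 2 = ω + 1) :
    ∃ f : alternatingGroup (Fin 8) →* GL J k, f.range = closure {g | ∃ r ∈ Ps, g = (adS chevE6 k).xN r 1} := by
  obtain ⟨s1, s2⟩ := yw_spec
  have k1 : ∀ i < 6, ∀ j < i, wd ω (yw i) * wd ω (yw j) * (wd ω (yw i) * wd ω (yw j)) = 1 := fun i hi j hj => by
    rw [← sq, ← wd_append]; exact pow_eq_one hω ((s1 i hi).2.2 j hj)
  obtain ⟨f, hf⟩ := exists_homA8 (y := fun i => wd ω (yw i)) ⟨fun i hi => inv_eq_of_mul_eq_one_right (by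
    rw [← pow_three]; exact pow_eq_one hω (s1 i hi).1), fun i hi j hj e => eq_inv_of_mul_eq_one_left (by
      rcases Nat.lt_or_gt_of_ne e with h | h
      · rw [mul_assoc, mul_assoc, mul_eq_one_comm, mul_assoc, mul_assoc, ← mul_assoc]; exact k1 j hj i h
      · rw [mul_assoc]; exact k1 i hi j h)⟩
  refine ⟨f, hf.trans (le_antisymm (H11.W_le fun i hi => Subgroup.list_prod_mem _ (List.forall_mem_map.2 fun c hc => ?_)) ((closure_le _).2 ?_))⟩
  · obtain ⟨a, b⟩ := (s1 i hi).2.1 c hc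
    exact Subgroup.subset_closure ⟨c.1, a, by rw [b, pow_zero]⟩
  have k2 : ∀ c ∈ ycert, (adS chevE6 k).xN c.1 1 ∈ H11.W (fun i => wd ω (yw i)) 6 := fun c hc => by
    obtain ⟨a, b, d, e⟩ := s2 c hc
    have : ∀ l : List ℕ, (∀ i ∈ l, i < 6) → wd ω (l.flatMap yw) ∈ H11.W (fun i => wd ω (yw i)) 6 := fun l hl => by
      induction l with
      | nil => exact one_mem _
      | cons i l ih => rw [List.flatMap_cons, wd_append]; exact mul_mem (H11.mem_W (hl i (by simp))) (ih fun j hj => hl j (by simp [hj]))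
    have e' : wd ω (c.2.flatMap yw) = wd ω [(c.1, 0)] := Units.ext (by rw [coe_wd hω d, coe_wd hω a, e])
    have := this _ b
    rwa [e', show wd ω [(c.1, 0)] = (adS chevE6 k).xN c.1 1 by simp [wd]] at this
  obtain ⟨r1, r2, r3⟩ := rf_spec
  simp only [ycert, yc, List.forall_mem_cons] at k2 r3
  obtain ⟨x60, x11, x44, x27, x12, x26, -⟩ := k2
  obtain ⟨a1, a2, a3, a4, a5, a6, -⟩ := r3
  have x36 := xN_rf a1 x60 (r1 ▸ x11) x12
  have x56 := xN_rf a2 x60 (r1 ▸ x11) x26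
  rintro _ ⟨r, hr, rfl⟩
  simp only [Ps, List.mem_cons, List.not_mem_nil, or_false] at hr
  rcases hr with rfl | rfl | rfl | rfl | rfl | rfl | rfl | rfl | rfl | rfl | rfl | rfl
  exacts [x60, x11, x44, x27, x12, x26, x36, x56, xN_rf a3 x44 (r2 ▸ x27) x12, xN_rf a4 x44 (r2 ▸ x27) x26, xN_rf a5 x44 (r2 ▸ x27) x36,
    xN_rf a6 x44 (r2 ▸ x27) x56]

end H12.O5
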