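import Cfsg.Agent.H24.TwK
import Cfsg.Agent.H12.ML
import Cfsg.Agent.H12.Fld

/-! Rationality in the Borel–Tits theorem (`Cov.bt_rat`: the parabolic attached to a unipotent element is stable under every twist fixing the
element), rational representatives of stable cosets of parabolic subgroups (`Cov.rat_coset`), the layers `Lay.Lin` of a linear height with
the leading term of commutators (`ld_comm_x`), and centralisers of rational points of unipotent radicals (`cent_lay`). -/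

set_option autoImplicit false

namespace H12
open Cfsg.Lie H13 StSys Subgroup

variable {D : ChevalleyDatum} [G : Good D] {F : Type*} [Field F] {Γ : Type*} [Group Γ] {S : StSys D F Γ} {θ : Γ →* GL D.Idx F}

theorem Lin.smul_WJ {y : Φ D → ℝ} (h : Lin y) {w : W D} (hw : w ∈ WJ {j | y (sim j) = 0}) (r : Φ D) : y (w • r) = y r := by
  rw [h (w • r), h r]
  refine Finset.sum_congr rfl fun j _ => ?_
  by_cases e : y (sim j) = 0
  · simp [e]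
  · rw [rc_smul_of_mem hw r e]
theorem Tw.map_P {R : RSym D} (τ : Tw S R) {J : Set (I D)} (hJ : R.Inv J) {g : Γ} (hg : g ∈ S.P J) : τ.σ g ∈ S.P J := by
  obtain ⟨w, hw, h⟩ := mem_P.1 hg
  exact mem_P.2 ⟨_, hJ.tw_mem hw, τ.map_cell h⟩
/-- the symmetry is linear -/
def RSym.Lin (R : RSym D) : Prop := ∀ r j, rc (R.ρ r) (R.π j) = rc r j

namespace StSys

theorem Cov.bt_aux2 (hθ : S.Cov θ) {x : Γ} {y y' : Φ D → ℝ} (b1 : Lin y) (b0 : ∀ i, 0 ≤ y (sim i)) (b1' : Lin y') (b0' : ∀ i, 0 ≤ y' (sim i))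
    (e : ∑ r, y' r ^ 2 = ∑ r, y r ^ 2) (b3 : x ∈ S.gen {r | 1 ≤ y r})
    (b4 : ∀ z, Lin z → (∃ g ∈ S.T, g * x * g⁻¹ ∈ S.gen {r | 1 ≤ z r}) → ∑ r, y r ^ 2 ≤ ∑ r, z r ^ 2) {a : Γ} (ha : a ∈ S.T)
    (h : a * x * a⁻¹ ∈ S.gen {r | 1 ≤ y' r}) : a ∈ S.P {j | y (sim j) = 0} ∧ ∀ r, y' r = y r := by
  obtain ⟨w, hw⟩ := exists_cell ha
  obtain ⟨u, hu, n, hn, u', hu', rfl⟩ := hw.exists_unu
  have c1 : ∀ {y}, Lin y → (∀ i, 0 ≤ y (sim i)) → ∀ r : Φ D, 1 ≤ y r → IsPos r := fun b1 b0 r hr => by_contra fun h => by linarith [b1.nonpos b0 h]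
  have c2 : ∀ {y}, Lin y → (∀ i, 0 ≤ y (sim i)) → ∀ x ∈ S.gen {r | 1 ≤ y r}, S.Stab {r | 1 ≤ y r} x := fun b1 b0 x =>
    stab_of_ideal (c1 b1 b0) fun r hr s hs u h => b1.ideal h (b1.nonneg b0 hr) hs
  have c3 := (c2 b1 b0 1 (one_mem _)).1
  have c3' := (c2 b1' b0' 1 (one_mem _)).1
  have := b4 (fun r => (y r + y' (w • r)) / 2) (fun r => by
    have := b1'.smul w r
    beta_reduce at this ⊢
    rw [b1 r, this, ← Finset.sum_add_distrib, Finset.sum_div]; exact Finset.sum_congr rfl fun _ _ => by ring)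
    ⟨u', S.gen_le_T _ hu', by
      have d1 := (c2 b1 b0 _ b3).2.2 u' (S.Um_le_U w hu')
      have d2 := hθ.mem_of_conj hn (S.gen_mono (c1 b1 b0) d1) c3' (c1 b1' b0') (by simpa [mul_assoc] using (c2 b1' b0' _ h).2.2 _ (inv_mem hu))
      exact S.gen_mono (fun r hr => by have := hr.1; have := hr.2.2; simp only [Set.mem_setOf_eq] at *; linarith)
        (hθ.gen_inf c3 (fun r hr => pos_fl r (c1 b1 b0 r hr)) (closed_isPos.inter (c3'.preimage w)) (fun r hr => pos_fl r hr.1) d1 d2)⟩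
  have d3 : ∑ r, y' (w • r) ^ 2 = ∑ r, y' r ^ 2 := Equiv.sum_comp (MulAction.toPerm w) fun r => y' r ^ 2
  have d4 : ∑ r, (y r - y' (w • r)) ^ 2 = 2 * ∑ r, y r ^ 2 + 2 * ∑ r, y' (w • r) ^ 2 - 4 * ∑ r, ((y r + y' (w • r)) / 2) ^ 2 := by
    simp only [Finset.mul_sum, ← Finset.sum_add_distrib, ← Finset.sum_sub_distrib]; exact Finset.sum_congr rfl fun _ _ => by ring
  have d5 := fun r => sub_eq_zero.1 (pow_eq_zero_iff (n := 2) (by simp) |>.1 ((Finset.sum_eq_zero_iff_of_nonneg fun r _ => sq_nonneg (y r - y' (w • r))).1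
    (le_antisymm (by linarith) (Finset.sum_nonneg fun r _ => sq_nonneg _)) r (Finset.mem_univ _)))
  have d6 : w ∈ WJ {j | y (sim j) = 0} := mem_WJ_iff.2 fun r hr => (b1.inJ b0 (mem_inv.1 hr).1).2 (by
    linarith [b1.nonneg b0 (mem_inv.1 hr).1, b1'.nonpos b0' (mem_inv.1 hr).2, d5 r])
  exact ⟨mem_P.2 ⟨w, d6, hw⟩, fun r => by rw [← b1.smul_WJ (inv_mem d6), d5, smul_inv_smul]⟩

theorem Cov.bt_rat (hθ : S.Cov θ) {v : Γ} (h0 : v ≠ 1) (h1 : ∃ g ∈ S.T, g * v * g⁻¹ ∈ S.U) :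
    ∃ g ∈ S.T, ∃ J : Set (I D), Jᶜ.Nonempty ∧ (∀ a ∈ S.T, a * v * a⁻¹ = v → g * a * g⁻¹ ∈ S.P J) ∧
      ∀ (R : RSym D) (σ : Tw S R), R.Lin → σ.σ v = v → R.Inv J ∧ σ.σ g * g⁻¹ ∈ S.P J := by
  let A : Set (Φ D → ℝ) := {y | Lin y ∧ ∃ g ∈ S.T, g * v * g⁻¹ ∈ S.gen {r | 1 ≤ y r}}
  have hA : IsClosed A := by
    rw [show A = {y | Lin y} ∩ ⋃ P ∈ {P | ∃ g ∈ S.T, g * v * g⁻¹ ∈ S.gen P}, {y | ∀ r ∈ P, 1 ≤ y r} from Set.ext fun y =>
      and_congr_right fun _ => ⟨fun h => Set.mem_biUnion h fun _ h => h, fun h => by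
        obtain ⟨P, ⟨g, h1, h2⟩, h3⟩ := Set.mem_iUnion₂.1 h
        exact ⟨g, h1, S.gen_mono h3 h2⟩⟩]
    refine IsClosed.inter ?_ ((Set.toFinite _).isClosed_biUnion fun P _ => ?_)
    · simp only [Lin, Set.setOf_forall]; exact isClosed_iInter fun r => isClosed_eq (by fun_prop) (by fun_prop)
    · simp only [Set.setOf_forall]; exact isClosed_iInter fun r => isClosed_iInter fun _ => isClosed_le (by fun_prop) (by fun_prop)
  have hv : v ∈ S.T := by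
    obtain ⟨g, hg, h⟩ := h1
    simpa [mul_assoc] using mul_mem (mul_mem (inv_mem hg) (S.gen_le_T _ h)) hg
  obtain ⟨y0, ⟨a1, g0, a2, a3⟩, a4⟩ := exists_min_sq hA ⟨_, lin_fl fl, h1.imp fun g h => ⟨h.1,
    S.gen_mono (fun r hr => by simpa using (by exact_mod_cast pos_fl r hr : (1 : ℝ) ≤ (fl (wt r) : ℤ))) h.2⟩⟩
  obtain ⟨w0, b0⟩ := exists_dom a1.ng
  obtain ⟨n0, hn0⟩ := exists_rep (S := S) w0
  have b1 := a1.smul w0
  have b3 : n0⁻¹ * g0 * v * (n0⁻¹ * g0)⁻¹ ∈ S.gen {r | 1 ≤ y0 (w0 • r)} := by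
    simpa [mul_assoc] using hn0.act.conj_mem' (Q := {r | 1 ≤ y0 (w0 • r)}) (fun r hr => by simpa using hr) a3
  have b2 : n0⁻¹ * g0 ∈ S.T := mul_mem (inv_mem (S.N_le_T hn0.mem_N)) a2
  generalize n0⁻¹ * g0 = g at b2 b3
  have b4 : ∀ z, Lin z → (∃ k ∈ S.T, k * (g * v * g⁻¹) * k⁻¹ ∈ S.gen {r | 1 ≤ z r}) → ∑ r, y0 (w0 • r) ^ 2 ≤ ∑ r, z r ^ 2 := fun z hz ⟨k, hk, h⟩ =>
    (Equiv.sum_comp (MulAction.toPerm w0) fun r => y0 r ^ 2).trans_le (a4 z ⟨hz, k * g, mul_mem hk b2, by simpa [mul_assoc] using h⟩)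
  refine ⟨g, b2, {j | y0 (w0 • sim j) = 0}, by_contra fun h => h0 ?_, fun a ha h => (hθ.bt_aux2 b1 b0 b1 b0 rfl b3 b4
    (mul_mem (mul_mem b2 ha) (inv_mem b2)) (by rw [← h] at b3; simpa [mul_assoc] using b3)).1, fun R σ hR hσ => ?_⟩
  · have : {r | 1 ≤ y0 (w0 • r)} = ∅ := Set.eq_empty_of_forall_notMem fun r hr => by
      have := b1 r
      simp only [Set.not_nonempty_iff_eq_empty, Set.compl_empty_iff, Set.eq_univ_iff_forall, Set.mem_setOf_eq] at h hr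
      simp only [h, mul_zero, Finset.sum_const_zero] at this
      linarith
    simpa [this] using b3
  · have k1 : ∀ j, R.ρ.symm (sim (R.π j)) = sim j := fun j => by rw [← R.sim, Equiv.symm_apply_apply]
    have := hθ.bt_aux2 (y' := fun r => y0 (w0 • R.ρ.symm r)) b1 b0 (fun r => by
      refine (b1 _).trans ((Finset.sum_congr rfl fun j _ => ?_).trans (Equiv.sum_comp R.π _))
      beta_reduce; rw [k1, ← hR, Equiv.apply_symm_apply]) (fun j => by rw [← R.π.apply_symm_apply j, k1]; exact b0 _)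
      (Equiv.sum_comp R.ρ.symm fun r => y0 (w0 • r) ^ 2) b3 b4 (mul_mem (σ.map_T b2) (inv_mem b2)) (by
        have := σ.map_gen (Q := {r | 1 ≤ y0 (w0 • R.ρ.symm r)}) (fun r hr => by simpa using hr) b3
        rw [σ.mul3 b2 hv (inv_mem b2), σ.inv b2, hσ] at this
        simpa [mul_assoc] using this)
    exact ⟨fun i => by simp only [Set.mem_setOf_eq]; rw [← this.2, k1], this.1⟩

theorem Cov.rat_coset (hθ : S.Cov θ) {g : Γ} (hg : g ∈ S.T) (J : Set (I D)) : ∃ m, ∃ u ∈ S.U, (∀ n, S.Rep n m → n * u * g⁻¹ ∈ S.P J) ∧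
    ∀ (R : RSym D) (σ : Tw S R), R.Inv J → σ.σ g * g⁻¹ ∈ S.P J → m ∈ R.W1 ∧ σ.σ u = u := by
  obtain ⟨w, hw⟩ := exists_cell hg
  obtain ⟨m, hm, v, hv, e⟩ := exists_minK J w⁻¹
  obtain ⟨n, hn⟩ := exists_rep (S := S) m⁻¹
  obtain ⟨n', hn'⟩ := exists_rep (S := S) v⁻¹
  obtain ⟨b, hb, u, hu, rfl⟩ := hw.exists_bnu (n := n' * n) (by rw [← inv_inv w, e, mul_inv_rev]; exact hn'.mul hn)
  obtain ⟨c, hc, u', hu', rfl⟩ := U_decomp m⁻¹ (S.Um_le_U _ hu)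
  have c1 : b * n' * (n * c * n⁻¹) ∈ S.P J := mul_mem (mul_mem (B_le_P J hb) (H24.rep_mem_P hn' (inv_mem hv))) (H24.U_le_P J (hn.conj_Up hc))
  have c2 : n * u' ∈ S.T := mul_mem (S.N_le_T hn.mem_N) (S.gen_le_T _ hu')
  rw [show b * (n' * n) * (c * u') = b * n' * (n * c * n⁻¹) * (n * u') by group]
  generalize b * n' * (n * c * n⁻¹) = q at c1
  refine ⟨m⁻¹, u', S.Um_le_U _ hu', fun k hk => ?_, fun R τ d6 d5 => ?_⟩
  · simpa [mul_assoc] using mul_mem (B_le_P J (S.H_le_B (hk.mul_inv_mem hn))) (inv_mem c1)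
  replace d5 : τ.σ (n * u') * (n * u')⁻¹ ∈ S.P J := by
    rw [τ.mul _ (P_le_T J c1) _ c2] at d5
    simpa [mul_assoc] using mul_mem (mul_mem (inv_mem (τ.map_P d6 c1)) d5) c1
  obtain ⟨z, hz, e1⟩ := mem_P.1 d5
  have e2 := H24.cell_mul_min e1 hn fun r hr => by
    rw [inv_inv]; exact hm.isPos (mem_inv.1 hr).1 (mem_WJ_iff.1 hz r hr)
  have e3 : τ.σ (n * u') = τ.σ n * τ.σ u' := τ.mul _ (S.N_le_T hn.mem_N) _ (S.gen_le_T _ hu')
  have e4 := hθ.cell_unique (e2.mul_right (S.U_le_B (S.Um_le_U _ hu'))) (by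
    rw [show τ.σ (n * u') * (n * u')⁻¹ * n * u' = τ.σ n * τ.σ u' by rw [← e3]; group]
    exact (τ.map_rep hn).cell.mul_right (S.U_le_B (τ.map_U (S.Um_le_U _ hu'))))
  have e5 : m = R.tw m := hm.eq_of_mul (d6.minK_tw hm) (inv_mem hz) (inv_injective (by
    rw [← map_inv, ← e4, mul_inv_rev, inv_inv]))
  obtain rfl : z = 1 := by rw [map_inv, ← e5] at e4; simpa using e4
  have e6 : R.tw m⁻¹ = m⁻¹ := by rw [map_inv, ← e5]
  exact ⟨RSym.mem_W1.2 e6, (hθ.bnu_unique hn (cell_one.1 e1) (S.H_le_B ((e6 ▸ τ.map_rep hn).mul_inv_mem hn)) hu' (e6 ▸ τ.map_Um hu')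
    (by rw [e3]; group)).2.symm⟩
end StSys

namespace Lay
variable {L : Lay D F} (hθ : S.Cov θ) {r : Φ D} (hr : IsPos r) {a b : Γ}
include hθ hr
theorem ld_conj (hb : b ∈ S.U) (ha : a ∈ L.U S (L.κ r)) : L.ld S r (b⁻¹ * a * b) = L.ld S r a := by
  have h := inv_mem (comm hb ha)
  rw [show b⁻¹ * a * b = a * (b⁻¹ * a⁻¹ * b * a)⁻¹ by group, ld_mul hθ hr ha (L.U_mono S (Nat.le_succ _) h), ld_succ hθ hr h, add_zero]
theorem ld_zero {Q : Set (Φ D)} (h : ∀ s ∈ Q, (IsPos s ∧ L.κ r ≤ L.κ s) ∧ r ≠ s) (ha : a ∈ S.gen Q) : L.ld S r a = 0 :=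
  S.gen_induction (Q := fun a => L.ld S r a = 0) (ld_one hθ hr) (fun a ha s hs t e => by
    rw [ld_mul hθ hr (S.gen_mono (fun s hs => (h s hs).1) ha) (S.x_mem (h s hs).1 t), e, ld_x hθ hr (h s hs).1.1 (h s hs).1.2,
      if_neg (h s hs).2, add_zero]) ha
theorem ld_inv (ha : a ∈ L.U S (L.κ r)) : L.ld S r a⁻¹ = - L.ld S r a := by
  have := ld_mul hθ hr ha (inv_mem ha)
  rw [mul_inv_cancel, ld_one hθ hr] at this
  exact eq_neg_of_add_eq_zero_right this.symm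
theorem ld_fld {γ : Tw S (RSym.refl D)} {φ : F →+* F} (hγ : ∀ r t, γ.σ (S.x r t) = S.x r (φ t)) (ha : a ∈ L.U S (L.κ r)) :
    L.ld S r (γ.σ a) = φ (L.ld S r a) :=
  ld_map hθ hr hr rfl (f := γ.σ) (g := φ) γ.one (fun _ h _ h' => γ.mul _ (S.gen_le_T _ h) _ (S.gen_le_T _ h'))
    (fun _ => γ.map_gen fun _ hk => hk) (fun k hk hi t => by rw [hγ, ld_x hθ hr hk hi]; rfl) ha
end Lay

/-- the layers of a linear height function -/
structure Lay.Lin (L : Lay D F) (f : Λ D →ₗ[ℤ] ℤ) : Prop where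
  pos : ∀ r ∈ {r : Φ D | IsPos r}, 0 < f (wt r)
  eq : ∀ {r}, IsPos r → (L.κ r : ℤ) = f (wt r)
theorem exists_lin (F : Type*) [Field F] {f : Λ D →ₗ[ℤ] ℤ} (hf : ∀ r ∈ {r : Φ D | IsPos r}, 0 < f (wt r)) : ∃ L : Lay D F, L.Lin f :=
  ⟨⟨fun r => (f (wt r)).toNat, fun r s hr hs h c hc => Or.inr (by
    have := PosComb.le ⟨_, _, cterms_spec h (hr.ne_ng hs) hc⟩ (hf r hr) (hf s hs); have := hf r hr; have := hf s hs; omega)⟩,
    hf, fun hr => Int.toNat_of_nonneg (hf _ hr).le⟩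

namespace Lay.Lin
variable {f : Λ D →ₗ[ℤ] ℤ} {L : Lay D F} (hL : L.Lin f)
include hL
theorem set (i : ℕ) : {r | IsPos r ∧ i ≤ L.κ r} = {r ∈ {r | IsPos r} | (i : ℤ) ≤ f (wt r)} :=
  Set.ext fun r => and_congr_right fun hr => by rw [← hL.eq hr, Nat.cast_le]
theorem comm {i j : ℕ} {a b : Γ} (ha : a ∈ L.U S i) (hb : b ∈ L.U S j) : a⁻¹ * b⁻¹ * a * b ∈ L.U S (i + j) := by
  rw [Lay.U, hL.set] at ha hb ⊢
  rw [Nat.cast_add]
  exact S.gen_comm_mem closed_isPos hL.pos _ _ ha hb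
variable (hθ : S.Cov θ) {k : Φ D} (hk : IsPos k) {i j : ℕ} (e : L.κ k = i + j)
include hθ hk
theorem pers {y : Γ} (hy : y ∈ L.U S (L.κ k)) (h : L.ld S k y ≠ 0) : S.Pers {k} y :=
  ⟨L.U_le S _ hy, fun u hu Q hQ hQ' hm => Set.singleton_subset_iff.2 (by_contra fun h' => h (by
    have h1 := Lay.conj (inv_mem hu) hy
    rw [← Lay.ld_conj hθ hk (inv_mem hu) hy]
    rw [inv_inv] at h1 ⊢
    exact Lay.ld_zero hθ hk (fun s hs => ⟨hs.1, by rintro rfl; exact h' hs.2⟩) (hθ.gen_inf (f := f) (by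
      rw [hL.set]; exact closed_filt closed_isPos hL.pos _) (fun s hs => hL.pos s hs.1) hQ (fun s hs => hL.pos s (hQ' s hs)) h1 hm)))⟩
include e
theorem ld_comm_mul {u y y' : Γ} (hu : u ∈ L.U S i) (hy : y ∈ L.U S j) (hy' : y' ∈ L.U S j) :
    L.ld S k (u⁻¹ * (y * y')⁻¹ * u * (y * y')) = L.ld S k (u⁻¹ * y⁻¹ * u * y) + L.ld S k (u⁻¹ * y'⁻¹ * u * y') := by
  have h1 := e ▸ hL.comm hu hy
  rw [show u⁻¹ * (y * y')⁻¹ * u * (y * y') = u⁻¹ * y'⁻¹ * u * y' * (y'⁻¹ * (u⁻¹ * y⁻¹ * u * y) * y') by group,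
    Lay.ld_mul hθ hk (e ▸ hL.comm hu hy') (Lay.conj (L.U_le S _ hy') h1), Lay.ld_conj hθ hk (L.U_le S _ hy') h1, add_comm]
theorem ld_comm_ind {u y : Γ} (hy : y ∈ L.U S j) {g : Γ → F} (g1 : g 1 = 0) (g2 : ∀ u ∈ L.U S i, ∀ v ∈ L.U S i, g (u * v) = g u + g v)
    (h : ∀ r, IsPos r → i ≤ L.κ r → ∀ t, L.ld S k ((S.x r t)⁻¹ * y⁻¹ * S.x r t * y) = g (S.x r t)) (hu : u ∈ L.U S i) :
    L.ld S k (u⁻¹ * y⁻¹ * u * y) = g u :=
  S.gen_induction (Q := fun u => L.ld S k (u⁻¹ * y⁻¹ * u * y) = g u) (by simpa [g1] using Lay.ld_one hθ hk) (fun u hu r hr t ih => by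
    have h1 := e ▸ hL.comm hu hy
    rw [show (u * S.x r t)⁻¹ * y⁻¹ * (u * S.x r t) * y = (S.x r t)⁻¹ * (u⁻¹ * y⁻¹ * u * y) * S.x r t * ((S.x r t)⁻¹ * y⁻¹ * S.x r t * y) by group,
      Lay.ld_mul hθ hk (Lay.conj (S.x_mem_U hr.1 t) h1) (e ▸ hL.comm (S.x_mem hr t) hy), Lay.ld_conj hθ hk (S.x_mem_U hr.1 t) h1, ih, h r hr.1 hr.2,
      g2 u hu _ (S.x_mem hr t)]) hu
theorem ld_comm_xx {a r : Φ D} (ha : IsPos a) (hr : IsPos r) (h1 : j ≤ L.κ a) (h2 : i ≤ L.κ r) (s t : F) :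
    (wt k ≠ wt a + wt r → L.ld S k ((S.x r t)⁻¹ * (S.x a s)⁻¹ * S.x r t * S.x a s) = 0) ∧
    ∀ n, (k, n, 1, 1) ∈ cterms a r → L.ld S k ((S.x r t)⁻¹ * (S.x a s)⁻¹ * S.x r t * S.x a s) = -n * s * t := by
  by_cases h : r = a
  · subst h
    exact ⟨fun _ => by rw [mul_assoc, (S.x_commute_self r t s).eq]; simpa using Lay.ld_one hθ hk, fun n hn => by
      simp [cterms, ChevalleyDatum.commTerms, ChevalleyDatum.chainRoot, ce_self] at hn⟩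
  have k1 : ∀ c ∈ cterms a r, (IsPos c.1 ∧ L.κ k ≤ L.κ c.1) ∧ (c.1 = k → wt k = wt a + wt r) := fun c hc => by
    have p := cterms_spec h (ha.ne_ng hr) hc
    have q := closed_isPos a ha r hr _ ⟨_, _, p⟩
    have e1 := congrArg f p.2.2
    simp only [map_add, map_smul, smul_eq_mul, ← hL.eq q, ← hL.eq ha, ← hL.eq hr] at e1
    have a1 := hL.pos a ha; have a2 := hL.pos r hr
    rw [← hL.eq ha] at a1; rw [← hL.eq hr] at a2
    refine ⟨⟨q, by nlinarith [p.1, p.2.1]⟩, fun e2 => ?_⟩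
    rw [e2] at e1 p
    have b1 : c.2.2.1 = 1 := by nlinarith [p.1, p.2.1]
    have b2 : c.2.2.2 = 1 := by nlinarith [p.1, p.2.1]
    simpa [b1, b2] using p.2.2
  have k2 : ∀ w : List (Φ D × F), (∀ c ∈ w, ∃ d ∈ cterms a r, d.1 = c.1 ∧ c.1 ≠ k) →
      wprod S.x w ∈ L.U S (L.κ k) ∧ L.ld S k (wprod S.x w) = 0 := fun w hw => by
    have : wprod S.x w ∈ S.gen {s | (IsPos s ∧ L.κ k ≤ L.κ s) ∧ k ≠ s} := S.wprod_mem fun c hc => by
      obtain ⟨d, h1, h2, h3⟩ := hw c hc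
      exact S.x_mem (And.intro (h2 ▸ (k1 d h1).1) h3.symm) _
    exact ⟨S.gen_mono (fun _ h => h.1) this, Lay.ld_zero hθ hk (fun _ h => h) this⟩
  rw [show (S.x r t)⁻¹ * (S.x a s)⁻¹ * S.x r t * S.x a s = wprod S.x (cword a r s t) by rw [mul_assoc, S.comm h (ha.ne_ng hr)]; group]
  refine ⟨fun h' => (k2 _ fun c hc => ?_).2, fun n hn => ?_⟩
  · obtain ⟨d, hd, rfl⟩ := List.mem_map.1 hc
    exact ⟨d, hd, rfl, fun e => h' ((k1 d hd).2 e)⟩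
  obtain ⟨l1, l2, e1⟩ := List.append_of_mem hn
  have hn := cterms_nodup h (ha.ne_ng hr)
  rw [e1] at hn
  simp only [List.map_append, List.map_cons, List.nodup_append, List.nodup_cons, List.mem_map, List.mem_cons] at hn
  have k3 : ∀ l : List (Φ D × ℤ × ℕ × ℕ), (∀ d ∈ l, d ∈ cterms a r ∧ d.1 ≠ k) → _ := fun l hl =>
    k2 (l.map fun c => (c.1, (c.2.1 : F) * (-s) ^ c.2.2.1 * t ^ c.2.2.2)) fun c hc => by
      obtain ⟨d, hd, rfl⟩ := List.mem_map.1 hc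
      exact ⟨d, (hl d hd).1, rfl, (hl d hd).2⟩
  have p1 := k3 l1 fun d hd => ⟨by simp [e1, hd], hn.2.2 _ ⟨d, hd, rfl⟩ _ (Or.inl rfl)⟩
  have p2 := k3 l2 fun d hd => ⟨by simp [e1, hd], fun e => hn.2.1.1 ⟨d, hd, e⟩⟩
  rw [cword, e1, List.map_append, List.map_cons, wprod_append, wprod_cons, Lay.ld_mul hθ hk p1.1 (mul_mem (L.x_mem S hk le_rfl _) p2.1),
    Lay.ld_mul hθ hk (L.x_mem S hk le_rfl _) p2.1, p1.2, p2.2, Lay.ld_self hθ hk]
  ring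
theorem ld_comm_x0 {a : Φ D} (ha : IsPos a) (h1 : j ≤ L.κ a) (h : ∀ r, IsPos r → wt k ≠ wt a + wt r) (s : F) {u : Γ} (hu : u ∈ L.U S i) :
    L.ld S k (u⁻¹ * (S.x a s)⁻¹ * u * S.x a s) = 0 :=
  hL.ld_comm_ind hθ hk e (L.x_mem S ha h1 s) (g := fun _ => 0) rfl (by simp) (fun r hr h2 t => (hL.ld_comm_xx hθ hk e ha hr h1 h2 s t).1 (h r hr)) hu
theorem ld_comm_x {a r : Φ D} (ha : IsPos a) (hr : IsPos r) (h1 : j ≤ L.κ a) (h2 : L.κ r = i) {n : ℤ} (hn : (k, n, 1, 1) ∈ cterms a r)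
    (s : F) {u : Γ} (hu : u ∈ L.U S i) : L.ld S k (u⁻¹ * (S.x a s)⁻¹ * u * S.x a s) = -n * s * L.ld S r u := by
  subst h2
  refine hL.ld_comm_ind hθ hk e (L.x_mem S ha h1 s) (g := fun u => -n * s * L.ld S r u) (by simp [Lay.ld_one hθ hr])
    (fun u hu v hv => by rw [Lay.ld_mul hθ hr hu hv, mul_add]) (fun r' hr' h2 t => ?_) hu
  have := hL.ld_comm_xx hθ hk e ha hr' h1 h2 s t
  rw [Lay.ld_x hθ hr hr' h2]
  split_ifs with h
  · exact this.2 n (h ▸ hn)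
  · rw [mul_zero]
    refine this.1 fun e => h (wt_injective (add_left_cancel (a := wt a) ?_))
    have hne : r ≠ a := by rintro rfl; simp [cterms, ChevalleyDatum.commTerms, ChevalleyDatum.chainRoot, ce_self] at hn
    simpa [e] using (cterms_spec hne (ha.ne_ng hr) hn).2.2.symm
omit hk e
/-- centralisers of rational points of unipotent radicals -/
theorem cent_lay {J : Set (I D)} (hJ : Jᶜ.Nonempty) {X : Set Γ}
    (hX : ∀ r, IsPos r → ¬ InJ J r → ∃ y ∈ X, y ∈ S.gen {s | (IsPos s ∧ ¬ InJ J s) ∧ f (wt r) ≤ f (wt s)} ∧ L.ld S r y ≠ 0)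
    {g : Γ} (hg : g ∈ S.T) (h : ∀ y ∈ X, g * y * g⁻¹ = y) : ∃ u ∈ S.U, θ g = θ u := by
  have m : ∀ {r y}, IsPos r → y ∈ S.gen {s | (IsPos s ∧ ¬ InJ J s) ∧ f (wt r) ≤ f (wt s)} → y ∈ L.U S (L.κ r) := fun hr h =>
    S.gen_mono (fun s hs => And.intro hs.1.1 (by have := hs.2; rwa [← hL.eq hr, ← hL.eq hs.1.1, Nat.cast_le] at this)) h
  have key : ∀ {g w}, S.Cell w g → (∀ y ∈ X, g * y * g⁻¹ = y) → ∀ r, IsPos r ∧ ¬ InJ J r →
      (IsPos (w • r) ∧ ¬ InJ J (w • r)) ∧ f (wt r) ≤ f (wt (w • r)) := fun hw h r hr => by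
    obtain ⟨y, h1, h2, h3⟩ := hX r hr.1 hr.2
    exact hθ.smul_mem (R := {s | (IsPos s ∧ ¬ InJ J s) ∧ f (wt r) ≤ f (wt s)}) (hL.pers hθ hr.1 (m hr.1 h2) h3) (stab_of_ideal (fun _ h => h.1.1)
      (fun a ha s hs u hu => And.intro (pos_not_inJ_add (Or.inl ha) hs.1 hu) (by
        have := hu.le (hL.pos a ha) (hL.pos s hs.1.1); have := hL.pos a ha; have := hs.2; omega)) h2) hw (h y h1) r rfl
  obtain ⟨w, hw⟩ := exists_cell hg
  have h1 : ∀ r, IsPos r ∧ ¬ InJ J r → f (wt (w • r)) = f (wt r) := fun r hr => le_antisymm (by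
    simpa using (key hw.inv (fun y hy => by
      rw [inv_inv, mul_assoc, inv_mul_eq_iff_eq_mul, ← mul_inv_eq_iff_eq_mul.1 (h y hy)]) _ (key hw h r hr).1).2) (key hw h r hr).2
  obtain rfl : w = 1 := eq_one_of_pos fun i => by
    by_cases hi : i ∈ J
    · obtain ⟨r, s, a1, a2, e⟩ := exists_step hJ hi
      have := congrArg (f ∘ wL w) e
      simp only [Function.comp, map_add, wL_wt, h1 r a1, h1 s a2] at this
      rw [e, map_add, add_left_inj] at this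
      by_contra hn
      have b1 := hL.pos _ (isPos_ng.2 hn); have b2 := hL.pos _ (isPos_sim i)
      rw [wt_ng, map_neg] at b1; omega
    · exact (key hw h _ ⟨isPos_sim i, mt inJ_sim.1 hi⟩).1.1
  obtain ⟨u, hu, k, hk, rfl⟩ := mem_B.1 (cell_one.1 hw)
  obtain ⟨χ, b1, b2⟩ := exists_char_of_mem_H hk
  have h2 : ∀ r, IsPos r ∧ ¬ InJ J r → χ (rc r) = 1 := fun r hr => by
    obtain ⟨y, h1, h2, h3⟩ := hX r hr.1 hr.2
    have := Lay.ld_conj hθ hr.1 hu (m hr.1 h2)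
    rw [show u⁻¹ * y * u = k * y * k⁻¹ by
      conv_lhs => rw [← h y h1]
      simp [mul_assoc], Lay.ld_wt hθ hr.1 (χ := fun r => (χ (rc r) : F)) (h := k) b1 (m hr.1 h2)] at this
    exact Units.ext (mul_right_cancel₀ h3 (by simpa using this))
  suffices θ k = 1 from ⟨u, hu, by rw [map_mul, this, mul_one]⟩
  refine Units.ext ((b2 θ hθ).trans (dg_eq_one.2 (char_eq_one_iff.2 fun i => ?_)))
  by_cases hi : i ∈ J
  · obtain ⟨r, s, a1, a2, e⟩ := exists_step hJ hi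
    have := h2 s a2
    rwa [rc_of_wt_eq₂ (a := 1) (b := 1) (by simpa using e), one_smul, one_smul, AddChar.map_add_eq_mul, h2 r a1, mul_one] at this
  · exact h2 _ ⟨isPos_sim i, mt inJ_sim.1 hi⟩
end Lay.Lin

end H12
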