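import Cfsg.Agent.H12.OG1
import Cfsg.Agent.H12.SL2
import Cfsg.Agent.H12.ConjB
import Cfsg.Agent.H10.DicksonSL
import Cfsg.Agent.H9.Dihedral

/-! Finite overgroups `H` of the rational points of a (twisted) Chevalley group: if the unipotent part `H ∩ U` is rational then `H` is rational
(`OG.all_two`, `OG.all_odd`), through the parabolic subgroups (`OG.fixP`) and the strong embedding property (`OG.se`). -/

set_option autoImplicit false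

namespace H12
open Cfsg.Lie H13 StSys Subgroup H24 H10
open scoped MatrixGroups Matrix

theorem sl2_neg_one_mem {F : Type*} [Field F] (p : ℕ) [hp : Fact p.Prime] [CharP F p] (h2 : p ≠ 2) {A : Subgroup SL(2, F)} {c : F} (hc : c ≠ 0)
    (hx : (sl2R F).x 1 ∈ A) (hy : (sl2R F).y c ∈ A) {m : ℕ} (hm : m ≠ 0) (h : ((sl2R F).x 1 * (sl2R F).y c) ^ m = 1) : -1 ∈ A := by
  letI := ZMod.algebra F p
  have hi : IsIntegral (ZMod p) c := by
    let j := algebraMap F (AlgebraicClosure F)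
    obtain ⟨l, hl⟩ := IsAlgClosed.exists_root (k := AlgebraicClosure F) (Polynomial.X ^ 2 - Polynomial.C (2 + j c) * Polynomial.X + 1) (by
      have : (Polynomial.X ^ 2 - Polynomial.C (2 + j c) * Polynomial.X + 1).degree = 2 := by compute_degree!
      rw [this]; decide)
    have e1 : ∀ k, (((sl2R F).x 1 * (sl2R F).y c) ^ k).1.map j *ᵥ ![1, l - 1 - j c] = l ^ k • ![1, l - 1 - j c] := fun k => by
      induction k with
      | zero => simp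
      | succ k ih =>
        rw [pow_succ, Matrix.SpecialLinearGroup.coe_mul, Matrix.map_mul, ← Matrix.mulVec_mulVec, pow_succ', mul_smul, ← ih, ← Matrix.mulVec_smul]
        congr 1
        simp at hl
        ext i; fin_cases i <;> simp [sl2R, slMk_mul, Matrix.mulVec, dotProduct]
        linear_combination -hl
    have e2 : l ^ m = 1 := by simpa [h] using (congrFun (e1 m) 0).symm
    have e3 : IsIntegral (ZMod p) l := IsIntegral.of_pow (Nat.pos_of_ne_zero hm) (e2 ▸ isIntegral_one)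
    obtain ⟨m, rfl⟩ := Nat.exists_eq_succ_of_ne_zero hm
    refine (isIntegral_algebraMap_iff (B := AlgebraicClosure F) j.injective).1 ?_
    rw [show algebraMap F _ c = l + l ^ m - 1 - 1 by simp at hl; rw [pow_succ] at e2; linear_combination (l - 2 - j c) * e2 - l ^ m * hl]
    exact ((e3.add (e3.pow m)).sub isIntegral_one).sub isIntegral_one
  let E := IntermediateField.adjoin (ZMod p) {c}
  haveI := IntermediateField.adjoin.finiteDimensional hi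
  haveI : Finite E := Module.finite_of_finite (ZMod p)
  haveI : CharP E p := (algebraMap E F).charP_iff_charP p |>.2 ‹_›
  let c' : E := ⟨c, IntermediateField.mem_adjoin_simple_self _ _⟩
  have : Odd p := hp.out.odd_of_ne_two h2
  obtain ⟨R, T, h⟩ := exists_SL2_le_of_not_commute p h2 (A.comap (Matrix.SpecialLinearGroup.map (algebraMap E F))) (a := (sl2R E).x 1)
    (b := (sl2R E).y c') (i := 1) (j := 1) (by simpa [sl2R, map_slMk, mem_comap] using hx) (by simpa [sl2R, map_slMk, mem_comap] using hy)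
    (by simp [sl2R, slMk_upper_pow, slMk_one]) (by simp [sl2R, slMk_lower_pow, slMk_one]) (by
      simp [sl2R, slMk_mul, slMk_inj]; exact fun e => absurd (congrArg Subtype.val e) hc)
  have := h (-1)
  rw [mem_comap] at this
  convert this
  refine Subtype.ext ?_
  change _ = (algebraMap E F).mapMatrix (T.1 * R.subtype.mapMatrix (-1) * (T⁻¹).1)
  rw [map_neg, map_one, mul_neg_one, neg_mul, ← Units.val_mul, mul_inv_cancel, Units.val_one, map_neg, map_one]; rfl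

variable {D : ChevalleyDatum} [G : Good D] {F : Type*} [Field F] {Γ : Type*} [Group Γ] {S : StSys D F Γ} {θ : Γ →* GL D.Idx F}

theorem StSys.IsSL.sq_eq_one {r : Φ D} {f : SL(2, F) →* Γ} (h : S.IsSL r f) (hθ : S.Cov θ) (hr : IsPos r) {g : SL(2, F)} (hg : f g = 1) :
    g * g = 1 := by
  rcases r1_bruhat sl2R_hm (sl2R_T F ▸ Subgroup.mem_top g) with ⟨a, t, rfl⟩ | ⟨a, t, b, rfl⟩
  · rw [map_mul, h.1, h.h', mul_eq_one_iff_eq_inv] at hg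
    have h1 := hθ.eq_one_of_U_H (S.x_mem_U hr a) (hg ▸ inv_mem (S.h_mem_H r t))
    have k : ∀ {a b}, S.x r a = S.x r b → a = b := fun e => xR_inj (r := r) (by simpa [hθ r] using congrArg (fun g => (θ g).1) e)
    obtain rfl : a = 0 := k (h1.trans (S.x_zero r).symm)
    have := S.h_conj_x r r t 1
    rw [h1, eq_comm, inv_eq_one] at hg
    rw [hg, one_mul, inv_one, mul_one] at this
    rw [R1.x_zero, one_mul, ← sl2R_hm, show t * t = 1 from Units.ext (by simpa [sq, zpow_ofNat] using (k this).symm), R1.h_one]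
  · rw [map_mul, map_mul, h.1, h.1, h.n] at hg
    have := hθ.cell_unique ⟨_, S.U_le_B (S.x_mem_U hr a), _, rep_n r t, _, S.U_le_B (S.x_mem_U hr b), hg.symm⟩ (cell_one.2 (one_mem _))
    exact (ng_ne r (by simpa using congrArg (· • r) this)).elim

theorem top_pos {r : Φ D} (hr : ∀ s, s ≤ r) : IsPos r :=
  (isPos_or r).elim id fun h => isPos_iff_fl.2 ((isPos_iff_fl.1 h).trans_le (fl_strictMono.monotone (hr _)))
theorem top_conj {r : Φ D} (hr : ∀ s, s ≤ r) (t : F) {u : Γ} (hu : u ∈ S.U) : u * S.x r t * u⁻¹ = S.x r t := by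
  have := conj_x_mem (top_pos hr) t hu
  rw [Set.eq_empty_of_forall_notMem (s := {s ∈ {s | IsPos s} | fl (wt r) + 1 ≤ fl (wt s)}) fun s hs => by
    have : fl (wt s) ≤ fl (wt r) := fl_strictMono.monotone (hr s); have := hs.2; omega] at this
  rw [gen_empty, mem_bot, inv_mul_eq_one] at this
  exact this.symm
theorem top_conj_T {r : Φ D} (hr : ∀ s, s ≤ r) {g : Γ} (hg : g ∈ S.T) : ∃ u ∈ S.U, ∃ w : W D, ∃ c : Fˣ, g * S.x r 1 * g⁻¹ = u * S.x (w • r) c * u⁻¹ := by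
  obtain ⟨w, hw⟩ := exists_cell hg
  obtain ⟨u, hu, n, hn, u', hu', rfl⟩ := hw.exists_unu
  obtain ⟨c, hc⟩ := hn.act.conj_x r
  refine ⟨u, hu, w, c, ?_⟩
  rw [← mul_one (c : F), ← hc]
  conv_rhs => rw [← top_conj hr 1 (S.Um_le_U w hu')]
  group
theorem exists_conj_U_of_pos {f : Λ D →ₗ[ℤ] ℤ} {z : Γ} (hz : z ∈ S.gen {r | 0 < f (wt r)}) : ∃ g ∈ S.T, g * z * g⁻¹ ∈ S.U := by
  obtain ⟨w, hw⟩ := exists_dom (y := fun r => (f (wt r) : ℝ)) (lin_fl f).ng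
  obtain ⟨n, hn⟩ := exists_rep (S := S) w
  refine ⟨n⁻¹, inv_mem (S.N_le_T hn.mem_N), 
    (inv_inv n).symm ▸ hn.act.conj_mem' (Q := {r | IsPos r}) (fun r hr => by_contra fun h => ?_) hz⟩
  have := ((lin_fl f).smul w).nonpos hw h
  simp only [smul_inv_smul, Int.cast_nonpos] at this
  exact this.not_gt hr

theorem top_long {r : Φ D} (hr : ∀ s, s ≤ r) {u : Φ D} (h : 2 ≤ pr r u) : u = r := by
  have h1 : fl (wt (rf r (ng u))) ≤ fl (wt r) := fl_strictMono.monotone (hr _)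
  have h2 := isPos_iff_fl.1 (top_pos hr)
  simp only [wt_rf, wt_ng, pr_ng_right, map_sub, map_neg, map_smul, smul_eq_mul] at h1
  exact le_antisymm (hr u) (fl_strictMono.le_iff_le.1 (by nlinarith))
theorem top_comm {r : Φ D} (hr : ∀ s, s ≤ r) {k : Φ D} (hk : k = r ∨ k = ng r) (t : F) {v : Γ} (hv : v ∈ S.gen {s | IsPos s ∧ pr r s = 0}) :
    Commute (S.x k t) v := by
  refine S.gen_induction (Q := fun v => Commute (S.x k t) v) (Commute.one_right _) (fun _ _ s hs u h => h.mul_right (S.commute_x ?_ ?_ t u)) hv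
  · rintro rfl; rcases hk with rfl | rfl <;> simpa using hs.2
  rintro a ⟨i, j, hi, hj, e⟩
  have e1 := congrArg (pairL r) e
  have e2 : pr r s = 0 := hs.2
  simp only [map_add, map_smul, smul_eq_mul] at e1
  change pr r a = i * pr r k + j * pr r s at e1
  have : a = k := by
    rcases hk with rfl | rfl
    · exact top_long hr (by simp [e1, e2]; omega)
    · exact ng_eq_iff.1 (top_long hr (by simp [e1, e2]; omega))
  subst this
  obtain rfl : i = 1 := by rcases hk with rfl | rfl <;> simp [e2] at e1 <;> omega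
  rw [Nat.cast_one, one_smul, left_eq_add, smul_eq_zero] at e
  exact e.elim (by omega) (wt_ne_zero s)
theorem StSys.Cov.x_ne_one (hθ : S.Cov θ) {r : Φ D} (hr : IsPos r) : S.x r 1 ≠ 1 := fun e =>
  hθ.not_isPos_of_x_mem_V one_ne_zero (e ▸ one_mem _) hr

theorem conj_U_of_mem {v : Γ} (h : v ∈ S.U) : ∃ g ∈ S.T, g * v * g⁻¹ ∈ S.U := ⟨1, one_mem _, by rwa [one_mul, inv_one, mul_one]⟩

/-- hypotheses on an overgroup `H` of the rational points whose unipotent part is rational -/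
structure OG {R : RSym D} (τ : Tw S R) (γ : Tw S (RSym.refl D)) (H : Subgroup Γ) : Prop where
  le : H ≤ τ.Fix
  lin : R.Lin
  fixU : ∀ u ∈ S.U, u ∈ H → γ.σ u = u
  U_le : ∀ u ∈ S.U, τ.σ u = u → γ.σ u = u → u ∈ H
  rep : ∀ w ∈ R.W1, ∃ n ∈ H, γ.σ n = n ∧ S.Rep n w
  cent : ∀ J, R.Inv J → Jᶜ.Nonempty → ∀ c ∈ S.T, (∀ x ∈ S.UJ J ⊓ H, c * x * c⁻¹ = x) → c ∈ S.U
  rk : ∀ i, (R.orb i)ᶜ.Nonempty

namespace OG
variable {R : RSym D} {τ : Tw S R} {γ : Tw S (RSym.refl D)} {H : Subgroup Γ} (h : OG τ γ H) (hθ : S.Cov θ)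
include h
theorem hT {g : Γ} (hg : g ∈ H) : g ∈ S.T := (h.le hg).1
theorem conj {g x : Γ} (hg : g ∈ H) (hx : x ∈ H) (h1 : γ.σ x = x) (h2 : γ.σ (g * x * g⁻¹) = g * x * g⁻¹) :
    g⁻¹ * γ.σ g * x * (g⁻¹ * γ.σ g)⁻¹ = x := by
  rw [γ.mul3 (h.hT hg) (h.hT hx) (inv_mem (h.hT hg)), γ.inv (h.hT hg), h1] at h2
  rw [show g⁻¹ * γ.σ g * x * (g⁻¹ * γ.σ g)⁻¹ = g⁻¹ * (γ.σ g * x * (γ.σ g)⁻¹) * g by group, h2]; group
theorem cc {J : Set (I D)} {g : Γ} (hg : g ∈ S.P J ⊓ H) : ∀ x ∈ S.UJ J ⊓ H, g⁻¹ * γ.σ g * x * (g⁻¹ * γ.σ g)⁻¹ = x := fun x hx =>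
  have k : ∀ x ∈ S.UJ J ⊓ H, γ.σ x = x := fun x hx => h.fixU x (S.gen_mono (fun _ h => h.1) hx.1) hx.2
  h.conj hg.2 hx.2 (k x hx) (k _ (PK_conj hg hx))
include hθ
theorem bnu {J : Set (I D)} (hJ : R.Inv J) (hne : Jᶜ.Nonempty) {g n : Γ} (hg : g ∈ H) {w : W D} (hw : w ∈ WJ J) (hc : S.Cell w g) (h1 : n ∈ H)
    (h2 : γ.σ n = n) (h3 : S.Rep n w) : ∃ b ∈ S.B ⊓ H, ∃ u ∈ S.U ⊓ H, g = b * n * u := by
  have gP : g ∈ S.P J ⊓ H := ⟨mem_P.2 ⟨w, hw, hc⟩, hg⟩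
  have cT : g⁻¹ * γ.σ g ∈ S.T := mul_mem (inv_mem (h.hT hg)) (γ.map_T (h.hT hg))
  have cU : g⁻¹ * γ.σ g ∈ S.UJ J := by
    obtain ⟨m, m1, -, m2⟩ := h.rep _ hJ.w0J_mem
    rw [← Up_w0J]
    refine hθ.mem_Up_of_conj m2 (h.cent J hJ hne _ cT (h.cc gP)) (S.U_le_B (h.cent J hJ hne _
      (mul_mem (mul_mem (h.hT m1) cT) (inv_mem (h.hT m1))) fun x hx => ?_))
    have := h.cc gP _ (PK_conj (inv_mem ⟨rep_mem_P m2 (w0J_mem J), m1⟩) hx)
    calc _ = m * (g⁻¹ * γ.σ g * (m⁻¹ * x * m⁻¹⁻¹) * (g⁻¹ * γ.σ g)⁻¹) * m⁻¹ := by group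
      _ = _ := by rw [this]; group
  obtain ⟨b, hb, u, hu, rfl⟩ := hc.exists_bnu h3
  have uU := S.Um_le_U w hu
  have k : ∀ {R : RSym D} (σ : Tw S R), R.tw w = w → σ.σ n = n → ∀ b' ∈ S.B, σ.σ (b * n * u) = b' * n * u → σ.σ u = u := fun σ e1 e2 b' hb' e =>
    (hθ.bnu_unique h3 (σ.map_B hb) hb' (e1 ▸ σ.map_Um hu) hu (by rw [← e, σ.mul3 (S.B_le_T hb) (h.hT h1) (S.gen_le_T _ hu), e2])).2
  have uH := h.U_le u uU (k τ (Tw.mem_W1 hθ (h.le hg) hc) (h.le h1).2 b hb (h.le hg).2) (k γ (RSym.mem_W1_iff.2 fun _ => rfl) h2 _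
    (mul_mem hb (S.U_le_B (S.gen_mono (fun _ h => h.1) (conj_mem_of_normalizer (P_le_normalizer J
      (mul_mem (rep_mem_P h3 hw) (U_le_P J uU))) cU)))) (by group))
  exact ⟨b, ⟨hb, by simpa [mul_assoc] using mul_mem (mul_mem hg (inv_mem uH)) (inv_mem h1)⟩, u, ⟨uU, uH⟩, rfl⟩
theorem fixB {b : Γ} (hb : b ∈ S.B ⊓ H) : γ.σ b = b := by
  have k0 : ∀ b ∈ S.B ⊓ H, ∀ x ∈ S.U ⊓ H, b⁻¹ * γ.σ b * x * (b⁻¹ * γ.σ b)⁻¹ = x := fun b hb => by
    simpa only [UJ_empty] using h.cc (J := ∅) (P_empty (S := S) ▸ hb)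
  have k1 : ∀ b ∈ S.B ⊓ H, b⁻¹ * γ.σ b ∈ S.U := fun b hb => h.cent ∅ (fun _ => Iff.rfl) ⟨⟨0, by have := two_le_rank (D := D); omega⟩, id⟩ _
    (mul_mem (inv_mem (h.hT hb.2)) (γ.map_T (h.hT hb.2))) (by simpa only [UJ_empty] using k0 b hb)
  obtain ⟨n, hn, k⟩ := RSym.W1_induction (R := R) (P := fun w => ∃ n, S.Rep n w ∧ ∀ b ∈ S.B ⊓ H, ∃ b' ∈ S.B ⊓ H,
      b'⁻¹ * γ.σ b' = n * (b⁻¹ * γ.σ b) * n⁻¹) ⟨1, rep_of_mem_H (one_mem _), fun b hb => ⟨b, hb, by simp⟩⟩ (fun w _ i _ ⟨n, hn, k⟩ => by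
    obtain ⟨m, m1, m2, m3⟩ := h.rep _ (RSym.inv_orb (R := R) i).w0J_mem
    refine ⟨n * m, hn.mul m3, fun b hb => ?_⟩
    obtain ⟨b1, h1, u, hu, e⟩ := h.bnu hθ (RSym.inv_orb i) (h.rk i) (mul_mem m1 hb.2) (w0J_mem _) (m3.cell.mul_right hb.1) m1 m2 m3
    obtain ⟨b2, h2, e2⟩ := k b1 h1
    refine ⟨b2, h2, ?_⟩
    have e3 := congrArg γ.σ e
    rw [γ.mul _ (h.hT m1) _ (h.hT hb.2), γ.mul3 (h.hT h1.2) (h.hT m1) (h.hT hu.2), m2, h.fixU u hu.1 hu.2] at e3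
    have e4 := mul_inv_eq_iff_eq_mul.1 (k0 b hb u hu)
    rw [e2, show b1 = m * b * u⁻¹ * m⁻¹ by rw [e]; group] 
    rw [show γ.σ (m * b * u⁻¹ * m⁻¹) = m * γ.σ b * u⁻¹ * m⁻¹ by rw [e3, e]; simp]
    calc _ = n * m * (u * (b⁻¹ * γ.σ b)) * u⁻¹ * (n * m)⁻¹ := by group
      _ = _ := by rw [← e4]; group) RSym.w0_mem
  obtain ⟨b', h1, e⟩ := k b hb
  have := hθ.eq_one_of_V_B (hn.conj_Um (Um_w0 (S := S) ▸ k1 b hb)) (e ▸ S.U_le_B (k1 b' h1))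
  rw [mul_inv_eq_one, mul_eq_left, inv_mul_eq_one] at this
  exact this.symm
theorem fixP {J : Set (I D)} (hJ : R.Inv J) (hne : Jᶜ.Nonempty) {g : Γ} (hg : g ∈ H) (hP : g ∈ S.P J) : γ.σ g = g := by
  obtain ⟨w, hw, hc⟩ := mem_P.1 hP
  obtain ⟨n, h1, h2, h3⟩ := h.rep w (Tw.mem_W1 hθ (h.le hg) hc)
  obtain ⟨b, hb, u, hu, rfl⟩ := h.bnu hθ hJ hne hg hw hc h1 h2 h3
  rw [γ.mul3 (h.hT hb.2) (h.hT h1) (h.hT hu.2), h.fixB hθ hb, h2, h.fixU u hu.1 hu.2]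
theorem coset {J : Set (I D)} (hJ : R.Inv J) {g : Γ} (hg : g ∈ S.T) (h1 : τ.σ g * g⁻¹ ∈ S.P J) (h2 : γ.σ g * g⁻¹ ∈ S.P J) :
    ∃ k ∈ H ⊓ γ.Fix, k * g⁻¹ ∈ S.P J := by
  obtain ⟨m, u, hu, k1, k2⟩ := hθ.rat_coset hg J
  obtain ⟨n, n1, n2, n3⟩ := h.rep m (k2 R τ hJ h1).1
  have k3 := (k2 _ γ (fun _ => Iff.rfl) h2).2
  have := h.U_le u hu (k2 R τ hJ h1).2 k3
  exact ⟨n * u, mul_mem ⟨n1, h.hT n1, n2⟩ ⟨this, h.hT this, k3⟩, k1 n n3⟩
theorem se {v g : Γ} (hv : v ∈ H ⊓ γ.Fix) (h0 : v ≠ 1) (h1 : ∃ g ∈ S.T, g * v * g⁻¹ ∈ S.U) (hg : g ∈ H) (h2 : g * v * g⁻¹ ∈ γ.Fix) : g ∈ γ.Fix := by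
  obtain ⟨a, ha, J, hne, k1, k2⟩ := hθ.bt_rat h0 h1
  obtain ⟨hJ, k3⟩ := k2 R τ h.lin (h.le hv.1).2
  obtain ⟨k, hk, k4⟩ := h.coset hθ hJ ha k3 (k2 _ γ (fun _ _ => rfl) hv.2.2).2
  have k5 := mul_mem (mul_mem k4 (k1 _ (mul_mem (inv_mem (h.hT hg)) (γ.map_T (h.hT hg))) (h.conj hg hv.1 hv.2.2 h2.2))) (inv_mem k4)
  have k6 : k * g⁻¹ ∈ H := H.mul_mem hk.1 (inv_mem hg)
  obtain ⟨k', hk', k7⟩ := h.coset hθ hJ (h.hT k6) (by rw [(h.le k6).2, mul_inv_cancel]; exact one_mem _) (by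
    rw [γ.mul _ hk.2.1 _ (inv_mem (h.hT hg)), γ.inv (h.hT hg), hk.2.2]
    simpa [mul_assoc] using inv_mem k5)
  have k8 : k' * (k * g⁻¹)⁻¹ ∈ H := H.mul_mem hk'.1 (inv_mem k6)
  simpa [mul_assoc] using mul_mem (mul_mem (inv_mem (mem_inf.1 hk').2) (show _ ∈ γ.Fix from ⟨h.hT k8, h.fixP hθ hJ hne k8 k7⟩)) (mem_inf.1 hk).2
theorem cent_le {v g : Γ} (hv : v ∈ H ⊓ γ.Fix) (h0 : v ≠ 1) (h1 : ∃ g ∈ S.T, g * v * g⁻¹ ∈ S.U) (hg : g ∈ H) (h2 : Commute g v) : g ∈ γ.Fix :=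
  h.se hθ hv h0 h1 hg (by rw [h2.eq, mul_inv_cancel_right]; exact hv.2)
omit hθ in
theorem mU {v : Γ} (hv : v ∈ H) (h1 : v ∈ S.U) : v ∈ H ⊓ γ.Fix := ⟨hv, h.hT hv, h.fixU v h1 hv⟩
theorem of_top {r : Φ D} (hr : ∀ s, s ≤ r) (hx : S.x r 1 ∈ H) (k : ∀ g ∈ H, g * S.x r 1 * g⁻¹ ∈ γ.Fix) : H ≤ γ.Fix := fun g hg =>
  have := S.x_mem_U (top_pos hr) 1
  h.se hθ (h.mU hx this) (hθ.x_ne_one (top_pos hr)) (conj_U_of_mem this) hg (k g hg)
theorem all_two [Finite H] {r : Φ D} (hr : ∀ s, s ≤ r) (hx : S.x r 1 ∈ H) (h2 : (1 : F) + 1 = 0)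
    (hi : ∀ z ∈ S.T, z * z = 1 → ∃ g ∈ S.T, g * z * g⁻¹ ∈ S.U) {v : Γ} (hv : v ∈ H) (hU : v ∈ S.U) (v2 : v * v = 1)
    (hw : ∀ w : W D, ∃ i, v ∉ S.Up (sW i) ∧ w • r ≠ sim i) : H ≤ γ.Fix := h.of_top hθ hr hx fun g hg => by
  have hy : g * S.x r 1 * g⁻¹ ∈ H := mul_mem (mul_mem hg hx) (inv_mem hg)
  rcases H9.isConj_or_exists_commute (G := H) (x := ⟨v, hv⟩) (y := ⟨_, hy⟩) (Subtype.ext v2) (Subtype.ext (by
    simp [← S.add, h2])) with k | ⟨z, k1, -, k2, k3⟩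
  · obtain ⟨a, e⟩ := isConj_iff.1 k.symm
    obtain ⟨u, hu, w, c, e1⟩ := top_conj_T hr (mul_mem (h.hT a.2) (h.hT hg))
    replace e1 : v = u * S.x (w • r) c * u⁻¹ := by rw [← e1]; simpa [mul_assoc] using congrArg Subtype.val e.symm
    obtain ⟨i, k1, k2⟩ := hw w
    have : IsPos (w • r) := hθ.isPos_of_x_mem_B c.ne_zero (by simpa [e1, mul_assoc] using S.U_le_B (mul_mem (mul_mem (inv_mem hu) hU) hu))
    exact (k1 (e1 ▸ Up_normal i hu (gen_le_Up (P := {w • r}) (fun _ e => e ▸ this) (fun e => k2 e.symm) (S.x_mem (Set.mem_singleton _) _)))).elim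
  · have z2 := H9.orderOf_eq_two.1 k1
    have z3 := h.cent_le hθ (h.mU hv hU) (fun e => let ⟨_, k, _⟩ := hw 1; k (e ▸ one_mem _)) (conj_U_of_mem hU) z.2
      (k2.map H.subtype)
    exact h.cent_le hθ (mem_inf.2 ⟨z.2, z3⟩) (fun e => z2.2 (Subtype.ext e)) (hi z (h.hT z.2) (congrArg Subtype.val z2.1)) hy (k3.symm.map H.subtype)
theorem all_odd [Finite H] (h3 : S.R3) (p : ℕ) [hp : Fact p.Prime] [CharP F p] (h2 : p ≠ 2) {r : Φ D} (hr : ∀ s, s ≤ r) (hx : S.x r 1 ∈ H)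
    (hz : S.h r (-1) ∈ H ⊓ γ.Fix) {v : Γ} (hv : v ∈ H) (v0 : v ≠ 1) (hU : v ∈ S.gen {s | IsPos s ∧ pr r s = 0}) : H ≤ γ.Fix :=
  h.of_top hθ hr hx fun g hg => by
  have hy : g * S.x r 1 * g⁻¹ ∈ H := mul_mem (mul_mem hg hx) (inv_mem hg)
  obtain ⟨u, hu, w, c, e⟩ := top_conj_T hr (h.hT hg)
  rw [e] at hy ⊢
  have xU := S.x_mem_U (top_pos hr) (1 : F)
  have cx : ∀ z ∈ H, Commute z (S.x r 1) → z ∈ H ⊓ γ.Fix := fun z hz e =>
    ⟨hz, h.cent_le hθ (h.mU hx xU) (hθ.x_ne_one (top_pos hr)) (conj_U_of_mem xU) hz e⟩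
  have ex := top_conj hr (1 : F) hu
  by_cases hw : w • r = ng r
  swap
  · obtain ⟨f, f1, f2⟩ := exists_pos_pair hw
    let Q := S.gen {r | 0 < f (wt r)} ⊓ H.comap (MulAut.conj u).toMonoidHom
    have q1 : S.x r 1 ∈ Q := ⟨S.x_mem f1 _, by simpa [ex] using hx⟩
    have q2 : S.x (w • r) c ∈ Q := ⟨S.x_mem f2 _, hy⟩
    haveI := S.isNilpotent_gen (closed_pos f) fun _ h => h
    haveI : Group.IsNilpotent Q := Subgroup.isNilpotent_of_ker_le_center (inclusion inf_le_left) (by simp [MonoidHom.ker_eq_bot_iff, inclusion_injective])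
    haveI : Nontrivial Q := ⟨⟨⟨_, q1⟩, 1, fun e => hθ.x_ne_one (top_pos hr) (congrArg Subtype.val e)⟩⟩
    obtain ⟨z, z1, z2⟩ := (bot_or_exists_ne_one _).resolve_left (Group.IsNilpotent.center_ne_bot Q)
    have k : ∀ a ∈ Q, Commute (u * a * u⁻¹) (u * z * u⁻¹) := fun a ha =>
      (show Commute a z from congrArg Subtype.val (mem_center_iff.1 z1 ⟨a, ha⟩)).map (MulAut.conj u)
    obtain ⟨a, ha, k1⟩ := exists_conj_U_of_pos z.2.1
    exact h.cent_le hθ (cx _ z.2.2 (ex ▸ (k _ q1).symm)) (by simpa using z2) ⟨a * u⁻¹, mul_mem ha (inv_mem (S.gen_le_T _ hu)), by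
      simpa [mul_assoc] using k1⟩ hy (k _ q2)
  rw [hw] at hy ⊢
  obtain ⟨f, hf⟩ := h3.exists_sl2 r
  have z1 : u * S.h r (-1) * u⁻¹ ∈ H := by
    obtain ⟨m, hm, e⟩ := (isOfFinOrder_of_finite (⟨_, mul_mem hx hy⟩ : H)).exists_pow_eq_one
    rw [← hf.neg_one]
    refine sl2_neg_one_mem p h2 (A := H.comap ((MulAut.conj u).toMonoidHom.comp f)) c.ne_zero (by simpa [hf.1, ex] using hx)
      (by simpa [hf.2] using hy) (m := m + m) (by omega) ?_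
    rw [pow_add]
    refine hf.sq_eq_one hθ (top_pos hr) ((MulAut.conj u).injective ?_)
    rw [map_pow, map_pow, map_mul, map_mul, hf.1, hf.2, map_one, MulAut.conj_apply, ex]
    exact congrArg Subtype.val e
  have z0 : S.h r (-1) * S.h r (-1) = 1 := by rw [← h3]; simp
  have z2 : u * S.h r (-1) * u⁻¹ * S.h r (-1) ∈ S.U := by
    have := mul_mem hu (conj_mem_of_normalizer (H_le_normalizer _ (S.h_mem_H r (-1))) (inv_mem hu))
    rwa [H9.inv_eq_of_mul_self z0, ← mul_assoc, ← mul_assoc] at this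
  have z3 := h.mU (mul_mem z1 hz.1) z2
  obtain ⟨k, hk⟩ := H9.conj_of_odd (x := u * S.h r (-1) * u⁻¹) (by simp [z0]) z0 (by
    obtain ⟨n, hn⟩ := exists_pow_U p hθ
    exact ((hp.out.odd_of_ne_two h2).pow).of_dvd_nat (orderOf_dvd_of_pow_eq_one (hn _ z2)))
  have m1 := pow_mem z3 k
  have m2 := mul_mem (pow_mem z2 k) hu
  generalize (u * S.h r (-1) * u⁻¹ * S.h r (-1)) ^ k = m at hk m1 m2
  have m3 := hθ.mem_gen_Psi (T := {fun i => (-1) ^ co r i}) closed_isPos (fun _ h => h) m2 (by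
    rintro _ rfl
    rw [← h3.h_eq, mul_inv_eq_iff_eq_mul]
    conv_lhs => rw [← hk]
    group)
  have m4 : ∀ s : Φ D, tch (fun i => (-1 : Fˣ) ^ co r i) (wt s) = 1 ↔ Even (pr r s) := fun s => by
    simp only [tch, ← zpow_mul, ← zpow_sum', ← pr_eq_sum]
    refine ⟨fun e => by_contra fun e' => ?_, fun e => e.neg_one_zpow⟩
    rw [(Int.not_even_iff_odd.1 e').neg_one_zpow] at e
    exact Ring.neg_one_ne_one_of_char_ne_two (R := F) (ringChar.eq F p ▸ h2) (congrArg Units.val e)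
  obtain ⟨a, ha, b, hb, e2⟩ := S.gen_decomp (P1 := {r}) (P2 := {s | IsPos s ∧ pr r s = 0}) (closed_isPos.inter (closed_Psi _))
    (fun s hs => pos_fl s hs.1) (fun s => ⟨fun hs => by
      obtain ⟨k, hk⟩ := (m4 s).1 (hs.2 _ rfl)
      refine or_iff_not_imp_left.2 fun e => ⟨hs.1, ?_⟩
      have := mt (top_long hr) e
      have := mt (top_long hr (u := ng s)) fun e => isPos_ng.1 (e ▸ top_pos hr) hs.1
      rw [pr_ng_right] at this; omega, by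
      rintro (rfl | hs)
      exacts [⟨top_pos hr, by rintro _ rfl; simp [m4]⟩, ⟨hs.1, by rintro _ rfl; simp [m4, hs.2]⟩]⟩) (by rintro _ rfl; simp) m3
  obtain ⟨s, rfl⟩ := S.mem_gen_single.1 ha
  have m5 : m * (u * S.x (ng r) c * u⁻¹) * m⁻¹ = S.x r s * S.x (ng r) c * (S.x r s)⁻¹ := by
    calc _ = (m * u) * S.x (ng r) c * (m * u)⁻¹ := by group
      _ = S.x r s * (b * S.x (ng r) c) * b⁻¹ * (S.x r s)⁻¹ := by rw [e2]; group
      _ = _ := by rw [← (top_comm hr (Or.inr rfl) (c : F) hb).eq, mul_assoc (S.x r s), mul_inv_cancel_right]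
  have m6 := h.cent_le hθ (h.mU hv (S.gen_mono (fun _ h => h.1) hU)) v0 (conj_U_of_mem (S.gen_mono (fun _ h => h.1) hU))
    (mul_mem (mul_mem (mem_inf.1 m1).1 hy) (inv_mem (mem_inf.1 m1).1)) (m5 ▸ ((top_comm hr (Or.inl rfl) s hU).mul_left
      (top_comm hr (Or.inr rfl) (c : F) hU)).mul_left (top_comm hr (Or.inl rfl) s hU).inv_left)
  simpa [mul_assoc] using mul_mem (mul_mem (inv_mem (mem_inf.1 m1).2) m6) (mem_inf.1 m1).2
end OG

end H12
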