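import Cfsg.Agent.H12.OG2
import Cfsg.Agent.H12.MS
import Cfsg.Agent.H12.All

/-! The theorem of Burgoyne, Griess and Lyons for untwisted groups: a finite subgroup of an adjoint Chevalley group containing all `x_r(1)` lies
between the Chevalley group over a finite subfield and its rational points (`exists_subfield`). -/

set_option autoImplicit false

namespace H12
open Cfsg.Lie H13 StSys Subgroup H24
open scoped commutatorElement

section field
variable {F : Type*} [Field F]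
theorem mem_iff_pow_card (A : Subfield F) [Finite A] {t : F} : t ∈ A ↔ t ^ Nat.card A = t := by
  classical
  cases nonempty_fintype A
  have h1 := Fintype.one_lt_card (α := A)
  have h2 : (Polynomial.X ^ Fintype.card A - Polynomial.X : Polynomial A).Splits := by
    rw [Polynomial.splits_iff_card_roots, FiniteField.roots_X_pow_card_sub_X, ← Finset.card_def, Finset.card_univ,
      FiniteField.X_pow_card_sub_X_natDegree_eq _ h1]
  have := FiniteField.roots_X_pow_card_sub_X A ▸ h2.roots_map (Subfield.subtype _) ▸ Multiset.mem_map (b := t)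
  simpa [sub_eq_zero, iff_comm, FiniteField.X_pow_card_sub_X_ne_zero F h1] using this
theorem card_eq_pow_of_le {E A : Subfield F} (h : E ≤ A) [Finite A] : ∃ d, 0 < d ∧ Nat.card A = Nat.card E ^ d := by
  letI := (Subfield.inclusion h).toAlgebra
  exact ⟨_, Module.finrank_pos, Module.natCard_eq_pow_finrank⟩
theorem exists_subfield_of_mul {A : AddSubgroup F} [Finite A] (h1 : (1 : F) ∈ A) (h : ∀ s ∈ A, ∀ t ∈ A, s * t ∈ A) : ∃ E : Subfield F, ∀ t, t ∈ E ↔ t ∈ A :=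
  ⟨{ A with
    mul_mem' := fun {a b} ha hb => h a ha b hb, one_mem' := h1, inv_mem' := fun t ht => by
      by_cases e : t = 0
      · simpa [e] using A.zero_mem
      obtain ⟨s, hs⟩ := Finite.surjective_of_injective (f := fun s : A => (⟨t * s, h t ht s s.2⟩ : A))
        (fun a b k => Subtype.ext (mul_left_cancel₀ e (congrArg Subtype.val k))) ⟨1, h1⟩
      exact (eq_inv_of_mul_eq_one_right (congrArg Subtype.val hs)) ▸ s.2 }, fun _ => Iff.rfl⟩
end field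

variable {D : ChevalleyDatum} [G : Good D] {F : Type*} [Field F] {Γ : Type*} [Group Γ] {S : StSys D F Γ} {θ : Γ →* GL D.Idx F}

variable (D) in
/-- the highest root -/
def topR : Φ D := ⟨D.nroots - 1, by have := (sim (⟨0, by have := two_le_rank (D := D); omega⟩ : I D)).2; omega⟩
theorem le_topR (s : Φ D) : s ≤ topR D := Nat.le_sub_one_of_lt s.2
omit G in
def Lng (r : Φ D) : Prop := ∀ u, 2 ≤ pr r u → u = r
theorem Lng.smul {r : Φ D} (h : Lng r) (w : W D) : Lng (w • r) := fun u hu => by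
  rw [← h (w⁻¹ • u) (by rwa [← pr_smul w, smul_inv_smul]), smul_inv_smul]
theorem exists_domR (r : Φ D) : ∃ w : W D, ∀ i, 0 ≤ wt (w • r) i := by
  obtain ⟨w, hw⟩ := Finite.exists_max fun w : W D => w • r
  refine ⟨w, fun i => not_lt.1 fun h => (hw (sW i * w)).not_gt ?_⟩
  simpa [mul_smul] using sref_lt (r := sref i (w • r)) (i := i) (by simp [wt_sref, wt_sim_self]; omega)
def LngT (T : Tab) (r : ℕ) : Prop := r < T.n ∧ ∀ u < T.n, 2 ≤ T.pr r u → u = r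
def ShT (T : Tab) (r : ℕ) : Prop := r < T.n ∧ ¬ LngT T r
def DomT (T : Tab) (e : ℕ) : Prop := (e + 1 = T.n ∨ ShT T e ∧ T.pr (T.n - 1) e = 1) ∧ ∀ r < T.n, (∀ i < T.l, 0 ≤ T.ca i r) → r + 1 = T.n ∨ r = e
def PushT (T : Tab) (e : ℕ) (ns : List ℤ) : Prop := ∀ r < T.n, T.n ≤ 2 * r → r + 1 = T.n ∨ r = e ∨
  ∃ a ∈ (List.range T.l).map T.sim ++ List.range T.n, a < T.n ∧ T.n ≤ 2 * a ∧ ∃ c ∈ T.terms a r, c.2.2 = (1, 1) ∧ c.2.1 ∈ ns
def MulT (T : Tab) (a b c : ℕ) : Prop := LngT T a ∧ LngT T b ∧ LngT T c ∧ Cq T 0 [(a, .var 2)] [(b, .var 3)] [(c, .var 6)]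
def MixT (T : Tab) (p e c k a b s : ℕ) (d : List (ℕ × Ex)) (b' k' : ℕ) : Prop := (T.n ≤ 2 * e ∧ ∀ r < T.n, T.n ≤ 2 * r → ∀ c ∈ T.terms r e, c.2.1 % p = 0) ∧
  LngT T k ∧ Cq T p [(e, .var 2), (T.n - 1, .var 3)] [(c, .cst 1)] [(k, .cst (-1) * .var 3)] ∧ ShT T a ∧ ShT T s ∧
  Cq T p [(a, .var 2)] [(b, .cst 1)] ((s, .cst (-1) * .var 2) :: d) ∧ LngT T k' ∧ Cq T p d [(b', .cst 1)] [(k', .cst (-1) * .var (2 ^ p))]
noncomputable instance decLngT (T : Tab) (r : ℕ) : Decidable (LngT T r) := by unfold LngT; infer_instance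
noncomputable instance decShT (T : Tab) (r : ℕ) : Decidable (ShT T r) := by unfold ShT; infer_instance
noncomputable instance decDomT (T : Tab) (e : ℕ) : Decidable (DomT T e) := by unfold DomT; infer_instance
noncomputable instance decPushT (T : Tab) (e : ℕ) (ns : List ℤ) : Decidable (PushT T e ns) := by unfold PushT; infer_instance
noncomputable instance decMulT (T : Tab) (a b c : ℕ) : Decidable (MulT T a b c) := by unfold MulT; infer_instance
noncomputable instance decMixT (T : Tab) (p e c k a b s : ℕ) (d : List (ℕ × Ex)) (b' k' : ℕ) : Decidable (MixT T p e c k a b s d b' k') := by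
  unfold MixT; infer_instance
omit G in
theorem lngT_iff {r : Φ D} : LngT (tab D) r ↔ Lng r :=
  ⟨fun h u hu => Fin.ext (h.2 u u.2 (pr_tab r u ▸ hu)), fun h => ⟨r.2, fun u hu e => congrArg Fin.val (h ⟨u, hu⟩ (pr_tab r ⟨u, hu⟩ ▸ e))⟩⟩
theorem eq_topR {r : Φ D} (h : r.1 + 1 = (tab D).n) : r = topR D := Fin.ext (Nat.eq_sub_of_add_eq h)

variable (S) in
/-- the parameters of the root elements in `H` -/
def rtA (H : Subgroup Γ) (r : Φ D) : AddSubgroup F where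
  carrier := {t | S.x r t ∈ H}
  add_mem' ha hb := by simpa [S.add] using H.mul_mem ha hb
  zero_mem' := by simpa using one_mem H
  neg_mem' ha := by simpa [S.x_neg] using H.inv_mem ha
theorem mem_rtA {H : Subgroup Γ} {r : Φ D} {t : F} : t ∈ rtA S H r ↔ S.x r t ∈ H := Iff.rfl
theorem finite_rtA (hθ : S.Cov θ) (H : Subgroup Γ) [Finite H] (r : Φ D) : Finite (rtA S H r) :=
  Finite.of_injective (fun t => (⟨S.x r t, t.2⟩ : H)) fun a b e =>
    Subtype.ext (xR_inj (r := r) (by simpa [hθ r] using congrArg (fun g : H => (θ g).1) e))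
theorem Cq.mem {p : ℕ} {w w' d : List (ℕ × Ex)} (h : Cq (tab D) p w w' d) (hF : CharOK F p) (v : ℕ →* F) {H : Subgroup Γ}
    (h1 : S.evE v w ∈ H) (h2 : S.evE v w' ∈ H) : S.evE v d ∈ H :=
  h.eq hF S v ▸ mul_mem (mul_mem (mul_mem h1 h2) (inv_mem h1)) (inv_mem h2)

section rt
variable {H : Subgroup Γ} (hx : ∀ r, S.x r 1 ∈ H)
local notation "A" => rtA S H (topR D)
include hx
theorem rt_n (r : Φ D) : S.n r 1 ∈ H := by simpa [n, x_neg] using mul_mem (mul_mem (hx r) (inv_mem (hx (ng r)))) (hx r)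
theorem rt_nw (l : List (I D)) : S.nw l ∈ H := by
  induction l with
  | nil => simp [one_mem]
  | cons i l ih => exact mul_mem (rt_n hx _) ih
theorem rt_xN (r : ℕ) : S.xN r 1 ∈ H := by unfold xN; split_ifs; exacts [hx _, one_mem _]
theorem rtA_smul (w : W D) (r : Φ D) : rtA S H (w • r) = rtA S H r := by
  have k : ∀ i s, rtA S H s ≤ rtA S H (sref i s) := fun i s t ht => by
    have := mul_mem (mul_mem (rt_n hx (sim i)) ht) (inv_mem (rt_n hx (sim i)))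
    rw [n_conj_x', rf_sim] at this
    rcases ηu_pm (F := F) (sim i) s with h | h
    · simpa [h, mem_rtA] using this
    · simpa [h, x_neg, mem_rtA] using this
  induction w using W_induction with
  | h1 => rw [one_smul]
  | h2 i w ih => exact le_antisymm (by simpa [mul_smul, ih] using k i (sW i • w • r)) (by simpa [mul_smul, ih] using k i (w • r))
variable {e : Φ D} (hd : DomT (tab D) e)
include hd
theorem rtA_cases (r : Φ D) : Lng r ∧ rtA S H r = A ∨ ¬ Lng r ∧ ¬ Lng e ∧ rtA S H r = rtA S H e := by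
  obtain ⟨w, hw⟩ := exists_domR r
  have k : w • r = topR D → Lng r ∧ rtA S H r = A := fun h =>
    ⟨by simpa using Lng.smul (r := w • r) (h ▸ fun u => top_long le_topR) w⁻¹, by rw [← h, rtA_smul hx]⟩
  rcases hd.2 _ (w • r).2 (fun i hi => hw ⟨i, hi⟩) with h | h
  · exact Or.inl (k (eq_topR h))
  rcases hd.1 with h1 | h1
  · exact Or.inl (k (eq_topR (h ▸ h1)))
  · have := mt lngT_iff.2 h1.1.2
    exact Or.inr ⟨fun k => this (Fin.ext h ▸ k.smul w), this, by rw [← Fin.ext h, rtA_smul hx]⟩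
theorem xN_long {r : ℕ} (h : LngT (tab D) r) {t : F} : S.xN r t ∈ H ↔ t ∈ A := by
  rw [xN_lt _ h.1, ← ((rtA_cases hx hd ⟨r, h.1⟩).resolve_right fun k => k.1 (lngT_iff.1 h)).2]; rfl
theorem xN_short {r : ℕ} (h : ShT (tab D) r) {t : F} : S.xN r t ∈ H ↔ t ∈ rtA S H e := by
  rw [xN_lt _ h.1, ← ((rtA_cases hx hd ⟨r, h.1⟩).resolve_left fun k => h.2 (lngT_iff.2 k.1)).2.2]; rfl
theorem MulT.mul {a b c : ℕ} (h : MulT (tab D) a b c) : ∀ s ∈ A, ∀ t ∈ A, s * t ∈ A := fun s hs t ht => by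
  obtain ⟨v, v2, v3, -⟩ := exists_v6 s t 0 0 0 0
  have := h.2.2.2.mem (S := S) (H := H) (Or.inl rfl) v (by simpa [v2, xN_long hx hd h.1]) (by simpa [v3, xN_long hx hd h.2.1])
  simpa [show v 6 = s * t by rw [← v2, ← v3, ← map_mul], xN_long hx hd h.2.2.1] using this
theorem rt_all {E : Subfield F} (hE : ∀ t, t ∈ E ↔ t ∈ A) (r : Φ D) {t : F} (ht : t ∈ E) : S.x r t ∈ H := by
  rcases rtA_cases hx hd r with h | h
  · exact h.2.ge ((hE t).1 ht)
  refine h.2.2.ge ?_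
  by_cases h0 : t = 0
  · simp [h0]
  have h1 : ∀ t : Fˣ, (t : F) ∈ E → S.n (topR D) t ∈ H := fun t ht => mul_mem (mul_mem ((hE _).1 ht) (by
    have := rtA_smul hx (rW (topR D)) (topR D)
    rw [rW_smul, rf_self] at this
    exact this.ge ((hE _).1 (by simpa using ht)))) ((hE _).1 ht)
  have h2 : S.h (topR D) (Units.mk0 t h0) ∈ H := mul_mem (h1 _ ht) (h1 _ (by simp))
  have := mul_mem (mul_mem h2 (hx e)) (inv_mem h2)
  rw [h_conj_x, ← pr_tab, show (tab D).pr (topR D) e = 1 from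
    (hd.1.resolve_left fun k => h.2.1 (eq_topR k ▸ fun u => top_long le_topR)).2] at this
  simpa [mem_rtA] using this
theorem MixT.mix {p : ℕ} [Fact p.Prime] [CharP F p] {c k a b s b' k' : ℕ} {d : List (ℕ × Ex)} (h : MixT (tab D) p e c k a b s d b' k')
    {x y : F} (hm : S.x e x * S.x (topR D) y ∈ H) : x ^ p ∈ A ∧ y ∈ A := by
  have hF : CharOK F p := Or.inr ⟨Fact.out, ‹_›⟩
  obtain ⟨-, h1, h2, h3, h4, h5, h6, h7⟩ := h
  obtain ⟨v, v2, v3, -⟩ := exists_v6 x y 0 0 0 0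
  have k1 : y ∈ A := by
    simpa [v3, xN_long hx hd h1] using h2.mem (S := S) (H := H) hF v (by
      simpa [v2, v3, show S.xN ((tab D).n - 1) y = _ from xN_val S (topR D) y] using hm) (by simpa using rt_xN hx c)
  have k2 : x ∈ rtA S H e := (H.mul_mem_cancel_right k1).1 hm
  have k3 := h5.mem (S := S) (H := H) hF v (by simpa [v2, xN_short hx hd h3]) (by simpa using rt_xN hx b)
  rw [evE_cons, H.mul_mem_cancel_left (by simpa [v2, xN_short hx hd h4])] at k3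
  exact ⟨by simpa [v2, xN_long hx hd h6] using h7.mem (S := S) (H := H) hF v k3 (by simpa using rt_xN hx b'), k1⟩
end rt

theorem PushT.fix (hθ : S.Cov θ) {H : Subgroup Γ} {γ : Tw S (RSym.refl D)} {φ : F →+* F} (hγ : ∀ r t, γ.σ (S.x r t) = S.x r (φ t))
    (hA : ∀ r t, φ t = t → S.x r t ∈ H) {e : Φ D} {ns : List ℤ} (hp : PushT (tab D) e ns) (hn : ∀ n ∈ ns, (n : F) ≠ 0)
    (hc : ∀ u ∈ S.U, ∀ s, Commute (S.x e s) u) (hm : ∀ s t, S.x e s * S.x (topR D) t ∈ H → S.x e s * S.x (topR D) t ∈ γ.Fix) :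
    ∀ u ∈ S.U, u ∈ H → γ.σ u = u := by
  obtain ⟨L, hL⟩ := exists_lin F (pos_fl (D := D))
  obtain ⟨m, hb⟩ := L.exists_bot S
  have inj : ∀ r s, IsPos r → IsPos s → L.κ s ≤ L.κ r → s ≤ r := fun r s hr hs h =>
    fl_strictMono.le_iff_le.1 (by beta_reduce; rw [← hL.eq hr, ← hL.eq hs]; exact_mod_cast h)
  have key : ∀ n i, m ≤ i + n → ∀ u ∈ L.U S i, ∀ s, S.x e s * u ∈ H → S.x e s * u ∈ γ.Fix := fun n => by
    induction n with
    | zero => intro i hi u hu s h; rw [hb i hi, mem_bot] at hu; simpa [hu] using hm s 0 (by simpa [hu] using h)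
    | succ n ih =>
    intro i hi u hu s h
    replace ih := ih (i + 1) (by omega)
    by_cases h0 : ∃ r, IsPos r ∧ L.κ r = i
    swap
    · exact ih u (S.gen_mono (fun r hr => And.intro hr.1 (lt_of_le_of_ne hr.2 fun e => h0 ⟨r, hr.1, e.symm⟩)) hu) s h
    obtain ⟨r, hr, rfl⟩ := h0
    have x1 := L.x_mem S hr le_rfl (L.ld S r u)
    have h1 : (S.x r (L.ld S r u))⁻¹ * u ∈ L.U S (L.κ r + 1) := Lay.mem_succ hθ (mul_mem (inv_mem x1) hu) fun k hk e => by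
      obtain rfl := le_antisymm (inj r k hr hk e.le) (inj k r hk hr e.ge)
      rw [Lay.ld_mul hθ hr (inv_mem x1) hu, Lay.ld_inv hθ hr x1, Lay.ld_self hθ hr, neg_add_cancel]
    rcases hp r r.2 hr with h2 | h2 | ⟨a, -, a1, a2, c, c1, c2, c3⟩
    · obtain rfl := eq_topR h2
      have : u = S.x (topR D) (L.ld S (topR D) u) := by
        rw [Lay.U, Set.eq_empty_of_forall_notMem (s := {r | IsPos r ∧ L.κ (topR D) + 1 ≤ L.κ r}) fun k hk => by
          obtain rfl := le_antisymm (le_topR k) (inj _ _ hk.1 hr (by have := hk.2; omega)); have := hk.2; omega, gen_empty, mem_bot, inv_mul_eq_one] at h1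
        exact h1.symm
      rw [this] at h ⊢; exact hm _ _ h
    · obtain rfl : r = e := Fin.ext h2
      simpa [S.add, mul_assoc] using ih _ h1 (s + L.ld S r u) (by simpa [S.add, mul_assoc] using h)
    replace a2 : IsPos (⟨a, a1⟩ : Φ D) := a2
    have a3 : r ≠ ⟨a, a1⟩ := by
      rintro rfl; simp [tab, Tab.terms, Tab.croot, show D.chainEntry a a = [] from ce_self ⟨a, a1⟩] at c1
    obtain ⟨k, n, _, _⟩ := c
    cases c2
    have k1 : k < D.nroots := by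
      rcases (gd D).comm_tab a a1 r r.2 (fun e => a3 (Fin.ext e)) (fun e => IsPos.ne_ng (r := ⟨a, a1⟩) a2 hr (Fin.ext e)) with h | h
      · simp [Tab.terms, Tab.croot, h.1, h.2] at c1
      · exact (h.2.2 _ c1).1
    have k2 : (⟨k, k1⟩, n, 1, 1) ∈ cterms (⟨a, a1⟩ : Φ D) r := mem_toΦ.2 c1
    have k3 := (cterms_spec a3 (IsPos.ne_ng (r := ⟨a, a1⟩) a2 hr) k2).2.2
    have k4 : IsPos ⟨k, k1⟩ := closed_isPos _ a2 r hr _ ⟨1, 1, one_pos, one_pos, k3⟩
    have k5 : L.κ ⟨k, k1⟩ = L.κ r + L.κ ⟨a, a1⟩ := by zify; rw [hL.eq k4, hL.eq hr, hL.eq a2, k3]; simp [add_comm]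
    have k6 := hL.comm hu (L.x_mem S a2 le_rfl 1)
    have k7 : 1 ≤ L.κ ⟨a, a1⟩ := by have := hL.pos _ a2; rw [← hL.eq a2] at this; omega
    have k8 := Lay.ld_fld hθ k4 hγ (k5 ▸ k6)
    have k9 := ih _ (L.U_mono S (by omega) k6) 0 (by
      have x2 := hA ⟨a, a1⟩ 1 (map_one φ)
      convert mul_mem (mul_mem (mul_mem (inv_mem h) (inv_mem x2)) h) x2 using 1
      rw [x_zero, one_mul, mul_inv_rev, mul_assoc _ _ (S.x _ 1)⁻¹, ((hc _ (S.x_mem_U a2 1) s).inv_inv).eq]; group)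
    rw [x_zero, one_mul] at k9
    rw [k9.2, hL.ld_comm_x hθ k4 k5 a2 hr le_rfl rfl k2 1 hu] at k8
    have k10 : φ (L.ld S r u) = L.ld S r u := mul_left_cancel₀ (hn n c3) (by simpa using k8.symm)
    have k11 := ih _ h1 s (by
      rw [← mul_assoc, ((hc _ (S.x_mem_U hr _) s).inv_right).eq, mul_assoc]; exact mul_mem (inv_mem (hA r _ k10)) h)
    rw [← mul_assoc, ((hc _ (S.x_mem_U hr _) s).inv_right).eq, mul_assoc] at k11
    exact (γ.Fix.mul_mem_cancel_left (inv_mem ⟨S.x_mem_T _ _, by rw [hγ, k10]⟩)).1 k11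
  exact fun u hu h => by simpa using (key m 0 (by omega) u (L.U_zero S ▸ hu) 0 (by simpa using h)).2

section B2
def eS2 : Φ chevB2 := (6 : Fin 8)
theorem domB2 : DomT (tab chevB2) eS2 := by rw [tabB2_eq]; decide +kernel
theorem cqB2 : (LngT (tab chevB2) 4 ∧ LngT (tab chevB2) 7 ∧ ShT (tab chevB2) 5 ∧ ShT (tab chevB2) 6) ∧
    Cq (tab chevB2) 0 [(5, .var 2)] [(4, .var 3)] [(6, .cst (-1) * .var 6), (7, .cst (-1) * .var 12)] ∧
    Cq (tab chevB2) 0 [(5, .var 2)] [(6, .var 3)] [(7, .cst 2 * .var 6)] ∧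
    Cq (tab chevB2) 2 [(5, .var 2), (7, .var 3)] [(6, .var 5), (4, .var 7)] [(6, .var 14), (7, .var 28)] ∧
    Cq (tab chevB2) 2 [(7, .var 2)] [(6, .var 3)] [] ∧
    runW (tab chevB2) [1] 6 = 5 ∧ runW (tab chevB2) [1] 7 = 7 ∧ runW (tab chevB2) [0] 6 = 6 ∧ runW (tab chevB2) [0] 7 = 4 := by
  rw [tabB2_eq]; decide +kernel
variable [GB : Good chevB2] {S : StSys chevB2 F Γ} {θ : Γ →* GL chevB2.Idx F} {H : Subgroup Γ} (hx : ∀ r, S.x r 1 ∈ H)
local notation "A" => rtA S H (topR chevB2)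
include hx
theorem mulB2_odd {p : ℕ} [CharP F p] (hp : Odd p) : ∀ s ∈ A, ∀ t ∈ A, s * t ∈ A := by
  obtain ⟨⟨l4, l7, s5, s6⟩, c1, c2, -⟩ := cqB2
  have k : ∀ t ∈ A, t ∈ rtA S H eS2 := fun t ht => by
    obtain ⟨v, v2, v3, -⟩ := exists_v6 1 t 0 0 0 0
    have := c1.mem (S := S) (H := H) (Or.inl rfl) v (by simpa [v2] using rt_xN hx 5) (by simpa [v3, xN_long hx domB2 l4])
    rw [evE_cons, H.mul_mem_cancel_right (by
      simpa [show v 12 = t by rw [show 12 = 2 * (2 * 3) from rfl, map_mul, map_mul, v2, v3]; simp, xN_long hx domB2 l7])] at this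
    simpa [show v 6 = t by simpa [v2, v3] using map_mul v 2 3, xN_short hx domB2 s6] using this
  intro s hs t ht
  obtain ⟨v, v2, v3, -⟩ := exists_v6 s t 0 0 0 0
  have := c2.mem (S := S) (H := H) (Or.inl rfl) v (by simpa [v2, xN_short hx domB2 s5] using k s hs) (by simpa [v3, xN_short hx domB2 s6] using k t ht)
  simp only [evE_cons, evE_nil, mul_one, xN_long hx domB2 l7, Ex.ev_mul, Ex.ev_cst, Ex.ev_var, show v 6 = s * t by rw [← v2, ← v3, ← map_mul]] at this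
  obtain ⟨m, hm⟩ := hp
  have e : (2 * m + 1 : F) = 0 := by exact_mod_cast hm ▸ CharP.cast_eq_zero F p
  convert nsmul_mem this (m + 1) using 1
  simp only [nsmul_eq_mul]; push_cast; linear_combination (-s * t) * e
theorem mulB2_two (hθ : S.Cov θ) [Finite H] [CharP F 2] : (∀ s ∈ A, ∀ t ∈ A, s * t ∈ A) ∧
    ∀ x y, S.x eS2 x * S.x (topR _) y ∈ H → x ^ 2 ∈ A ∧ y ∈ A := by
  obtain ⟨⟨l4, l7, s5, s6⟩, -, -, c1, c2, w1, w2, w3, w4⟩ := cqB2
  have hF : CharOK F 2 := Or.inr ⟨Nat.prime_two, ‹_›⟩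
  let C : F → F → Prop := fun s t => S.xN 6 s * S.xN 7 t ∈ H
  have k0 : ∀ s t, S.xN 7 s * S.xN 6 t = S.xN 6 t * S.xN 7 s := fun s t => by
    obtain ⟨v, v2, v3, -⟩ := exists_v6 s t 0 0 0 0
    simpa [v2, v3, commutatorElement_eq_one_iff_mul_comm] using c2.eq hF S v
  have add : ∀ {s t s' t'}, C s t → C s' t' → C (s + s') (t + t') := fun {s t s' t'} h h' => by
    have := mul_mem h h'
    rwa [mul_assoc, ← mul_assoc (S.xN 7 t), k0, ← mul_assoc, ← mul_assoc, ← xN_add, mul_assoc, ← xN_add] at this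
  have mul : ∀ {s t s' t'}, C s t → C s' t' → C (s * t') (s ^ 2 * t') := fun {s t s' t'} h h' => by
    obtain ⟨v, v2, v3, v5, v7, -⟩ := exists_v6 s t s' t' 0 0
    have k : ∀ (i : Fin 2) {s t}, C s t → S.xN (runW (tab chevB2) [i] 6) s * S.xN (runW (tab chevB2) [i] 7) t ∈ H := fun i s t h => by
      have := mul_mem (mul_mem (inv_mem (rt_nw hx [i])) h) (rt_nw hx [i])
      rwa [show ∀ n a b : Γ, n⁻¹ * (a * b) * n = n⁻¹ * a * n * (n⁻¹ * b * n) by intros; group, nw_conj_xN _ _ s6.1, nw_conj_xN _ _ l7.1] at this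
    simpa [C, show v 14 = s * t' by rw [← v2, ← v7, ← map_mul], show v 28 = s ^ 2 * t' by rw [← v2, ← v7, ← map_pow, ← map_mul]; rfl] using
      c1.mem (S := S) (H := H) hF v (by simpa [v2, v3, w1, w2] using k 1 h) (by simpa [v5, v7, w3, w4] using k 0 h')
  have a0 : ∀ {t}, C 0 t ↔ t ∈ A := by simp [C, xN_long hx domB2 l7]
  have a1 : (1 : F) ∈ A := hx _
  let P : AddSubgroup F := ⟨⟨⟨{t | C t t}, add⟩, a0.2 (zero_mem _)⟩, fun h => by rwa [CharTwo.neg_eq]⟩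
  have p1 : ∀ {s t}, C s t → t ∈ P := fun h => show C _ _ by
    simpa using mul (s := 1) (t := 0) (by simpa [C] using rt_xN hx 6) h
  have p2 : ∀ {s t}, C s t → s ^ 2 ∈ P := fun h => by simpa using p1 (mul h (a0.2 a1))
  haveI : Finite P := Finite.of_injective (fun t => (⟨_, t.2⟩ : H)) fun a b e => Subtype.ext (hθ.prod_inj (f := fl) (L := [eS2, topR _])
    (t := fun _ => a) (t' := fun _ => b) (List.nodup_cons.2 ⟨fun h => absurd (congrArg Fin.val (List.mem_singleton.1 h)) (show (6 : ℕ) ≠ 8 - 1 by decide), List.nodup_singleton _⟩) (by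
      simpa using ⟨pos_fl eS2 (by decide), pos_fl _ (top_pos le_topR)⟩) (congrArg θ (by
      simp only [prod_cons, prod_nil, mul_one]; exact congrArg Subtype.val e)) eS2 (by simp))
  have p3 : ∀ s ∈ P, ∀ t ∈ P, s * t ∈ P := fun s hs t ht => by
    obtain ⟨r, hr⟩ := Finite.surjective_of_injective (f := fun s : P => (⟨s ^ 2, p2 s.2⟩ : P))
      (fun a b e => Subtype.ext ((frobenius F 2).injective (congrArg Subtype.val e))) ⟨s, hs⟩
    exact (show (r : F) ^ 2 = s from congrArg Subtype.val hr) ▸ p1 (mul r.2 ht)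
  obtain ⟨E, hE⟩ := exists_subfield_of_mul (p1 (a0.2 a1)) p3
  have p4 : ∀ t ∈ P, t ∈ A := fun t ht => by
    have k : ∀ s ∈ P, ∀ t ∈ P, (s + s ^ 2) * t ∈ A := fun s hs t ht => by
      simpa [a0, CharTwo.add_self_eq_zero, add_mul] using add (p3 s hs t ht) (mul hs ht)
    by_cases e : t + t ^ 2 = 0
    · rw [sq, ← mul_one_add, mul_eq_zero, CharTwo.add_eq_zero] at e
      rcases e with rfl | rfl
      exacts [zero_mem _, a1]
    · simpa [e] using k t ht _ ((hE _).1 (mul_mem (inv_mem ((hE _).2 (add_mem ht (p2 ht)))) ((hE _).2 ht)))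
  exact ⟨fun s hs t ht => p4 _ (p3 _ (p1 (a0.2 hs)) _ (p1 (a0.2 ht))), fun x y h => ⟨p4 _ (p2 h), p4 _ (p1 h)⟩⟩
end B2

def SimT (T : Tab) (i j k : ℕ) : Prop := i < T.l ∧ j < T.l ∧ k < T.l ∧ T.pr (T.n - 1) (T.sim k) = 0 ∧
  (ShT T (T.sim i) ∨ i ≠ j ∧ PosJ T [i, j] [T.sim i, T.sim j])
noncomputable instance decSimT (T : Tab) (i j k : ℕ) : Decidable (SimT T i j k) := by unfold SimT; infer_instance
theorem ogG2 : DomT (tab chevG2) 9 ∧ SimT (tab chevG2) 0 0 0 ∧ MulT (tab chevG2) 6 10 11 ∧ PushT (tab chevG2) 11 [1, -1, 3, -3] ∧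
    PushT (tab chevG2) 9 [1, -1, 2, -2] ∧
    MixT (tab chevG2) 3 9 5 10 7 6 8 [(9, .var 4), (10, .var 8), (11, .cst (-1) * .var 8)] 6 11 := by rw [tabG2_eq]; decide +kernel
theorem ogB2 : SimT (tab chevB2) 0 0 1 ∧ PushT (tab chevB2) 7 [1, -1, 2, -2] ∧ PushT (tab chevB2) 6 [1, -1] ∧
    ∀ r < 8, 8 ≤ 2 * r → ∀ c ∈ (tab chevB2).terms r 6, c.2.1 % 2 = 0 := by rw [tabB2_eq]; decide +kernel
theorem ogF4 : DomT (tab chevF4) 44 ∧ SimT (tab chevF4) 0 0 0 ∧ MulT (tab chevF4) 24 25 26 ∧ PushT (tab chevF4) 47 [1, -1, 2, -2] ∧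
    PushT (tab chevF4) 44 [1, -1] ∧ MixT (tab chevF4) 2 44 15 42 27 25 28 [(30, .var 4)] 24 31 := by rw [tabF4_eq]; decide +kernel
def SlT (T : Tab) (i j k a b c : ℕ) : Prop := DomT T (T.n - 1) ∧ SimT T i j k ∧ MulT T a b c ∧ PushT T (T.n - 1) [1, -1]
theorem ogD4 : SlT (tab chevD4) 2 0 0 12 14 15 := by rw [tabD4_eq]; unfold SlT; decide +kernel
theorem ogE6 : SlT (tab chevE6) 1 0 0 36 37 38 := by rw [tabE6_eq]; unfold SlT; decide +kernel
theorem ogE7 : SlT (tab chevE7) 1 0 1 63 64 65 := by rw [tabE7_eq]; unfold SlT; decide +kernel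
theorem ogE8 : SlT (tab chevE8) 1 0 0 120 121 122 := by rw [tabE8_eq]; unfold SlT; decide +kernel

omit G in
theorem ne_zero_of_mem {m : ℤ} (hm : (m : F) ≠ 0) : ∀ n ∈ [1, -1, m, -m], (n : F) ≠ 0 := by simp [hm]
theorem central_of_emod {p : ℕ} (hF : CharOK F p) {e : Φ D} (he : IsPos e) (h : ∀ r < (tab D).n, (tab D).n ≤ 2 * r → ∀ c ∈ (tab D).terms r e, c.2.1 % p = 0) :
    ∀ u ∈ S.U, ∀ s, Commute (S.x e s) u := fun _ hu s =>
  S.gen_induction (Q := fun u => Commute (S.x e s) u) (Commute.one_right _) (fun _ _ r hr t k =>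
    k.mul_right (S.commute_of_emod hF (IsPos.ne_ng hr he) (h r r.2 hr) t s).symm) hu
omit G in
theorem step_of_mem (hD : D ∈ [chevG2, chevB2, chevD4, chevF4, chevE6, chevE7, chevE8]) [Good D] {S : StSys D F Γ} {θ : Γ →* GL D.Idx F}
    (hθ : S.Cov θ) (p : ℕ) [hp : Fact p.Prime] [CharP F p] {H : Subgroup Γ} [Finite H] (hx : ∀ r, S.x r 1 ∈ H) :
    (∃ e : Φ D, DomT (tab D) e) ∧ (∃ i j k, SimT (tab D) i j k) ∧ (∀ s ∈ rtA S H (topR D), ∀ t ∈ rtA S H (topR D), s * t ∈ rtA S H (topR D)) ∧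
    ∃ (e : Φ D) (ns : List ℤ), PushT (tab D) e ns ∧ (∀ n ∈ ns, (n : F) ≠ 0) ∧ (e = topR D ∨ (∀ u ∈ S.U, ∀ s, Commute (S.x e s) u) ∧
      ∀ x y, S.x e x * S.x (topR D) y ∈ H → x ^ p ∈ rtA S H (topR D) ∧ y ∈ rtA S H (topR D)) := by
  have k0 : ∀ q : ℕ, q.Prime → p ≠ q → ((q : ℤ) : F) ≠ 0 := fun q hq h e =>
    h ((Nat.prime_dvd_prime_iff_eq hp.out hq).1 ((CharP.cast_eq_zero_iff F p q).1 (by exact_mod_cast e)))
  have hF : CharOK F p := Or.inr ⟨hp.out, ‹_›⟩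
  have sl : ∀ {D : ChevalleyDatum} [Good D] {S : StSys D F Γ} (hx : ∀ r, S.x r 1 ∈ H) {i j k a b c}, SlT (tab D) i j k a b c →
      (∃ e : Φ D, DomT (tab D) e) ∧ (∃ i j k, SimT (tab D) i j k) ∧ (∀ s ∈ rtA S H (topR D), ∀ t ∈ rtA S H (topR D), s * t ∈ rtA S H (topR D)) ∧
      PushT (tab D) (topR D) [1, -1] := fun hx _ _ _ _ _ _ h => ⟨⟨topR _, h.1⟩, ⟨_, _, _, h.2.1⟩, h.2.2.1.mul hx (e := topR _) h.1, h.2.2.2⟩
  simp only [List.mem_cons, List.not_mem_nil, or_false] at hD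
  rcases hD with rfl | rfl | rfl | rfl | rfl | rfl | rfl
  · obtain ⟨h1, h2, h3, h4, h5, h6⟩ := ogG2
    refine ⟨⟨(9 : Fin 12), h1⟩, ⟨_, _, _, h2⟩, h3.mul hx (e := (9 : Fin 12)) h1, ?_⟩
    by_cases h : p = 3
    · subst h
      exact ⟨(9 : Fin 12), _, h5, ne_zero_of_mem (k0 2 Nat.prime_two (by decide)), Or.inr ⟨central_of_emod hF h6.1.1 h6.1.2, fun _ _ => h6.mix hx (e := (9 : Fin 12)) h1⟩⟩
    · exact ⟨topR _, _, h4, ne_zero_of_mem (k0 3 Nat.prime_three h), Or.inl rfl⟩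
  · obtain ⟨h1, h2, h3, h4⟩ := ogB2
    refine ⟨⟨_, domB2⟩, ⟨_, _, _, h1⟩, ?_⟩
    by_cases h : p = 2
    · subst h
      exact ⟨(mulB2_two hx hθ).1, eS2, _, h3, by simp, Or.inr ⟨central_of_emod hF (by decide) h4, (mulB2_two hx hθ).2⟩⟩
    · exact ⟨mulB2_odd hx (hp.out.odd_of_ne_two h), topR _, _, h2, ne_zero_of_mem (k0 2 Nat.prime_two h), Or.inl rfl⟩
  · have := sl hx ogD4; exact ⟨this.1, this.2.1, this.2.2.1, topR _, _, this.2.2.2, by simp, Or.inl rfl⟩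
  · obtain ⟨h1, h2, h3, h4, h5, h6⟩ := ogF4
    refine ⟨⟨(44 : Fin 48), h1⟩, ⟨_, _, _, h2⟩, h3.mul hx (e := (44 : Fin 48)) h1, ?_⟩
    by_cases h : p = 2
    · subst h
      exact ⟨(44 : Fin 48), _, h5, by simp, Or.inr ⟨central_of_emod hF h6.1.1 h6.1.2, fun _ _ => h6.mix hx (e := (44 : Fin 48)) h1⟩⟩
    · exact ⟨topR _, _, h4, ne_zero_of_mem (k0 2 Nat.prime_two h), Or.inl rfl⟩
  · have := sl hx ogE6; exact ⟨this.1, this.2.1, this.2.2.1, topR _, _, this.2.2.2, by simp, Or.inl rfl⟩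
  · have := sl hx ogE7; exact ⟨this.1, this.2.1, this.2.2.1, topR _, _, this.2.2.2, by simp, Or.inl rfl⟩
  · have := sl hx ogE8; exact ⟨this.1, this.2.1, this.2.2.1, topR _, _, this.2.2.2, by simp, Or.inl rfl⟩

variable (S) in
/-- the trivial twist -/
def idTw : Tw S (RSym.refl D) := ⟨id, fun _ _ _ _ => rfl, fun _ t => ⟨t, rfl⟩, fun _ t => ⟨t, rfl⟩⟩
theorem mem_of_fix (hθ : S.Cov θ) {H : Subgroup Γ} {γ : Tw S (RSym.refl D)} {φ : F →+* F} (hγ : ∀ r t, γ.σ (S.x r t) = S.x r (φ t))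
    (hA : ∀ r t, φ t = t → S.x r t ∈ H) {u : Γ} (hu : u ∈ S.U) (h : γ.σ u = u) : u ∈ H := by
  obtain ⟨L, h1, h2⟩ := exists_list {r : Φ D | IsPos r}
  obtain ⟨t, rfl⟩ := S.exists_prod closed_isPos pos_fl h1 h2 hu
  have : ∀ L, γ.σ (S.prod L t) = S.prod L (φ ∘ t) := fun L => by
    induction L with
    | nil => exact γ.one
    | cons r L ih => rw [prod_cons, γ.mul _ (S.x_mem_T _ _) _ (S.prod_mem fun _ _ => S.x_mem_T _ _), hγ, ih]; rfl
  exact S.prod_mem fun r hr => hA r _ (hθ.prod_inj h1 (fun r hr => pos_fl r ((h2 r).1 hr)) (congrArg θ (this L ▸ h)) r hr)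
theorem fix_n {γ : Tw S (RSym.refl D)} {φ : F →+* F} (hγ : ∀ r t, γ.σ (S.x r t) = S.x r (φ t)) (r : Φ D) : S.n r 1 ∈ γ.Fix :=
  mul_mem (mul_mem ⟨S.x_mem_T _ _, by simp [hγ]⟩ ⟨S.x_mem_T _ _, by simp [hγ]⟩) ⟨S.x_mem_T _ _, by simp [hγ]⟩
theorem Orth.inv_two {O : List (I D)} (h : Orth O) {i j : I D} (hi : i ∈ O) (hj : j ∈ O) (e : i ≠ j) (hθ : S.Cov θ) (h2 : (1 : F) + 1 = 0) (r : Φ D) :
    (O.map fun j => S.x (sim j) 1).prod * (O.map fun j => S.x (sim j) 1).prod = 1 ∧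
      ∀ w : W D, ∃ i, (O.map fun j => S.x (sim j) 1).prod ∉ S.Up (sW i) ∧ w • r ≠ sim i :=
  ⟨by rw [← h.prod_mul S (fun j => S.x_mem_A1 j 1) fun j => S.x_mem_A1 j 1]; simp [← S.add, h2], fun w => by
    by_cases k : w • r = sim i
    exacts [⟨j, TwF.xU_not_mem hθ h hj, fun k' => e (sim_injective (k.symm.trans k'))⟩, ⟨i, TwF.xU_not_mem hθ h hi, k⟩]⟩

/-- the theorem of Burgoyne, Griess and Lyons -/
theorem exists_subfield (hD : D ∈ [chevG2, chevB2, chevD4, chevF4, chevE6, chevE7, chevE8]) (p : ℕ) [hp : Fact p.Prime] [CharP F p]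
    (hi : p = 2 → ∀ z ∈ (adS D F).T, z * z = 1 → ∃ g ∈ (adS D F).T, g * z * g⁻¹ ∈ (adS D F).U) {H : Subgroup (GL D.Idx F)} [Finite H]
    (hT : H ≤ (adS D F).T) (hx : ∀ r, xG F r 1 ∈ H) : ∃ E : Subfield F, Finite E ∧ (∀ t, t ∈ E ↔ xG F (topR D) t ∈ H) ∧ (∀ r, ∀ t ∈ E, xG F r t ∈ H) ∧
      ∀ g ∈ H, ∀ i j, g.1 i j ∈ E := by
  obtain ⟨⟨e, hd⟩, ⟨i, j, k, hi', hj, hk, h0, h1⟩, h2, e', ns, h3, h4, h5⟩ := step_of_mem hD cov_ad p (H := H) hx
  haveI := finite_rtA cov_ad H (topR D)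
  obtain ⟨E, hE⟩ := exists_subfield_of_mul (hx (topR D)) h2
  haveI : Finite E := Finite.of_injective (fun t => (⟨t, (hE t).1 t.2⟩ : rtA (adS D F) H (topR D))) fun a b e => Subtype.ext (Subtype.mk.inj e)
  obtain ⟨m, -, hm⟩ := exists_card_eq_pow E p
  have hφ : ∀ t, iterateFrobenius F p m t = t ↔ t ∈ E := fun t => by rw [mem_iff_pow_card, hm, iterateFrobenius_def]
  generalize iterateFrobenius F p m = φ at hφ
  have hγ : ∀ r t, (fldTw D φ).σ ((adS D F).x r t) = (adS D F).x r (φ t) := glMap_x φ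
  have hA : ∀ r t, φ t = t → (adS D F).x r t ∈ H := fun r t ht => rt_all hx hd hE r ((hφ t).1 ht)
  have fx : ∀ r, ∀ t ∈ E, (adS D F).x r t ∈ (fldTw D φ).Fix := fun r t ht => ⟨x_mem_T _ _ _, by rw [hγ, (hφ t).2 ht]⟩
  have og : OG (idTw (adS D F)) (fldTw D φ).toTw H := ⟨fun g hg => ⟨hT hg, rfl⟩, fun _ _ => rfl, h3.fix cov_ad hγ hA h4 (fun u hu s => by
      rcases h5 with rfl | h5
      exacts [(mul_inv_eq_iff_eq_mul.1 (top_conj le_topR s hu)).symm, h5.1 u hu s]) fun s t h => by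
      rcases h5 with rfl | h5
      · rw [← StSys.add] at h ⊢; exact fx _ _ ((hE _).2 h)
      · have := (hφ _).2 ((hE _).2 (h5.2 s t h).1)
        exact mul_mem (fx _ _ ((hφ s).1 ((frobenius F p).injective (by rwa [map_pow] at this)))) (fx _ _ ((hE _).2 (h5.2 s t h).2)),
    fun u hu _ => mem_of_fix cov_ad hγ hA hu, fun w _ => by
      obtain ⟨l, rfl⟩ := (wg D).gen w
      exact ⟨_, rt_nw hx l, (list_prod_mem (S := (fldTw D φ).Fix) (by simpa using fun i _ => fix_n hγ (sim i))).2, rep_nw l⟩,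
    fun J _ hJ c hc h => by
      obtain ⟨u, hu, e⟩ := cov_ad.cent_UJ hJ hc fun r h1 h2 => h _ ⟨x_mem _ (And.intro h1 h2) 1, hx r⟩
      exact (show c = u from e) ▸ hu, fun i => by
      haveI := Fin.nontrivial_iff_two_le.2 (two_le_rank (D := D))
      obtain ⟨j, hj⟩ := exists_ne i
      exact ⟨j, fun h => hj (Equiv.Perm.sameCycle_one.1 h).symm⟩⟩
  have : H ≤ (fldTw D φ).Fix := by
    by_cases h : p = 2
    · have c2 : (1 : F) + 1 = 0 := by subst h; exact CharTwo.add_self_eq_zero 1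
      rcases h1 with h1 | h1
      · exact og.all_two cov_ad le_topR (hx _) c2 (hi h) (hx (sim ⟨i, hi'⟩)) (x_mem_U _ (isPos_sim _) _) (by rw [← adS_x, ← StSys.add, c2, x_zero])
          fun w => ⟨_, x_not_mem_Up cov_ad _ one_ne_zero, fun e => h1.2 (lngT_iff.2 (e ▸ Lng.smul (fun _ => top_long le_topR) w))⟩
      · have := (PosJ.orth (O := [⟨i, hi'⟩, ⟨j, hj⟩]) h1.2).inv_two (i := ⟨i, hi'⟩) (j := ⟨j, hj⟩) (by simp) (by simp)
          (fun e => h1.1 (congrArg Fin.val e)) cov_ad c2 (topR D)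
        exact og.all_two cov_ad le_topR (hx _) c2 (hi h) (list_prod_mem (by simp [hx])) (TwF.xU_mem _) this.1 this.2
    · have : (adS D F).n (topR D) (-1) ∈ H ⊓ (fldTw D φ).Fix := by
        rw [n_neg]; exact inv_mem ⟨rt_n hx _, fix_n hγ _⟩
      exact og.all_odd cov_ad r3_ad p h le_topR (hx _) (mul_mem this this) (hx (sim ⟨k, hk⟩)) (cov_ad.x_ne_one (isPos_sim _))
        (x_mem _ (And.intro (isPos_sim _) ((pr_tab _ _).symm.trans h0)) 1)
  exact ⟨E, ‹_›, hE, fun r t ht => hA r t ((hφ t).2 ht), fun g hg i j => (hφ _).1 (congrArg (fun g : GL D.Idx F => g.1 i j) (this hg).2)⟩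

end H12
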