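import Cfsg.Agent.H12.OG3
import Cfsg.Agent.H12.TwE6
import Cfsg.Agent.H12.TwD4
import Cfsg.Agent.H12.InvB

/-! Overgroups of the rational points in `²E₆(q)` and `³D₄(q)`: the data `TG`, the coordinates `tA` at the highest short orbit, the dichotomy
`TG.fix_or_le` and the table certificate `TwT`. -/

set_option autoImplicit false

namespace H12
open Cfsg.Lie H13 StSys Subgroup H24
open scoped commutatorElement

variable {D : ChevalleyDatum} [G : Good D] {F : Type*} [Field F] {Γ : Type*} [Group Γ] {S : StSys D F Γ} {θ : Γ →* GL D.Idx F}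

theorem StSys.Cov.x_inj (hθ : S.Cov θ) {r : Φ D} {t u : F} (h : S.x r t = S.x r u) : t = u :=
  xR_inj (r := r) (by simpa [hθ r] using congrArg (fun g => (θ g).1) h)
/-- the other roots in the orbit -/
def RSym.oth (R : RSym D) (r : Φ D) : Set (Φ D) := {s | s ≠ r ∧ (s = R.ρ r ∨ s = R.ρ (R.ρ r))}

variable {R : RSym D} (τ : TwF S R) (γ : Tw S (RSym.refl D)) (φ : F →+* F) (θ) (L : Lay D F) (f : Λ D →ₗ[ℤ] ℤ) (e : Φ D) (Os : List (List (I D))) in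
/-- a twist by a graph-field automorphism together with the field automorphism -/
structure TG : Prop where
  cov : S.Cov θ
  hγ : ∀ r t, γ.σ (S.x r t) = S.x r (φ t)
  hψ : ∀ r t, τ.ψ r t = φ t
  lin : L.Lin f
  orb : L.Orb R
  pos : IsPos e
  e1 : ∀ r, IsPos r → R.ρ r = r → τ.ε r = 1
  hy : ∀ r, IsPos r → ∀ t, (R.ρ r = r → φ t = t) → ∃ y ∈ S.gen (R.oth r), S.x r t * y ∈ τ.Fix ∧ (φ t = t → γ.σ y = y)
  push : ∀ r, IsPos r → R.ρ r = r ∨ L.κ r = L.κ e ∨ ∃ y ∈ τ.Fix ⊓ γ.Fix, ∃ j k, 0 < j ∧ y ∈ L.U S j ∧ IsPos k ∧ L.κ k = L.κ r + j ∧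
    ∀ u ∈ L.U S (L.κ r) ⊓ τ.Fix, φ (L.ld S k (u⁻¹ * y⁻¹ * u * y)) = L.ld S k (u⁻¹ * y⁻¹ * u * y) → φ (L.ld S r u) = L.ld S r u
  hO : ∀ O ∈ Os, OrbL R O
  ex : ∀ i, ∃ O ∈ Os, i ∈ O
  top : R.ρ (topR D) = topR D ∧ pr (topR D) e = 1
  up : ∀ O ∈ Os, ∃ w ∈ R.W1, ∀ j ∈ O, IsPos (w • sim j) ∧ L.κ e ≤ L.κ (w • sim j)

namespace TG
variable {R : RSym D} {τ : TwF S R} {γ : Tw S (RSym.refl D)} {φ : F →+* F} {L : Lay D F} {f : Λ D →ₗ[ℤ] ℤ} {e : Φ D} {Os : List (List (I D))}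
  (h : TG θ τ γ φ L f e Os) {H : Subgroup Γ} (le : H ≤ τ.Fix) (hM : ∀ g ∈ τ.G1, γ.σ g = g → g ∈ H)
include h
theorem fx (r : Φ D) {t : F} (ht : φ t = t) : S.x r t ∈ γ.Fix := ⟨S.x_mem_T _ _, by rw [h.hγ, ht]⟩
theorem oth_pos {r : Φ D} (hr : IsPos r) : ∀ s ∈ R.oth r, (IsPos s ∧ L.κ r ≤ L.κ s) ∧ r ≠ s := fun s hs => by
  have k := (R.pos r).2 hr
  obtain ⟨h1, rfl | rfl⟩ := hs
  exacts [⟨⟨k, (h.orb.inv r hr).ge⟩, h1.symm⟩, ⟨⟨(R.pos _).2 k, ((h.orb.inv _ k).trans (h.orb.inv r hr)).ge⟩, h1.symm⟩]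
theorem ld_y {r : Φ D} (hr : IsPos r) (t : F) {y : Γ} (hy : y ∈ S.gen (R.oth r)) : S.x r t * y ∈ L.U S (L.κ r) ∧ L.ld S r (S.x r t * y) = t := by
  have k : y ∈ L.U S (L.κ r) := S.gen_mono (fun s hs => (h.oth_pos hr s hs).1) hy
  rw [Lay.ld_mul h.cov hr (L.x_mem S hr le_rfl t) k, Lay.ld_self h.cov hr, Lay.ld_zero h.cov hr (h.oth_pos hr) hy, add_zero]
  exact ⟨mul_mem (L.x_mem S hr le_rfl t) k, rfl⟩
theorem exists_y {r : Φ D} (hr : IsPos r) {t : F} (ht : φ t = t) :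
    ∃ y ∈ S.gen (insert r (R.oth r)) ⊓ L.U S (L.κ r), y ∈ τ.Fix ⊓ γ.Fix ∧ L.ld S r y = t := by
  obtain ⟨y, h1, h2, h3⟩ := h.hy r hr t fun _ => ht
  exact ⟨_, ⟨mul_mem (S.x_mem (Set.mem_insert _ _) t) (S.gen_mono (Set.subset_insert _ _) h1), (h.ld_y hr t h1).1⟩,
    ⟨h2, mul_mem (h.fx r ht) ⟨S.gen_mono (Set.subset_univ _) h1, h3 ht⟩⟩, (h.ld_y hr t h1).2⟩
include le hM
theorem mU {u : Γ} (h1 : u ∈ S.U) (h2 : u ∈ τ.Fix ⊓ γ.Fix) : u ∈ H := hM u (mem_sup_left ⟨h1, h2.1⟩) h2.2.2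
theorem fix_lev {i : ℕ} (he : i ≤ L.κ e → ∀ u ∈ L.U S (L.κ e), u ∈ H → φ (L.ld S e u) = L.ld S e u) : ∀ u ∈ L.U S i, u ∈ H → u ∈ γ.Fix := by
  obtain ⟨m, hb⟩ := L.exists_bot S
  induction hn : m - i generalizing i with
  | zero => intro u hu _; rw [hb i (by omega), mem_bot] at hu; exact hu ▸ one_mem _
  | succ n ih =>
  intro u hu hH
  replace ih := ih (i := i + 1) (fun k => he (by omega)) (by omega)
  have k : ∀ r, IsPos r → L.κ r = i → φ (L.ld S r u) = L.ld S r u → u ∈ γ.Fix := by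
    rintro r hr rfl k
    obtain ⟨y, y1, y2, y3⟩ := h.exists_y hr k
    exact (γ.Fix.mul_mem_cancel_left (inv_mem y2.2)).1 (ih _ (h.orb.congr h.cov hr y1.2 hu y2.1 (le hH) y3)
      (mul_mem (inv_mem (h.mU le hM (L.U_le S _ y1.2) y2)) hH))
  by_cases h0 : ∃ r, IsPos r ∧ L.κ r = i
  swap
  · exact ih u (S.gen_mono (fun r hr => And.intro hr.1 (lt_of_le_of_ne hr.2 fun e => h0 ⟨r, hr.1, e.symm⟩)) hu) hH
  obtain ⟨r, hr, rfl⟩ := h0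
  rcases h.push r hr with h1 | h1 | ⟨y, y1, j, k', j0, y2, k1, k2, k3⟩
  · have := h.orb.ld_σ (τ := τ) h.cov hr hu
    rw [h1, (le hH).2, h.e1 r hr h1, h.hψ, Units.val_one, one_mul] at this
    exact k r hr rfl this.symm
  · exact k e h.pos h1.symm (he h1.le u (h1 ▸ hu) hH)
  · have a1 := h.lin.comm hu y2
    have a2 := h.mU le hM (L.U_le S _ y2) y1
    have a3 := Lay.ld_fld h.cov k1 h.hγ (k2 ▸ a1)
    rw [(ih _ (L.U_mono S (by omega) a1) (mul_mem (mul_mem (mul_mem (inv_mem hH) (inv_mem a2)) hH) a2)).2] at a3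
    exact k r hr rfl (k3 u ⟨hu, le hH⟩ a3.symm)
omit le hM in
variable (H) in
/-- the coordinates at `e` of the elements of `H` -/
def tA : AddSubgroup F where
  carrier := {t | ∃ u ∈ L.U S (L.κ e), u ∈ H ∧ L.ld S e u = t}
  add_mem' := by rintro _ _ ⟨u, h1, h2, rfl⟩ ⟨v, k1, k2, rfl⟩; exact ⟨_, mul_mem h1 k1, mul_mem h2 k2, Lay.ld_mul h.cov h.pos h1 k1⟩
  zero_mem' := ⟨1, one_mem _, one_mem _, Lay.ld_one h.cov h.pos⟩
  neg_mem' := by rintro _ ⟨u, h1, h2, rfl⟩; exact ⟨_, inv_mem h1, inv_mem h2, Lay.ld_inv h.cov h.pos h1⟩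
theorem mem_top {u : Γ} (h1 : u ∈ L.U S (L.κ e)) (h2 : u ∈ τ.Fix) (h3 : L.ld S e u ∈ h.tA H) : u ∈ H := by
  obtain ⟨v, k1, k2, k3⟩ := h3
  have a1 := h.orb.congr h.cov h.pos k1 h1 (le k2) h2 k3
  have a2 := mul_mem (inv_mem (le k2)) h2
  exact (H.mul_mem_cancel_left (inv_mem k2)).1 (h.mU le hM (L.U_le S _ a1) ⟨a2, h.fix_lev Tw.G1_le_fix (fun _ k _ => k) (fun k => by omega) _ a1
    (mem_sup_left ⟨L.U_le S _ a1, a2⟩)⟩)
theorem one_mem_tA : 1 ∈ h.tA H := by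
  obtain ⟨y, y1, y2, y3⟩ := h.exists_y h.pos (map_one φ)
  exact ⟨y, y1.2, h.mU le hM (L.U_le S _ y1.2) y2, y3⟩
theorem h_top (c : Fˣ) (hc : φ c = c) : S.h (topR D) c ∈ H ⊓ γ.Fix := by
  have k1 := h.e1 _ (top_pos le_topR) h.top.1
  have k : ∀ r, R.ρ r = r → τ.ε r = 1 → ∀ t, φ t = t → S.x r t ∈ H ⊓ γ.Fix := fun r h1 h2 t ht =>
    ⟨hM _ (TwF.x_mem_G1 h1 (by simp [h2, h.hψ, ht])) (h.fx r ht).2, h.fx r ht⟩
  have : ∀ c : Fˣ, φ c = c → S.n (topR D) c ∈ H ⊓ γ.Fix := fun c hc =>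
    mul_mem (mul_mem (k _ h.top.1 k1 _ hc) (k _ (by rw [R.ng, h.top.1]) (by rw [τ.ε_ng, k1]) _ (by simp [hc]))) (k _ h.top.1 k1 _ hc)
  exact mul_mem (this c hc) (this _ (by simp))
theorem smul_tA {c t : F} (hc : φ c = c) (ht : t ∈ h.tA H) : c * t ∈ h.tA H := by
  by_cases h0 : c = 0
  · simp [h0]
  obtain ⟨u, h1, h2, rfl⟩ := ht
  have k := (h.h_top le hM (Units.mk0 c h0) hc).1
  have w : S.Wt (S.h (topR D) (Units.mk0 c h0)) fun s => (Units.mk0 c h0 ^ pr (topR D) s : Fˣ) := fun s => S.h_conj_x _ s _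
  exact ⟨_, Lay.conj_wt w h1, mul_mem (mul_mem k h2) (inv_mem k), by simp [Lay.ld_wt h.cov h.pos w h1, h.top.2]⟩
theorem xU_mem {O : List (I D)} (hO : O ∈ Os) : (O.map fun j => S.x (sim j) 1).prod ∈ H ⊓ γ.Fix := by
  have : (O.map fun j => S.x (sim j) 1).prod ∈ γ.Fix := list_prod_mem (by simpa using fun j _ => h.fx _ (map_one φ))
  exact ⟨h.mU le hM (TwF.xU_mem _) ⟨TwF.xU_fix (h.hO O hO).orth (h.hO O hO).inv (by simp [TwF.Cp]), this⟩, this⟩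
theorem xV_mem {O : List (I D)} (hO : O ∈ Os) {c : F} (hc : φ c = c) : (O.map fun j => S.x (ng (sim j)) c).prod ∈ H ⊓ γ.Fix := by
  have : (O.map fun j => S.x (ng (sim j)) c).prod ∈ γ.Fix := list_prod_mem (by simpa using fun j _ => h.fx _ hc)
  exact ⟨hM _ (mem_sup_right ⟨S.gen_mono (fun _ h => h.1) (TwF.xV_mem fun _ => c),
    TwF.xV_fix (h.hO O hO).orth (h.hO O hO).inv (by simp [TwF.Cp, h.hψ, hc])⟩) this.2, this⟩
theorem rep {w : W D} (hw : w ∈ R.W1) : ∃ n ∈ H ⊓ γ.Fix, S.Rep n w := by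
  refine RSym.W1_induction (P := fun w => ∃ n ∈ H ⊓ γ.Fix, S.Rep n w) ⟨1, one_mem _, rep_nw []⟩ (fun w _ i _ ⟨n, h1, h2⟩ => ?_) hw
  obtain ⟨O, hO, hi⟩ := h.ex i
  have o := (h.hO O hO).orth
  refine ⟨_, mul_mem h1 ?_, (h.hO O hO).orb i hi ▸ o.w0J_eq ▸ h2.mul (rep_nw O)⟩
  simp only [nw, n_def]
  rw [o.prod_mul S (fun _ => mul_mem (S.x_mem_A1 _ _) (S.x_ng_mem_A1 _ _)) fun _ => S.x_mem_A1 _ _,
    o.prod_mul S (fun _ => S.x_mem_A1 _ _) fun _ => S.x_ng_mem_A1 _ _]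
  exact mul_mem (mul_mem (h.xU_mem le hM hO) (h.xV_mem le hM hO (by simp))) (h.xU_mem le hM hO)
theorem tr {w : W D} (hw : w ∈ R.W1) {r : Φ D} (hr : w • r = e) {t : F} (ht : t ∈ h.tA H) {y : Γ} (h1 : y ∈ S.gen (R.oth r))
    (h2 : S.x r t * y ∈ τ.Fix) : S.x r t * y ∈ H := by
  obtain ⟨n, k1, k2⟩ := h.rep le hM hw
  obtain ⟨c, hc⟩ := k2.act.conj_x r
  have a1 : n * y * n⁻¹ ∈ S.gen (R.oth e) := k2.act.conj_mem (fun s hs => by
    simpa only [← hr, RSym.oth, Set.mem_setOf_eq, ← RSym.smul_ρ hw, Ne, smul_left_cancel_iff] using hs) h1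
  have a2 : φ c = c := by
    have := (γ.Fix.mul_mem (γ.Fix.mul_mem k1.2 (h.fx r (map_one φ))) (γ.Fix.inv_mem k1.2)).2
    rw [hc, h.hγ, mul_one] at this
    exact h.cov.x_inj this
  have a3 : n * (S.x r t * y) * n⁻¹ = S.x e (c * t) * (n * y * n⁻¹) := by rw [← hr, ← hc]; group
  have := h.mem_top le hM (h.ld_y h.pos _ a1).1 (a3 ▸ mul_mem (mul_mem (le k1.1) h2) (inv_mem (le k1.1)))
    ((h.ld_y h.pos _ a1).2.symm ▸ h.smul_tA le hM a2 ht)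
  rwa [← a3, H.mul_mem_cancel_right (inv_mem k1.1), H.mul_mem_cancel_left k1.1] at this
theorem G1_le (ht : ∀ t, t ∈ h.tA H) : τ.G1 ≤ H := Tw.Adm.G1_le ⟨le, fun i u hu => by
    obtain ⟨O, hO, hi⟩ := h.ex i
    obtain ⟨w, hw, h1⟩ := h.up O hO
    obtain ⟨n, k1, k2⟩ := h.rep le hM hw
    rw [(h.hO O hO).orb i hi, mem_Um_w0J] at hu
    have := h.mem_top le hM (k2.act.conj_mem (fun r hr => by
      obtain ⟨j, hj, rfl⟩ := (h.hO O hO).orth.2 r hr.1 hr.2; exact h1 j hj) hu.1) (mul_mem (mul_mem (le k1.1) hu.2) (inv_mem (le k1.1))) (ht _)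
    rwa [H.mul_mem_cancel_right (inv_mem k1.1), H.mul_mem_cancel_left k1.1] at this, fun i => by
    obtain ⟨O, hO, hi⟩ := h.ex i
    exact ⟨_, (h.xV_mem le hM hO (map_one φ)).1, (h.hO O hO).orb i hi ▸ TwF.xV_mem fun _ => 1, TwF.xV_ne_one h.cov (h.hO O hO).orth.1 hi⟩⟩ h.cov
end TG

omit G in
theorem span_top [Finite F] {φ : F →+* F} {m q : ℕ} (hm : m.Prime) (hq : 1 < q) (h1 : Nat.card F = q ^ m) (h2 : Nat.card {t | φ t = t} = q) {A : AddSubgroup F}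
    (hs : ∀ c t, φ c = c → t ∈ A → c * t ∈ A) {t : F} (ht : φ t ≠ t) (hp : ∀ i < m, t ^ i ∈ A) (s : F) : s ∈ A := by
  let E := φ.eqLocusField (RingHom.id F)
  have k1 : Module.finrank E F = m := Nat.pow_right_injective hq (by
    beta_reduce; rw [← h1, ← h2]; exact (Module.natCard_eq_pow_finrank (K := E)).symm)
  have k2 : (minpoly E t).natDegree = m := ((Nat.dvd_prime hm).1 (k1 ▸ minpoly.degree_dvd (Algebra.IsIntegral.isIntegral t))).resolve_left fun e => by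
    obtain ⟨c, rfl⟩ := minpoly.natDegree_eq_one_iff.1 e; exact ht c.2
  let A' : Submodule E F := { A with smul_mem' := fun c t => hs c t c.2 }
  refine (Submodule.span_le (p := A')).2 ?_ (((linearIndependent_pow t).span_eq_top_of_card_eq_finrank' (by simp [k1, k2])).ge trivial)
  rintro _ ⟨i, rfl⟩; exact hp i (k2 ▸ i.2)

theorem TG.fix [Finite F] (p : ℕ) [Fact p.Prime] [CharP F p] {R : RSym D} {τ : TwF (adS D F) R} {γ : Tw (adS D F) (RSym.refl D)} {φ : F →+* F} {L : Lay D F}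
    {f : Λ D →ₗ[ℤ] ℤ} {e : Φ D} {Os : List (List (I D))} (h : TG (MonoidHom.id _) τ γ φ L f e Os) {H : Subgroup (GL D.Idx F)} (le : H ≤ τ.Fix)
    (hM : ∀ g ∈ τ.G1, γ.σ g = g → g ∈ H) (lin : R.Lin) (rk : ∀ i, (R.orb i)ᶜ.Nonempty) {O : List (I D)} (hO : O ∈ Os) {i j : I D} (hi : i ∈ O) (hj : j ∈ O)
    (ij : i ≠ j) (h0 : ∀ j ∈ O, pr (topR D) (sim j) = 0) (he : ∀ t ∈ h.tA H, φ t = t) : H ≤ γ.Fix := by
  have og : OG τ.toTw γ H := ⟨le, lin, fun u hu k => (h.fix_lev le hM (fun _ u h1 h2 => he _ ⟨u, h1, h2, rfl⟩) u (L.U_zero (adS D F) ▸ hu) k).2,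
    fun u hu h1 h2 => h.mU le hM hu ⟨⟨gen_mono _ (Set.subset_univ _) hu, h1⟩, gen_mono _ (Set.subset_univ _) hu, h2⟩, fun w hw => by
      obtain ⟨n, h1, h2⟩ := h.rep le hM hw; exact ⟨n, h1.1, h1.2.2, h2⟩, fun J hJ hne c hc k => by
      obtain ⟨u, hu, e⟩ := h.lin.cent_lay cov_ad hne (fun r h1 h2 => by
        obtain ⟨y, y1, y2, y3⟩ := h.exists_y h1 (map_one φ)
        have : ∀ s ∈ insert r (R.oth r), (IsPos s ∧ ¬ InJ J s) ∧ f (wt r) ≤ f (wt s) := by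
          rintro s (rfl | hs)
          · exact ⟨⟨h1, h2⟩, le_rfl⟩
          have := (h.oth_pos h1 s hs).1
          refine ⟨⟨this.1, ?_⟩, by rw [← h.lin.eq h1, ← h.lin.eq this.1]; exact_mod_cast this.2⟩
          obtain ⟨-, rfl | rfl⟩ := hs <;> simpa [hJ.inJ_ρ]
        exact ⟨y, ⟨gen_mono _ (fun s hs => (this s hs).1) y1.1, h.mU le hM (L.U_le _ _ y1.2) y2⟩, gen_mono _ this y1.1, y3 ▸ one_ne_zero⟩) hc k
      exact (show c = u from e) ▸ hu, rk⟩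
  have hx : (adS D F).x (topR D) 1 ∈ H := hM _ (TwF.x_mem_G1 h.top.1 (by simp [h.e1 _ (top_pos le_topR) h.top.1])) (h.fx _ (map_one φ)).2
  have hv := (h.xU_mem le hM hO).1
  have o := (h.hO O hO).orth
  by_cases hp : p = 2
  · have c2 : (1 : F) + 1 = 0 := by subst hp; exact CharTwo.add_self_eq_zero 1
    have := o.inv_two hi hj ij cov_ad c2 (topR D)
    exact og.all_two cov_ad le_topR hx c2 (fun z hz e => exists_conj_mem_U p hz (k := 1) (by rw [hp, ← e, ← sq]; rfl)) hv (TwF.xU_mem _) this.1 this.2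
  · exact og.all_odd cov_ad r3_ad p hp le_topR hx (h.h_top le hM (-1) (by simp)) hv (fun e => TwF.xU_not_mem cov_ad o hi (e ▸ one_mem _))
      (list_prod_mem (List.forall_mem_map.2 fun j hj => x_mem _ (And.intro (isPos_sim _) (h0 j hj)) 1))

def NoT (T : Tab) (k a : ℕ) : Prop := ∀ s < T.n, ∃ i < T.l, T.ca i k ≠ T.ca i a + T.ca i s
noncomputable instance decNoT (T : Tab) (k a : ℕ) : Decidable (NoT T k a) := by unfold NoT; infer_instance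
def YT (T : Tab) (g : GData) (m r : ℕ) : Prop := g.ρ r = r ∧ g.ε r = 1 ∨ g.ρ r ≠ r ∧ T.terms r (g.ρ r) = [] ∧
  (m = 2 ∧ g.ρ (g.ρ r) = r ∧ g.ε (g.ρ r) * g.ε r = 1 ∨ m = 3 ∧ g.ρ (g.ρ r) ≠ r ∧ g.ρ (g.ρ (g.ρ r)) = r ∧ T.terms r (g.ρ (g.ρ r)) = [] ∧
    g.ε (g.ρ (g.ρ r)) * (g.ε (g.ρ r) * g.ε r) = 1)
noncomputable instance decYT (T : Tab) (g : GData) (m r : ℕ) : Decidable (YT T g m r) := by unfold YT; infer_instance
def PuT (T : Tab) (g : GData) (a : List ℤ) (m r j : ℕ) (l : List ℕ) : Prop := (∀ i ∈ l, T.lf a (T.sim j) = T.lf a (T.sim i)) ∧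
  ∃ c ∈ T.terms (T.sim j) r, c.2.2 = (1, 1) ∧ c.2.1 * c.2.1 = 1 ∧ c.1 < T.n ∧ T.n ≤ 2 * c.1 ∧ T.lf a c.1 = T.lf a r + T.lf a (T.sim j) ∧
    ((∀ i ∈ l, NoT T c.1 (T.sim i)) ∨ m = 3 ∧ l.length = 2 ∧ g.ε r * g.ε r = 1 ∧ NoT T c.1 (T.sim (l.getD 0 0)) ∧ (c.1, c.2.1 * g.ε r, 1, 1) ∈ T.terms (T.sim (l.getD 1 0)) (g.ρ r))
noncomputable instance decPuT (T : Tab) (g : GData) (a : List ℤ) (m r j : ℕ) (l : List ℕ) : Decidable (PuT T g a m r j l) := by unfold PuT; infer_instance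
def TwT (T : Tab) (g : GData) (a : List ℤ) (m e : ℕ) (Os ws : List (List ℕ)) : Prop :=
  (∀ r < T.n, T.n ≤ 2 * r → 0 < T.lf a r ∧ T.lf a (g.ρ r) = T.lf a r ∧
    (∀ s < T.n, T.lf a s = T.lf a r → s = r ∨ s = g.ρ r ∨ s = g.ρ (g.ρ r)) ∧ YT T g m r ∧
    (g.ρ r = r ∨ T.lf a r = T.lf a e ∨ ∃ O ∈ Os, O ≠ [] ∧ PuT T g a m r (O.headD 0) O.tail)) ∧
  T.n ≤ 2 * e ∧ g.ρ (T.n - 1) = T.n - 1 ∧ T.pr (T.n - 1) e = 1 ∧
  ∀ O ∈ Os, ∃ c ∈ ws, W1T T g.ρ c ∧ ∀ j ∈ O, T.n ≤ 2 * runW T c (T.sim j) ∧ T.lf a e ≤ T.lf a (runW T c (T.sim j))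
noncomputable instance decTwT (T : Tab) (g : GData) (a : List ℤ) (m e : ℕ) (Os ws : List (List ℕ)) : Decidable (TwT T g a m e Os ws) := by
  unfold TwT; infer_instance

section cert
variable {R : RSym D} {τ : TwF S R} {γ : Tw S (RSym.refl D)} {φ : F →+* F} {g : GData} (hρ : ∀ r, (R.ρ r : ℕ) = g.ρ r) (hε : ∀ r, (τ.ε r : F) = g.ε r)
  (hψ : ∀ r t, τ.ψ r t = φ t) (hγ : ∀ r t, γ.σ (S.x r t) = S.x r (φ t))
include hε hψ in
theorem σ_x (r : Φ D) (t : F) : τ.σ (S.x r t) = S.x (R.ρ r) (g.ε r * φ t) := by rw [τ.hxf, hε, hψ]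
include hρ hε hψ
theorem fix3 {r : Φ D} (hr : IsPos r) (h3 : ∀ t, φ (φ (φ t)) = t) (h : YT (tab D) g 3 r) (h0 : g.ρ r ≠ r) (t : F) :
    S.x r t * (S.x (R.ρ r) (g.ε r * φ t) * S.x (R.ρ (R.ρ r)) (g.ε (g.ρ r) * (g.ε r * φ (φ t)))) ∈ τ.Fix := by
  obtain ⟨-, h1, ⟨h2, -⟩ | ⟨-, -, h4, h5, h6⟩⟩ := h.resolve_left fun h => h0 h.1
  · omega
  have k : ∀ s, IsPos s → (tab D).terms r s = [] → ∀ u, Commute (S.x r t) (S.x s u) := fun s hs h u =>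
    S.commute_of_emod (p := 0) (Or.inl rfl) (hr.ne_ng hs) (by simp [show D.commTerms r s = [] from h]) t u
  have p1 := (R.pos r).2 hr
  refine ⟨mul_mem (S.x_mem_T _ _) (mul_mem (S.x_mem_T _ _) (S.x_mem_T _ _)), ?_⟩
  rw [← mul_assoc, τ.mul3 (S.x_mem_T _ _) (S.x_mem_T _ _) (S.x_mem_T _ _), σ_x hε hψ, σ_x hε hψ, σ_x hε hψ, mul_assoc (S.x r t),
    ((k _ p1 (hρ r ▸ h1) _).mul_right (k _ ((R.pos _).2 p1) (by rwa [hρ, hρ]) _)).eq, show R.ρ (R.ρ (R.ρ r)) = r from Fin.ext (by rwa [hρ, hρ, hρ])]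
  simp only [map_mul, map_intCast, h3, hρ]
  rw [← mul_assoc _ _ t, ← mul_assoc _ _ t, ← Int.cast_mul, ← Int.cast_mul, h6, Int.cast_one, one_mul]
include hγ
theorem YT.hy {m : ℕ} (hm : ∀ t, φ^[m] t = t) {r : Φ D} (hr : IsPos r) (h : YT (tab D) g m r) (t : F) (ht : R.ρ r = r → φ t = t) :
    ∃ y ∈ S.gen (R.oth r), S.x r t * y ∈ τ.Fix ∧ (φ t = t → γ.σ y = y) := by
  rcases id h with ⟨h1, h2⟩ | ⟨h0, h1, ⟨rfl, h2, h3⟩ | ⟨rfl, h2, -⟩⟩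
  · have : R.ρ r = r := Fin.ext ((hρ r).trans h1)
    exact ⟨1, one_mem _, ⟨by simpa using S.x_mem_T _ _, by simp [σ_x hε hψ, h2, ht this, this]⟩, fun _ => γ.one⟩
  · refine ⟨S.x (R.ρ r) (g.ε r * φ t), S.x_mem (And.intro (fun e => h0 (by rw [← hρ, e])) (Or.inl rfl)) _, ⟨mul_mem (S.x_mem_T _ _) (S.x_mem_T _ _), ?_⟩, fun e => by simp [hγ, e]⟩
    rw [τ.mul _ (S.x_mem_T _ _) _ (S.x_mem_T _ _), σ_x hε hψ, σ_x hε hψ, (S.commute_of_emod (p := 0) (Or.inl rfl) (hr.ne_ng ((R.pos r).2 hr))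
      (by simp [show D.commTerms r (R.ρ r) = [] from hρ r ▸ h1]) _ _).eq, show R.ρ (R.ρ r) = r from Fin.ext (by rwa [hρ, hρ]), map_mul, map_intCast,
      show φ (φ t) = t from hm t, ← mul_assoc _ _ t, hρ, ← Int.cast_mul, h3, Int.cast_one, one_mul]
  · exact ⟨_, mul_mem (S.x_mem (And.intro (fun e => h0 (by rw [← hρ, e])) (Or.inl rfl)) _) (S.x_mem (And.intro (fun e => h2 (by rw [← hρ, ← hρ, e])) (Or.inr rfl)) _),
      fix3 hρ hε hψ hr hm h h0 t, fun e => by simp [γ.mul _ (S.x_mem_T _ _) _ (S.x_mem_T _ _), hγ, e]⟩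
theorem TwT.tg (hθ : S.Cov θ) {a : List ℤ} {m : ℕ} (hm : ∀ t, φ^[m] t = t) {e : Φ D} {Os : List (List (I D))} {ws : List (List ℕ)}
    (h : TwT (tab D) g a m e (Os.map (List.map Fin.val)) ws) (hO : ∀ O ∈ Os, OrbL R O) (ex : ∀ i, ∃ O ∈ Os, i ∈ O) :
    ∃ L : Lay D F, L.Lin (lfun D a) ∧ TG θ τ γ φ L (lfun D a) e Os := by
  obtain ⟨h1, h2, h3, h4, h5⟩ := h
  obtain ⟨L, hL⟩ := exists_lin F (f := lfun D a) fun r hr => lfun_wt a r ▸ (h1 r r.2 hr).1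
  have κ : ∀ {r}, IsPos r → (L.κ r : ℤ) = (tab D).lf a r := fun hr => (hL.eq hr).trans (lfun_wt a _)
  have o : L.Orb R := ⟨fun r hr => by zify; rw [κ hr, κ ((R.pos r).2 hr), hρ, (h1 r r.2 hr).2.1], fun r s hr hs e => by
    simpa only [Fin.ext_iff, hρ] using (h1 r r.2 hr).2.2.1 s s.2 (by rw [← κ hr, ← κ hs, e])⟩
  refine ⟨L, hL, hθ, hγ, hψ, hL, o, h2, fun r hr e => ?_, fun r hr => (h1 r r.2 hr).2.2.2.1.hy hρ hε hψ hγ hm hr, fun r hr => ?_, hO, ex,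
    ⟨Fin.ext ((hρ _).trans h3), (pr_tab _ _).symm.trans h4⟩, fun O hO => ?_⟩
  · exact Units.ext (by simpa [hε] using congrArg (Int.cast : ℤ → F) ((h1 r r.2 hr).2.2.2.1.resolve_right fun h => h.1 (by rw [← hρ, e])).2)
  · refine (h1 r r.2 hr).2.2.2.2.imp (fun e => Fin.ext ((hρ r).trans e)) (Or.imp (fun e => by zify; rwa [κ hr, κ h2]) ?_)
    simp only [List.mem_map, exists_exists_and_eq_and]
    rintro ⟨_ | ⟨j, l⟩, k0, k1, k2, ⟨k, n, _, _⟩, c1, ⟨⟩, c2, c3, c4, c5, c6⟩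
    · exact absurd rfl k1
    lift k to Φ D using c3
    replace c4 : IsPos k := c4
    have pj := isPos_sim j
    have a1 : L.κ k = L.κ r + L.κ (sim j) := by zify; rw [κ c4, κ hr, κ pj]; exact c5
    have a2 : ∀ i ∈ l, L.κ (sim j) ≤ L.κ (sim i) := fun i hi => by zify; rw [κ pj, κ (isPos_sim i)]; exact (k2 i (List.mem_map_of_mem hi)).le
    have a3 : ∀ l' ⊆ l, (l'.map fun i => S.x (sim i) 1).prod ∈ L.U S (L.κ (sim j)) := fun l' hl =>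
      list_prod_mem (by simpa using fun i hi => L.x_mem S (isPos_sim i) (a2 i (hl hi)) 1)
    have a4 : ∀ i ∈ l, NoT (tab D) k (sim i) → ∀ u ∈ L.U S (L.κ r), L.ld S k (u⁻¹ * (S.x (sim i) 1)⁻¹ * u * S.x (sim i) 1) = 0 := fun i hi h u hu =>
      hL.ld_comm_x0 hθ c4 a1 (isPos_sim i) (a2 i hi) (fun s _ e => by obtain ⟨x, hx, k⟩ := h s s.2; exact k (congrFun e ⟨x, hx⟩)) 1 hu
    have a5 : (n : F) ≠ 0 := fun e => by simpa [e] using congrArg (Int.cast : ℤ → F) c2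
    have xj := L.x_mem S pj le_rfl 1
    refine ⟨_, ⟨TwF.xU_fix (c := fun _ => 1) (hO _ k0).orth (hO _ k0).inv (by simp [TwF.Cp]), list_prod_mem
      (List.forall_mem_map.2 fun j _ => And.intro (S.x_mem_T _ _) (by simp [hγ]))⟩, _, k, by have := hL.pos _ pj; rw [← hL.eq pj] at this; omega,
      mul_mem xj (a3 l fun _ h => h), c4, a1, fun u hu e => ?_⟩
    rw [List.map_cons, List.prod_cons, hL.ld_comm_mul hθ c4 a1 hu.1 xj (a3 l fun _ h => h), hL.ld_comm_x hθ c4 a1 pj hr le_rfl rfl (mem_toΦ.2 c1) 1 hu.1] at e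
    rcases c6 with c6 | ⟨rfl, c6, c7, c8, c9⟩
    · have : ∀ l' ⊆ l, L.ld S k (u⁻¹ * (l'.map fun i => S.x (sim i) 1).prod⁻¹ * u * (l'.map fun i => S.x (sim i) 1).prod) = 0 := fun l' hl => by
        induction l' with
        | nil => simpa using Lay.ld_one hθ c4
        | cons i l' ih =>
          obtain ⟨b1, b2⟩ := List.cons_subset.1 hl
          rw [List.map_cons, List.prod_cons, hL.ld_comm_mul hθ c4 a1 hu.1 (L.x_mem S (isPos_sim i) (a2 i b1) 1) (a3 l' b2), ih b2,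
            a4 i b1 (c6 i (List.mem_map_of_mem b1)) u hu.1, add_zero]
      simpa [this l fun _ h => h, a5] using e
    · obtain _ | ⟨i, _ | ⟨i', _ | _⟩⟩ := l <;> simp only [List.map_cons, List.tail_cons, List.length_cons, List.length_map, List.length_nil] at c6 <;> try omega
      have p1 := (R.pos r).2 hr
      have b1 := o.ld_σ (τ := τ) hθ hr hu.1
      rw [hu.2.2] at b1
      simp only [List.map_cons, List.map_nil, List.prod_cons, List.prod_nil, mul_one] at e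
      rw [hL.ld_comm_mul hθ c4 a1 hu.1 (L.x_mem S (isPos_sim i) (a2 i (by simp)) 1) (L.x_mem S (isPos_sim i') (a2 i' (by simp)) 1), a4 i (by simp) c8 u hu.1,
        hL.ld_comm_x hθ c4 a1 (isPos_sim i') p1 (a2 i' (by simp)) (o.inv r hr) (mem_toΦ.2 (hρ r ▸ c9)) 1 hu.1, b1, hε, hψ] at e
      have b2 : (g.ε r : F) * g.ε r = 1 := by exact_mod_cast congrArg (Int.cast : ℤ → F) c7
      have b3 : φ (φ (L.ld S r u)) = L.ld S r u := mul_left_cancel₀ a5 (by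
        simp only [map_add, map_mul, map_neg, map_intCast, map_one, map_zero, Int.cast_mul] at e
        linear_combination -e + n * (φ (L.ld S r u) - φ (φ (L.ld S r u))) * b2)
      exact (congrArg φ b3).symm.trans (hm _)
  · obtain ⟨c, -, k1, k2⟩ := h5 _ (List.mem_map_of_mem hO)
    obtain ⟨c, rfl⟩ := exists_liftI k1.1
    refine ⟨_, inv_mem (k1.mem hρ), fun j hj => ?_⟩
    obtain ⟨k3, k4⟩ := k2 j (List.mem_map_of_mem hj)
    rw [show (tab D).sim j = sim j from rfl, runW_eq] at k3 k4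
    exact ⟨k3, by zify; rwa [κ h2, κ k3]⟩
end cert

theorem TG.max [Fintype F] (p : ℕ) [Fact p.Prime] [CharP F p] {R : RSym D} {τ : TwF (adS D F) R} {φ : F →+* F} {L : Lay D F}
    {f : Λ D →ₗ[ℤ] ℤ} {e : Φ D} {Os : List (List (I D))} (h : TG (MonoidHom.id _) τ (fldTw D φ).toTw φ L f e Os) (lin : R.Lin)
    (rk : ∀ i, (R.orb i)ᶜ.Nonempty) {O : List (I D)} (hO : O ∈ Os) {i j : I D} (hi : i ∈ O) (hj : j ∈ O) (ij : i ≠ j) (h0 : ∀ j ∈ O, pr (topR D) (sim j) = 0)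
    (he : R.ρ e ≠ e) {q m : ℕ} (hφ : ∀ t, φ t = t ^ q) (hm : m.Prime) (hq : 1 < q) (hK : Fintype.card F = q ^ m)
    (hp : ∀ H ≤ τ.Fix, (∀ g ∈ τ.G1, (fldTw D φ).σ g = g → g ∈ H) → ∀ t ∈ h.tA H, φ t ≠ t → ∀ i < m, t ^ i ∈ h.tA H) {M : Subgroup (GL D.Idx F)}
    (hM : ∀ g : GL D.Idx F, g ∈ M ↔ g ∈ τ.G1 ∧ ∀ i j, g.1 i j ^ q = g.1 i j) : M ≠ τ.G1 ∧ ∀ H, M ≤ H → H ≤ τ.G1 → H = M ∨ H = τ.G1 := by
  replace hM : ∀ g, g ∈ M ↔ g ∈ τ.G1 ∧ (fldTw D φ).σ g = g := fun g => by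
    simp only [hM, ← hφ]; exact and_congr_right fun _ => ⟨fun h => Units.ext (Matrix.ext h), fun h i j => congrArg (fun g : GL D.Idx F => g.1 i j) h⟩
  have c1 : Nat.card {t | φ t = t} = q := by simpa only [hφ] using card_fix (by omega) hK
  refine ⟨fun k => ?_, fun H h1 h2 => ?_⟩
  · have : ∀ t, φ t = t := fun t => by
      obtain ⟨y, y1, y2, -⟩ := h.hy e h.pos t fun k => (he k).elim
      have a1 := h.ld_y h.pos t y1
      have := Lay.ld_fld h.cov h.pos h.hγ a1.1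
      rwa [((hM _).1 (k.ge (mem_sup_left ⟨L.U_le _ _ a1.1, y2⟩))).2, a1.2, eq_comm] at this
    simp only [this, Set.setOf_true, Nat.card_congr (Equiv.Set.univ F), Nat.card_eq_fintype_card, hK] at c1
    exact hm.ne_one (Nat.pow_right_injective hq (c1.trans (pow_one _).symm))
  have le := h2.trans Tw.G1_le_fix
  have k : ∀ g ∈ τ.G1, (fldTw D φ).σ g = g → g ∈ H := fun g a b => h1 ((hM g).2 ⟨a, b⟩)
  by_cases ht : ∀ t ∈ h.tA H, φ t = t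
  · exact Or.inl (le_antisymm (fun g hg => (hM g).2 ⟨h2 hg, (h.fix p le k lin rk hO hi hj ij h0 ht hg).2⟩) h1)
  push Not at ht
  obtain ⟨t, t1, t2⟩ := ht
  exact Or.inr (le_antisymm h2 (h.G1_le le k (span_top hm hq (Nat.card_eq_fintype_card.trans hK) c1 (fun _ _ => h.smul_tA le k) t2 (hp H le k t t1 t2))))

omit G in
theorem rk_of {D : ChevalleyDatum} [Good D] {R : RSym D} {i : I D} (h : R.π i = i) (i' : I D) (h' : i' ≠ i) (j : I D) : (R.orb j)ᶜ.Nonempty := by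
  have : R.orb i = {i} := RSym.orb_eq (fun j => by simp only [Set.mem_singleton_iff]; rw [← h, R.π.injective.eq_iff, h]) rfl fun _ h => Or.inl h
  by_cases k : i ∈ R.orb j
  · exact ⟨i', by rwa [← RSym.orb_eq_of_mem k, this]⟩
  · exact ⟨i, k⟩

theorem twT6 : TwT (tab chevE6) gE6 [3696, 7026, 7389, 11052, 7389, 3696] 2 66 ([[n6 1], [n6 3], [n6 0, n6 5], [n6 5, n6 0], [n6 2, n6 4], [n6 4, n6 2]].map (List.map Fin.val))
    [[3, 2, 4, 3, 0, 5, 2, 4, 3, 1], [1, 2, 4, 3, 0, 5, 2, 4, 3, 1], [2, 4, 3, 1, 2, 4, 3, 2, 4, 0, 5], [3, 1, 0, 5, 2, 4, 3, 2, 4, 0, 5]] ∧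
    ∀ r < 72, gE6.lam r = 1 := by rw [tabE6_eq]; decide +kernel
theorem orb6' : ∀ O ∈ [[n6 1], [n6 3], [n6 0, n6 5], [n6 5, n6 0], [n6 2, n6 4], [n6 4, n6 2]], OrbL R6 O := by
  simp only [List.forall_mem_cons, List.not_mem_nil, false_imp_iff, implies_true, and_true]
  refine ⟨?_, ?_, ?_, ?_, ?_, ?_⟩ <;> exact orbL_of (by rw [tabE6_eq]; decide +kernel) (by decide +kernel) (by decide +kernel)
theorem twT4 : TwT (tab chevD4) gD4a [24, 46, 24, 24] 3 17 ([[n4 1], [n4 0, n4 2, n4 3], [n4 2, n4 3, n4 0], [n4 3, n4 0, n4 2]].map (List.map Fin.val))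
    [[0, 2, 3, 1], [1, 0, 2, 3]] ∧ (∀ r < 24, gD4a.lam r = 1) ∧ W1T (tab chevD4) gD4a.ρ [1, 0, 2, 3] ∧ W1T (tab chevD4) gD4a.ρ [0, 2, 3] ∧
    runW (tab chevD4) [1, 0, 2, 3] 18 = 17 ∧ runW (tab chevD4) [0, 2, 3] 19 = 17 ∧
    Cq (tab chevD4) 0 [(18, .var 2), (13, .var 3), (12, .var 5)] [(14, .cst 1)] ([(19, .cst (-1) * .var 2), (16, .var 3), (15, .var 5)] ++
      [(17, .var 15), (20, .cst (-1) * .var 10), (21, .cst (-1) * .var 6), (22, .cst (-1) * .var 30), (23, .cst (-2) * .var 30)]) ∧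
    ∀ r ∈ [20, 21, 22, 23], r ≠ 17 ∧ 24 ≤ 2 * r ∧ (tab chevD4).lf [24, 46, 24, 24] 17 ≤ (tab chevD4).lf [24, 46, 24, 24] r := by rw [tabD4_eq]; decide +kernel
theorem orb4' : ∀ O ∈ [[n4 1], [n4 0, n4 2, n4 3], [n4 2, n4 3, n4 0], [n4 3, n4 0, n4 2]], OrbL R4 O := by
  simp only [List.forall_mem_cons, List.not_mem_nil, false_imp_iff, implies_true, and_true]
  refine ⟨?_, ?_, ?_, ?_⟩ <;> exact orbL_of (by rw [tabD4_eq]; decide +kernel) (by decide +kernel) (by decide +kernel)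

end H12
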