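import Cfsg.Agent.H12.Spec

/-! Minimal polynomials of the elements of the Weyl group of type `F₄` (`relF4`). -/

set_option autoImplicit false

namespace H12
open Cfsg.Lie H13 StSys

def covF4 : List (List (List ℕ)) := [[[], [0], [1, 0], [2, 1, 0], [3, 2, 1, 0], [1, 2, 1, 0], [1, 3, 2, 1, 0], [0, 1, 2, 1, 0], [0, 1, 3, 2, 1, 0], [2, 1, 3, 2, 1, 0], [2, 0, 1, 3, 2, 1,
  0], [1, 2, 1, 3, 2, 1, 0], [1, 2, 0, 1, 3, 2, 1, 0], [0, 1, 2, 1, 3, 2, 1, 0], [0, 1, 2, 0, 1, 3, 2, 1, 0], [2, 1, 2, 0, 1, 3, 2, 1, 0], [2, 0, 1, 2,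
  0, 1, 3, 2, 1, 0], [3, 2, 1, 2, 0, 1, 3, 2, 1, 0], [3, 2, 0, 1, 2, 0, 1, 3, 2, 1, 0], [1, 2, 0, 1, 2, 0, 1, 3, 2, 1, 0], [1, 3, 2, 0, 1, 2, 0, 1, 3,
  2, 1, 0], [2, 1, 3, 2, 0, 1, 2, 0, 1, 3, 2, 1, 0], [1, 2, 1, 3, 2, 0, 1, 2, 0, 1, 3, 2, 1, 0], [0, 1, 2, 1, 3, 2, 0, 1, 2, 0, 1, 3, 2, 1, 0]], [[],
  [3], [2, 3], [1, 2, 3], [2, 1, 2, 3], [3, 2, 1, 2, 3]], [[], [1], [2, 1], [1, 2, 1]], [[], [2]]]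
theorem relF4 (w : W chevF4) : ∃ f ∈ [[-1, 0, 0, 0, 1], [-1, -1, 0, 1, 1], [-1, 1, 0, -1, 1], [1, 0, 0, 0, 1], [1, 0, -1, 0, 1]], sumP (wL w) f = 0 := by
  obtain ⟨l, hl, rfl⟩ := (show CovT 4 caF4L [0, 3, 1, 2] covF4 by decide +kernel).exists' (D := chevF4) hAF4 (by decide) w
  obtain ⟨f, hf, h⟩ := (show ∀ u ∈ allW covF4, ∃ f ∈ [[-1, 0, 0, 0, 1], [-1, -1, 0, 1, 1], [-1, 1, 0, -1, 1], [1, 0, 0, 0, 1], [1, 0, -1, 0, 1]],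
    RelT 4 (matL 4 caF4L u) f by decide +kernel) _ hl
  exact ⟨f, hf, h.eq hAF4⟩

end H12
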