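import Cfsg.Agent.H12.Vy
import Cfsg.Agent.H12.SpG2
import Cfsg.Agent.H12.RelF4
import Cfsg.Agent.S1062

/-! Elements of prescribed order from `vy` certificates (`VyT.exists_order`, `VyT.exists_order_p`) and the element orders of `F₄(q)`
(`spec_F4`, `F4_odd`, `F4_two`). -/

set_option autoImplicit false

namespace H12
open Cfsg.Lie H13 StSys

section gen
variable {D : ChevalleyDatum} [G : Good D] {A : List (List ℤ)} {wd : List ℕ} {d : ℕ} {y μ g : List ℤ}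

def VyT (l : ℕ) (A : List (List ℤ)) (wd : List ℕ) (d : ℕ) (y μ g : List ℤ) : Prop := PowT l A wd d ∧ d ≠ 0 ∧ μ.length = l ∧ seqL l A wd y d μ = g
noncomputable instance decVyT (l : ℕ) (A : List (List ℤ)) (wd : List ℕ) (d : ℕ) (y μ g : List ℤ) : Decidable (VyT l A wd d y μ g) := by
  unfold VyT; infer_instance
def OrthT (T : Tab) (wd : List ℕ) (y : List ℤ) (θ : ℕ) : Prop := T.lf y θ = 0 ∧ ∀ j ∈ wd, T.pr (T.sim j) θ = 0 ∧
  ∀ u < T.n, |T.pr (T.sim j) u| < 2 ∨ T.pr θ u < 2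
noncomputable instance decOrthT (T : Tab) (wd : List ℕ) (y : List ℤ) (θ : ℕ) : Decidable (OrthT T wd y θ) := by unfold OrthT; infer_instance

theorem VyT.exists_TF (h : VyT D.rank A wd d y μ g) (hA : CaL D A) {k : Type*} [Field k] [IsAlgClosed k] {p : ℕ} [hp : Fact p.Prime] [CharP k p]
    {G₀ : Type*} [Group G₀] (m : FM D k p G₀) (hP : m.P = LinearMap.id) (hq : p ∣ m.q) (h0 : m.q ≠ 0) {N : ℕ} (hN : N ∣ m.q ^ d - 1)
    (hc : N.Coprime (evZ m.q g).natAbs) : ¬ p ∣ N ∧ ∃ l : List (I D), l.map Fin.val = wd ∧ ∃ c ∈ m.TF (wp l)⁻¹, orderOf c = N ∧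
      ∀ ν, wL (wp l) ν = ν → lfun D y ν = 0 → tch c ν = 1 := by
  have h1 := Nat.sub_add_cancel (Nat.one_le_pow d _ (Nat.pos_of_ne_zero h0))
  have h2 : ¬ p ∣ N := fun e => hp.out.one_lt.ne' (Nat.dvd_one.1 ((Nat.dvd_add_right (e.trans hN)).1 (h1.symm ▸ hq.trans (dvd_pow_self _ h.2.1))))
  obtain ⟨l, rfl, h3⟩ := h.1.exists hA
  obtain ⟨ζ, rfl, -⟩ := exists_prim (k := k) p h2
  obtain ⟨j, e⟩ := hN
  refine ⟨h2, l, rfl, _, m.vy_mem hP h3 (lfun D y) (ζ := ζ) (by rw [← h1, e, pow_succ, pow_mul, pow_orderOf_eq_one, one_pow, one_mul]),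
    orderOf_zpow_lin ((vy_seqL hA l y _ d h.2.2.1).trans (by rw [h.2.2.2])) hc, fun ν e1 e2 => ?_⟩
  rw [tch_zpow_lin, show vy (wp l) (lfun D y) m.q d ν = 0 by clear * - e1 e2; induction d with
    | zero => simp [vy]
    | succ d ih => rw [vy_succ, e1, ih, e2]; simp, zpow_zero]

variable [SC D] {F : Type*} [Field F] [Fintype F] {P P' Q Q' : List (List ℤ)} {dl : List ℕ} {q N : ℕ}

theorem VyT.exists_order (h : VyT D.rank A wd d y μ g) (hA : CaL D A) (hS : Smith (tab D) P P' Q Q' dl) (hd : ∀ i < D.rank, dl.getD i 0 = 1)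
    (hq : Fintype.card F = q) (hN : N ∣ q ^ d - 1) (hc : N.Coprime (evZ q g).natAbs) : ∃ x : D.group F, orderOf x = N := by
  obtain ⟨p, hp, n, h1, h2⟩ := FiniteField.card' F
  have := Fact.mk h1
  obtain ⟨m, e1, e2⟩ := exists_fm D F p
  rw [Nat.card_eq_fintype_card, hq] at e1
  subst e1
  obtain ⟨-, l, -, c, h3, rfl, -⟩ := h.exists_TF hA m e2 (hq ▸ h2 ▸ dvd_pow_self p n.ne_zero) (hq ▸ Fintype.card_ne_zero) hN hc
  exact m.exists_order (m.π_injective fun z hz _ => by simpa [hS.ker_eq_bot hd] using hz) h3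

theorem VyT.exists_order_p (h : VyT D.rank A wd d y μ g) (hA : CaL D A) (hS : Smith (tab D) P P' Q Q' dl) (hd : ∀ i < D.rank, dl.getD i 0 = 1)
    (θ : Φ D) (hθ : OrthT (tab D) wd y θ) (p : ℕ) [hp : Fact p.Prime] [CharP F p]
    (hq : Fintype.card F = q) (hN : N ∣ q ^ d - 1) (hc : N.Coprime (evZ q g).natAbs) : ∃ x : D.group F, orderOf x = N * p := by
  obtain ⟨n, -, h2⟩ := FiniteField.card F p
  obtain ⟨m, e1, e2, -, e3⟩ := exists_fm' (D := D) (locFin_of_algebraic (F := F) p) (algebraMap F (AlgebraicClosure F))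
  rw [Nat.card_eq_fintype_card, hq] at e1
  subst e1
  obtain ⟨h0, l, rfl, c, h3, rfl, h4⟩ := h.exists_TF hA m e2 (hq ▸ h2 ▸ dvd_pow_self p n.ne_zero) (hq ▸ Fintype.card_ne_zero) hN hc
  have h1 : orderOf ((stS D (AlgebraicClosure F)).x θ 1) = p := orderOf_eq_prime (((H24.stR1 (stS D _) θ).x_pow 1 p).trans (by simp)) fun e =>
    one_ne_zero (xR_eq_one.1 (congrArg Units.val (((r3_ad.lift_x θ 1).symm.trans (congrArg _ e)).trans (map_one _))))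
  have h5 : ∀ j ∈ l, pr (sim j) θ = 0 ∧ ∀ u, |pr (sim j) u| < 2 ∨ pr θ u < 2 := fun j hj => by
    have := hθ.2 j (List.mem_map_of_mem hj)
    exact ⟨pr_tab (sim j) θ ▸ this.1, fun u => pr_tab (sim j) u ▸ pr_tab θ u ▸ this.2 u u.2⟩
  have h6 : ∀ r, pr r θ = 0 → (∀ u, |pr r u| < 2 ∨ pr θ u < 2) → ∀ t, Commute ((stS D (AlgebraicClosure F)).x r t) ((stS D _).x θ 1) :=
    fun r e e' t => (stS D _).commute_x (by rintro rfl; simp [pr_self] at e) (not_posComb_of_orth e fun u => (e' u).imp_left (lt_of_abs_lt)) t 1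
  have h7 : wL (wp l) (wt θ) = wt θ ∧ Commute ((stS D (AlgebraicClosure F)).nw l) ((stS D _).x θ 1) := by
    clear * - h5 h6
    induction l with
    | nil => simp
    | cons j l ih =>
      obtain ⟨i1, i2⟩ := ih fun j hj => h5 j (List.mem_cons_of_mem _ hj)
      obtain ⟨i3, i4⟩ := h5 j List.mem_cons_self
      refine ⟨?_, ?_⟩
      · rw [(wg D).wp_cons, wL_mul, i1]; exact (wL_rW _ _).trans (by rw [show pairL (sim j) (wt θ) = 0 from i3, zero_smul, sub_zero])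
      · rw [nw_cons]
        exact (((h6 _ i3 i4 _).mul_left (h6 _ (by simpa using i3) (by simpa using i4) _)).mul_left (h6 _ i3 i4 _)).mul_left i2
  rw [← h1] at h0 ⊢
  exact m.exists_order_mul (m.π_injective fun z hz _ => by simpa [hS.ker_eq_bot hd] using hz) (rep_nw l).inv h3
    ((e3 _).2 ⟨(stS D F).x θ 1, by simp⟩) h7.2.inv_left (commute_hl_of_Psi ((stS D _).x_mem (Set.mem_inter (Set.mem_univ θ) (by
      rintro _ rfl; exact h4 _ h7.1 ((lfun_wt y θ).trans hθ.1))) 1)) (h1 ▸ (hp.out.coprime_iff_not_dvd.2 (h1 ▸ h0)).symm)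
end gen

variable {F : Type*} [Field F] [Fintype F] {q : ℕ}

theorem spec_F4 (p : ℕ) [hp : Fact p.Prime] [CharP F p] (hq : Fintype.card F = q) (x : chevF4.group F) : ∃ j, (orderOf x : ℤ) ∣ p ^ j * (q ^ 4 - 1) ∨
    (orderOf x : ℤ) ∣ p ^ j * ((q ^ 3 - 1) * (q + 1)) ∨ (orderOf x : ℤ) ∣ p ^ j * ((q ^ 3 + 1) * (q - 1)) ∨ (orderOf x : ℤ) ∣ q ^ 4 + 1 ∨
    (orderOf x : ℤ) ∣ q ^ 4 - q ^ 2 + 1 := by
  obtain ⟨m, e1, e2⟩ := exists_fm chevF4 F p
  rw [Nat.card_eq_fintype_card, hq] at e1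
  obtain ⟨x, rfl⟩ := m.π_surjective x
  obtain ⟨g, c, u, v, hu, e, h1, h2⟩ := m.spec e2 x
  obtain ⟨j, hj⟩ := exists_pow_U p (cov_st (D := chevF4) (F := AlgebraicClosure F))
  obtain ⟨f, hf, h⟩ := relF4 v
  have h3 : ∀ {b : ℕ}, u ^ b = 1 → (orderOf (m.π x) : ℤ) ∣ b * revE q f := fun hb => by
    rw [← Int.dvd_natAbs, Int.natAbs_mul, Int.natCast_dvd_natCast]
    refine (orderOf_map_dvd _ _).trans (orderOf_dvd_of_pow_eq_one (Subtype.ext (pow_of_jordan hu e ?_ hb)))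
    rw [← zpow_natCast, Int.natCast_natAbs, zpow_abs_eq_one]; exact e1 ▸ pow_revE h1 h
  have h4 := h3 (hj u ((stS _ _).gen_mono Set.inter_subset_left hu))
  have h5 : f.sum ≠ 0 → (orderOf (m.π x) : ℤ) ∣ revE q f := fun h0 => by
    obtain h5 | ⟨r, hr⟩ := Set.eq_empty_or_nonempty ({r | IsPos r} ∩ Psi {c} : Set (Φ chevF4))
    · rw [h5, gen_empty, Subgroup.mem_bot] at hu
      simpa using h3 (b := 1) (by simp [hu])
    have := sumP_fix (wL_sum_eq (O := ({r | IsPos r} ∩ Psi {c} : Set (Φ chevF4)).toFinite.toFinset) (w := v)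
      (by simpa using fun r a b => (h2 r b a).symm)) f
    rw [h, LinearMap.zero_apply, eq_comm, smul_eq_zero, or_iff_right h0] at this
    have h6 := congrArg fl this
    rw [map_sum, map_zero] at h6
    exact absurd h6 (Finset.sum_pos (fun r hr => pos_fl r ((Set.Finite.mem_toFinset _).1 hr).1) ⟨r, (Set.Finite.mem_toFinset _).2 hr⟩).ne'
  simp only [List.mem_cons, List.not_mem_nil, or_false] at hf
  refine ⟨j, ?_⟩
  rcases hf with rfl | rfl | rfl | rfl | rfl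
  · exact .inl (dvd_neg.1 (h4.trans (dvd_of_eq (by simp [revE]; ring))))
  · exact .inr (.inl (dvd_neg.1 (h4.trans (dvd_of_eq (by simp [revE]; ring)))))
  · exact .inr (.inr (.inl (dvd_neg.1 (h4.trans (dvd_of_eq (by simp [revE]; ring))))))
  · exact .inr (.inr (.inr (.inl ((h5 (by decide)).trans (dvd_of_eq (by simp [revE]))))))
  · exact .inr (.inr (.inr (.inr ((h5 (by decide)).trans (dvd_of_eq (by simp [revE]; ring))))))

theorem zmod3 : ∀ a : ZMod 3, a ^ 2 + 1 ≠ 0 := by decide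
section nt
variable {r : ℕ} [hr : Fact r.Prime] (h2 : r ≠ 2) (a : ZMod r)
include h2
theorem add_one_iff (n : ℕ) : a ^ n + 1 = 0 ↔ orderOf a ∣ n * 2 ∧ ¬ orderOf a ∣ n := by
  simp only [orderOf_dvd_iff_pow_eq_one, pow_mul, sq_eq_one_iff, add_eq_zero_iff_eq_neg]
  refine ⟨fun h => ⟨.inr h, fun e => ?_⟩, fun h => h.1.resolve_left h.2⟩
  exact h2 ((Nat.prime_dvd_prime_iff_eq hr.out Nat.prime_two).1 ((ZMod.natCast_eq_zero_iff 2 r).1 (by
    linear_combination (exp := 1) h - e)))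
theorem f4_ord : (a ^ 4 - 1 = 0 ↔ orderOf a ∣ 4) ∧ ((a ^ 3 - 1) * (a + 1) = 0 ↔ orderOf a ∣ 3 ∨ orderOf a ∣ 2 ∧ ¬ orderOf a ∣ 1) ∧
    ((a ^ 3 + 1) * (a - 1) = 0 ↔ orderOf a ∣ 6 ∧ ¬ orderOf a ∣ 3 ∨ orderOf a ∣ 1) ∧ (a ^ 4 + 1 = 0 ↔ orderOf a ∣ 8 ∧ ¬ orderOf a ∣ 4) ∧
    (a ^ 4 - a ^ 2 + 1 = 0 ↔ (orderOf a ∣ 12 ∧ ¬ orderOf a ∣ 6) ∧ ¬ (orderOf a ∣ 4 ∧ ¬ orderOf a ∣ 2)) := by
  refine ⟨by rw [sub_eq_zero, orderOf_dvd_iff_pow_eq_one], ?_, ?_, add_one_iff h2 a 4, ?_⟩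
  · rw [mul_eq_zero, sub_eq_zero, ← add_one_iff h2 a 1, orderOf_dvd_iff_pow_eq_one, pow_one]
  · rw [mul_eq_zero, sub_eq_zero, ← add_one_iff h2 a 3, orderOf_dvd_iff_pow_eq_one, pow_one]
  rw [← add_one_iff h2 a 6, ← add_one_iff h2 a 2, show a ^ 6 + 1 = (a ^ 2 + 1) * (a ^ 4 - a ^ 2 + 1) by ring]
  refine ⟨fun h => ⟨by simp [h], fun e => ?_⟩, fun h => (mul_eq_zero.1 h.1).resolve_left h.2⟩
  obtain rfl := (Nat.prime_dvd_prime_iff_eq hr.out Nat.prime_three).1 ((ZMod.natCast_eq_zero_iff 3 r).1 (by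
    linear_combination (exp := 1) h - (a ^ 2 - 2) * e))
  exact zmod3 a e
end nt

theorem F4_orders (hq : Fintype.card F = q) : ∀ N : ℤ, N = (q ^ 3 - 1) * (q + 1) ∨ N = (q ^ 3 + 1) * (q - 1) ∨ N = q ^ 4 + 1 ∨ N = q ^ 4 - q ^ 2 + 1 →
    ∃ x : chevF4.group F, orderOf x = N.natAbs := by
  subst hq
  have r4 : chevF4.rank = 4 := rfl
  rintro _ (rfl | rfl | rfl | rfl)
  · exact Cyc.exists_order (wd := [0, 1, 3]) (V := [[0, 1, 0, -1], [1, -1, 0, 1], [-1, 0, 1, -1], [0, 1, -1, 1]]) (a := [[1, 1, 0, 0], [1, 1, 1, 1],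
      [1, 2, 2, 1], [0, 1, 1, 1]]) (b := [-1, 0, 1, 1]) (by decide +kernel) hAF4 smithF4 (by decide) (by
        rw [Int.natCast_natAbs]; congr 1; simp [r4, Finset.sum_range_succ]; ring)
  · exact Cyc.exists_order (wd := [0, 1, 2]) (V := [[0, 1, -1, 0], [1, -1, 0, 0], [-1, 0, 0, 0], [0, -1, 1, -1]]) (a := [[0, 0, -1, 0], [0, -1, -1, 0],
      [-1, -1, -1, 0], [-1, 0, 0, -1]]) (b := [1, 0, -1, 1]) (by decide +kernel) hAF4 smithF4 (by decide) (by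
        rw [Int.natCast_natAbs]; congr 1; simp [r4, Finset.sum_range_succ]; ring)
  · exact Cyc.exists_order (wd := [2, 1, 2, 0, 1, 3]) (V := [[1, 0, 0, 0], [0, -1, 1, 0], [-1, 0, 1, -1], [0, -1, 1, -1]])
      (a := [[1, 0, 0, 0], [1, 0, 1, -1], [1, 1, 1, -1], [0, 1, 0, -1]]) (b := [0, 0, 0, -1]) (by decide +kernel) hAF4 smithF4 (by decide) (by
        rw [Int.natCast_natAbs, ← abs_neg]; congr 1; simp [r4, Finset.sum_range_succ]; ring)
  · exact Cyc.exists_order (wd := [0, 1, 2, 3]) (V := [[0, 1, 0, 0], [1, 1, 0, -1], [1, 2, -1, -1], [2, 1, -1, -1]]) (a := [[1, 0, -1, 1], [1, 0, 0, 0],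
      [1, 1, -1, 0], [2, -1, -1, 1]]) (b := [0, 1, 0, -1]) (by decide +kernel) hAF4 smithF4 (by decide) (by
        rw [Int.natCast_natAbs, ← abs_neg]; congr 1; simp [r4, Finset.sum_range_succ]; ring)

theorem dvd_cast_iff {r : ℕ} (N : ℤ) : (r : ℤ) ∣ N ↔ (N : ZMod r) = 0 := (ZMod.intCast_zmod_eq_zero_iff_dvd N r).symm

theorem F4_odd [CharP F 2] (hq : Fintype.card F = q) {r s : ℕ} [hr : Fact r.Prime] [hs : Fact s.Prime] (h : r ≠ s) (r2 : r ≠ 2) (s2 : s ≠ 2) :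
    (∃ x : chevF4.group F, orderOf x = r * s) ↔ ∃ N : ℤ, (N = q ^ 4 - 1 ∨ N = (q ^ 3 - 1) * (q + 1) ∨ N = (q ^ 3 + 1) * (q - 1) ∨ N = q ^ 4 + 1 ∨
      N = q ^ 4 - q ^ 2 + 1) ∧ (r : ℤ) ∣ N ∧ (s : ℤ) ∣ N := by
  have c2 : (r * s).Coprime 2 := .mul_left ((Nat.coprime_primes hr.out Nat.prime_two).2 r2) ((Nat.coprime_primes hs.out Nat.prime_two).2 s2)
  refine ⟨fun ⟨x, e⟩ => ?_, fun ⟨N, hN, h1, h2⟩ => ?_⟩
  · obtain ⟨j, hj⟩ := spec_F4 2 hq x
    have k : ∀ N : ℤ, (orderOf x : ℤ) ∣ N → (r : ℤ) ∣ N ∧ (s : ℤ) ∣ N := fun N h => by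
      rw [e, Nat.cast_mul] at h; exact ⟨(dvd_mul_right _ _).trans h, (dvd_mul_left _ _).trans h⟩
    have k' : ∀ N : ℤ, (orderOf x : ℤ) ∣ (2 : ℕ) ^ j * N → (r : ℤ) ∣ N ∧ (s : ℤ) ∣ N := fun N h =>
      k N ((Nat.isCoprime_iff_coprime.2 (e ▸ c2)).pow_right.dvd_of_dvd_mul_left h)
    rcases hj with h | h | h | h | h
    exacts [⟨_, by simp, k' _ h⟩, ⟨_, by simp, k' _ h⟩, ⟨_, by simp, k' _ h⟩, ⟨_, by simp, k _ h⟩, ⟨_, by simp, k _ h⟩]
  have h3 : r * s ∣ N.natAbs := ((Nat.coprime_primes hr.out hs.out).2 h).mul_dvd_of_dvd_of_dvd (Int.natCast_dvd.1 h1) (Int.natCast_dvd.1 h2)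
  rcases hN with rfl | hN
  · exact VyT.exists_order (D := chevF4) (wd := [1, 2, 1, 2, 3]) (d := 4) (y := [1, 1, 0, 0]) (μ := [1, 1, -1, 0]) (g := [2, 0, 0, 0]) (by decide +kernel)
      hAF4 smithF4 (by decide) hq (by rwa [← Int.natCast_dvd_natCast, Nat.cast_sub (Nat.one_le_pow _ _ (hq ▸ Fintype.card_pos)), Int.natCast_dvd,
        Nat.cast_pow]) (by simpa [evZ] using c2)
  · obtain ⟨x, e⟩ := F4_orders hq N hN
    exact exists_of_dvd_orderOf (e ▸ h3)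

theorem F4_two [CharP F 2] (hq : Fintype.card F = q) {s : ℕ} [hs : Fact s.Prime] (s2 : s ≠ 2) (h : orderOf (q : ZMod s) ∈ [1, 2, 3, 4, 6, 8, 12]) :
    (∃ x : chevF4.group F, orderOf x = 2 * s) ↔ orderOf (q : ZMod s) ∉ ({8, 12} : Finset ℕ) := by
  obtain ⟨n, -, hn⟩ := FiniteField.card F 2
  obtain ⟨k1, k2, k3, -⟩ := f4_ord s2 (q : ZMod s)
  refine ⟨fun ⟨x, e⟩ h => ?_, fun h' => ?_⟩
  · obtain ⟨j, hj⟩ := spec_F4 2 hq x
    have k : ∀ N : ℤ, (orderOf x : ℤ) ∣ (2 : ℕ) ^ j * N → (N : ZMod s) = 0 := fun N h => (dvd_cast_iff N).1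
      ((Nat.isCoprime_iff_coprime.2 ((Nat.coprime_primes hs.out Nat.prime_two).2 s2)).pow_right.dvd_of_dvd_mul_left
        ((Int.natCast_dvd_natCast.2 (e ▸ dvd_mul_left _ _)).trans h))
    have k' : ∀ N : ℤ, ¬ (orderOf x : ℤ) ∣ q * N + 1 := fun N h => by
      have h1 : (2 : ℤ) ∣ q * N := Dvd.dvd.mul_right (by rw [← hq, hn]; exact_mod_cast dvd_pow_self 2 n.ne_zero) _
      have h2 : (2 : ℤ) ∣ orderOf x := by rw [e]; simp
      have := h2.trans h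
      omega
    simp only [Finset.mem_insert, Finset.mem_singleton] at h
    rcases hj with h1 | h1 | h1 | h1 | h1
    · have := k1.1 (by simpa using k _ h1)
      rcases h with h | h <;> simp [h] at this
    · have := k2.1 (by simpa using k _ h1)
      rcases h with h | h <;> simp [h] at this
    · have := k3.1 (by simpa using k _ h1)
      rcases h with h | h <;> simp [h] at this
    · exact k' (q ^ 3) (by convert h1 using 1; ring)
    · exact k' (q ^ 3 - q) (by convert h1 using 1; ring)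
  have k : ∀ wd y μ g es, VyT 4 caF4L wd (orderOf (q : ZMod s)) y μ g ∧ OrthT (tab chevF4) wd y 47 ∧ GhT (orderOf (q : ZMod s)) g [1] es →
      ∃ x : chevF4.group F, orderOf x = 2 * s := fun wd y μ g es h => mul_comm s 2 ▸ h.1.exists_order_p (D := chevF4) hAF4 smithF4 (by decide)
        ⟨47, by decide⟩ h.2.1 2 hq ((dvd_pow_sub_iff (hq ▸ Fintype.card_pos)).2 dvd_rfl)
        (hs.out.coprime_iff_not_dvd.2 (mt Int.natCast_dvd.2 (h.2.2.not_dvd hs.out)))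
  simp only [List.mem_cons, List.not_mem_nil, or_false] at h
  rcases h with h | h | h | h | h | h | h <;> rw [h] at k h'
  · exact k [] [0, 0, 1, 0] [0, 0, 1, 0] [1] [] (by rw [tabF4_eq]; decide +kernel)
  · exact k [0] [0, 1, 0, 0] [-1, 1, 0, 0] [1, 0] [] (by rw [tabF4_eq]; decide +kernel)
  · exact k [0, 1] [0, 0, 1, 0] [0, -1, 1, 0] [1, 0, 0] [] (by rw [tabF4_eq]; decide +kernel)
  · exact k [1, 2] [0, 0, 1, 0] [0, 1, -1, 0] [-1, 0, 1, 0] [2] (by rw [tabF4_eq]; decide +kernel)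
  · exact k [0, 1, 2] [0, 0, 1, 0] [0, 1, -1, 0] [-1, 0, 0, 1, 0, 0] [3] (by rw [tabF4_eq]; decide +kernel)
  all_goals simp at h'

theorem F4_ord (hq : Fintype.card F = q) {s : ℕ} [hs : Fact s.Prime] (h1 : ¬ s ∣ q) (h : s ∣ Nat.card (chevF4.group F)) :
    orderOf (q : ZMod s) ∈ [1, 2, 3, 4, 6, 8, 12] := by
  have : ∀ e, e ∣ 8 ∨ e ∣ 12 → e ∈ [1, 2, 3, 4, 6, 8, 12] := fun e h => by
    have : e ≤ 12 := h.elim (fun h => (Nat.le_of_dvd (by omega) h).trans (by omega)) (Nat.le_of_dvd (by omega))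
    interval_cases e <;> simp_all
  simp only [Cfsg.Agent.S1062.result hq, hs.out.dvd_mul, dvd_pow_sub_iff (show 1 ≤ q from hq ▸ Fintype.card_pos)] at h
  refine this _ ?_
  rcases h with (((h | h) | h) | h) | h
  exacts [(h1 (hs.out.dvd_of_dvd_pow h)).elim, .inl (h.trans (by decide)), .inr (h.trans (by decide)), .inl h, .inr h]

end H12
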