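import Cfsg.Agent.H12.Spec
import Mathlib.NumberTheory.Multiplicity
import Mathlib.RingTheory.Polynomial.Cyclotomic.Basic

/-! Elements of twisted tori from linear functionals (`vy`, `FM.vy_mem`), valuations of `q ^ e - 1` (`val_cyc`, `val_prod`) and homocyclic
Sylow subgroups in cross characteristic (`HomA.sylow`). -/

set_option autoImplicit false

namespace H12
open Cfsg.Lie H13 StSys Polynomial

section nt
variable {q r : ℕ}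

theorem dvd_pow_sub_iff (hq : 1 ≤ q) {e : ℕ} : r ∣ q ^ e - 1 ↔ orderOf (q : ZMod r) ∣ e := by
  rw [orderOf_dvd_iff_pow_eq_one, ← ZMod.natCast_eq_zero_iff, Nat.cast_sub (Nat.one_le_pow _ _ hq), sub_eq_zero]; simp
theorem dvd_pow_sub_iff' {e : ℕ} : (r : ℤ) ∣ (q : ℤ) ^ e - 1 ↔ orderOf (q : ZMod r) ∣ e := by
  rw [orderOf_dvd_iff_pow_eq_one, ← ZMod.intCast_zmod_eq_zero_iff_dvd]; simp [sub_eq_zero]
variable [hr : Fact r.Prime]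
theorem ord_pos (h : ¬ r ∣ q) : 0 < orderOf (q : ZMod r) :=
  (isOfFinOrder_iff_pow_eq_one.2 ⟨r - 1, Nat.sub_pos_of_lt hr.out.one_lt, ZMod.pow_card_sub_one_eq_one
    (mt (ZMod.natCast_eq_zero_iff _ _).1 h)⟩).orderOf_pos

theorem val_cyc (hq : 2 ≤ q) (h : ¬ r ∣ q) : padicValNat r ((cyclotomic (orderOf (q : ZMod r)) ℤ).eval (q : ℤ)).natAbs =
    padicValNat r (q ^ orderOf (q : ZMod r) - 1) := by
  have h0 := ord_pos h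
  have h1 : 1 < q ^ orderOf (q : ZMod r) := Nat.one_lt_pow h0.ne' hq
  have e := congrArg (fun f => (eval (q : ℤ) f).natAbs) (prod_cyclotomic_eq_X_pow_sub_one h0 ℤ)
  simp only [← Nat.cons_self_properDivisors h0.ne', Finset.prod_cons, eval_mul, Int.natAbs_mul, eval_sub, eval_pow, eval_X, eval_one] at e
  have e' : ((q : ℤ) ^ orderOf (q : ZMod r) - 1).natAbs = q ^ orderOf (q : ZMod r) - 1 := by
    rw [← Nat.cast_pow, ← Nat.cast_one (R := ℤ), ← Nat.cast_sub h1.le, Int.natAbs_natCast]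
  have h2 := mul_ne_zero_iff.1 (e.trans e' ▸ (Nat.sub_pos_of_lt h1).ne')
  rw [← e', ← e, padicValNat.mul h2.1 h2.2, eq_comm, add_eq_left]
  refine padicValNat.eq_zero_of_not_dvd ?_
  rw [← Int.natCast_dvd, eval_prod, (Nat.prime_iff_prime_int.1 hr.out).dvd_finset_prod_iff]
  rintro ⟨i, hi, h3⟩
  obtain ⟨h4, h5⟩ := Nat.mem_properDivisors.1 hi
  exact absurd (Nat.le_of_dvd (Nat.pos_of_dvd_of_pos h4 h0) (dvd_pow_sub_iff'.1 (h3.trans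
    (by simpa using eval_dvd (x := (q : ℤ)) (cyclotomic.dvd_X_pow_sub_one i ℤ))))) h5.not_ge

theorem val_prod (hq : 2 ≤ q) (h : ¬ r ∣ q) (h2 : Odd r) {L : List ℕ} (hL : ¬ r ∣ L.prod) : padicValNat r (L.map (q ^ · - 1)).prod =
    (L.filter (orderOf (q : ZMod r) ∣ ·)).length * padicValNat r (q ^ orderOf (q : ZMod r) - 1) ∧ (L.map (q ^ · - 1)).prod ≠ 0 := by
  induction L with
  | nil => simp
  | cons e L ih =>
    rw [List.prod_cons, hr.out.dvd_mul, not_or] at hL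
    have h0 : e ≠ 0 := fun h => hL.1 (h ▸ dvd_zero r)
    have h1 : q ^ e - 1 ≠ 0 := (Nat.sub_pos_of_lt (Nat.one_lt_pow h0 hq)).ne'
    obtain ⟨ih, ih'⟩ := ih hL.2
    refine ⟨?_, by simpa using ⟨h1, by simpa using ih'⟩⟩
    rw [List.map_cons, List.prod_cons, padicValNat.mul h1 ih', ih, List.filter_cons]
    split_ifs with h3
    · obtain ⟨k, rfl⟩ := of_decide_eq_true h3
      have := padicValNat.pow_sub_pow h2 (Nat.one_lt_pow (ord_pos h).ne' hq) ((dvd_pow_sub_iff (by omega)).2 dvd_rfl)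
        (mt hr.out.dvd_of_dvd_pow h) (n := k) (by rintro rfl; simp at h0)
      rw [one_pow, padicValNat.eq_zero_of_not_dvd (n := k) fun h => hL.1 (h.mul_left _)] at this
      rw [pow_mul, this, List.length_cons]; ring
    · rw [padicValNat.eq_zero_of_not_dvd (mt (dvd_pow_sub_iff (by omega)).1 (by simpa using h3)), zero_add]
end nt

def evZ (q : ℤ) : List ℤ → ℤ
  | [] => 0
  | a :: l => a + q * evZ q l
def padd : List ℤ → List ℤ → List ℤ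
  | [], b => b
  | a, [] => a
  | x :: a, y :: b => (x + y) :: padd a b
def pmul : List ℤ → List ℤ → List ℤ
  | [], _ => []
  | x :: a, b => padd (b.map (x * ·)) (0 :: pmul a b)
theorem evZ_padd (q : ℤ) : ∀ a b, evZ q (padd a b) = evZ q a + evZ q b
  | [], _ => by simp [padd, evZ]
  | _ :: _, [] => by simp [padd, evZ]
  | _ :: a, _ :: b => by simp only [padd, evZ, evZ_padd q a b]; ring
theorem evZ_map (q x : ℤ) (b : List ℤ) : evZ q (b.map (x * ·)) = x * evZ q b := by induction b <;> simp_all [evZ, mul_add, mul_left_comm]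
theorem evZ_pmul (q : ℤ) (a b : List ℤ) : evZ q (pmul a b) = evZ q a * evZ q b := by
  induction a <;> simp_all [pmul, evZ, evZ_padd, evZ_map, add_mul, mul_assoc]
theorem evZ_zero (q : ℤ) {a : List ℤ} (h : ∀ x ∈ a, x = 0) : evZ q a = 0 := by induction a <;> simp_all [evZ]
theorem evZ_pow (q : ℤ) (e : ℕ) : evZ q (List.replicate e 0 ++ [1]) = q ^ e := by induction e <;> simp_all [evZ, List.replicate_succ, pow_succ']
def prodE : List ℕ → List ℤ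
  | [] => [1]
  | e :: l => pmul (padd [-1] (List.replicate e 0 ++ [1])) (prodE l)
theorem evZ_prodE (q : ℤ) (l : List ℕ) : evZ q (prodE l) = (l.map (q ^ · - 1)).prod := by
  induction l <;> simp_all [prodE, evZ, evZ_pmul, evZ_padd, evZ_pow, neg_add_eq_sub]
/-- `g h = ∏ (x ^ e - 1)` with all `e < d` -/
def GhT (d : ℕ) (g h : List ℤ) (es : List ℕ) : Prop := (∀ e ∈ es, 0 < e ∧ e < d) ∧ ∀ x ∈ padd (pmul g h) ((prodE es).map (-1 * ·)), x = 0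
instance decGhT (d : ℕ) (g h : List ℤ) (es : List ℕ) : Decidable (GhT d g h es) := by unfold GhT; infer_instance
theorem GhT.not_dvd {q r : ℕ} (hr : r.Prime) {g h : List ℤ} {es : List ℕ} (H : GhT (orderOf (q : ZMod r)) g h es) : ¬ (r : ℤ) ∣ evZ q g := fun c => by
  have := evZ_zero q H.2
  rw [evZ_padd, evZ_pmul, evZ_map, evZ_prodE, neg_one_mul, add_neg_eq_zero] at this
  obtain ⟨_, h1, h2⟩ := (Nat.prime_iff_prime_int.1 hr).dvd_prod_iff.1 (this ▸ c.mul_right _)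
  obtain ⟨e, he, rfl⟩ := List.mem_map.1 h1
  exact absurd (Nat.le_of_dvd (H.1 e he).1 (dvd_pow_sub_iff'.1 h2)) (H.1 e he).2.not_ge

variable {D : ChevalleyDatum} [G : Good D]

noncomputable def vy (w : W D) (y : Λ D →ₗ[ℤ] ℤ) (q : ℤ) (d : ℕ) : Λ D →ₗ[ℤ] ℤ := ∑ j ∈ Finset.range d, q ^ j • y ∘ₗ wL (w ^ j)
theorem vy_succ (w : W D) (y : Λ D →ₗ[ℤ] ℤ) (q : ℤ) (d : ℕ) (μ : Λ D) : vy w y q (d + 1) μ = y μ + q * vy w y q d (wL w μ) := by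
  simp [vy, Finset.sum_range_succ', pow_succ, wL_mul, Finset.mul_sum, add_comm, mul_left_comm, mul_comm, mul_assoc]
theorem vy_succ' (w : W D) (y : Λ D →ₗ[ℤ] ℤ) (q : ℤ) (d : ℕ) (μ : Λ D) : vy w y q (d + 1) μ = vy w y q d μ + q ^ d * y (wL (w ^ d) μ) := by
  simp [vy, Finset.sum_range_succ]

noncomputable def seqL (l : ℕ) (A : List (List ℤ)) (wd : List ℕ) (y : List ℤ) : ℕ → List ℤ → List ℤ
  | 0, _ => []
  | d + 1, μ => (sumLt l fun i => μ.getD i 0 * y.getD i 0) :: seqL l A wd y d (runL A wd μ)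
theorem vy_seqL {A : List (List ℤ)} (hA : CaL D A) (l : List (I D)) (y : List ℤ) (q : ℤ) (d : ℕ) {μ : List ℤ} (h : μ.length = D.rank) :
    vy (wp l) (lfun D y) q d (toΛ D μ) = evZ q (seqL D.rank A (l.map Fin.val) y d μ) := by
  induction d generalizing μ with
  | zero => simp [vy, seqL, evZ]
  | succ d ih =>
    rw [vy_succ, seqL, evZ, ← ih (toΛ_runL hA h l).1, (toΛ_runL hA h l).2, sumLt_eq]
    simp [lfun, Fintype.linearCombination_apply, toΛ]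

def PowT (l : ℕ) (A : List (List ℤ)) (wd : List ℕ) (d : ℕ) : Prop := (∀ j ∈ wd, j < l) ∧ ∀ i < l, (runL A wd)^[d] (eL l i) = eL l i
noncomputable instance decPowT (l : ℕ) (A : List (List ℤ)) (wd : List ℕ) (d : ℕ) : Decidable (PowT l A wd d) := by unfold PowT; infer_instance
theorem PowT.exists {A : List (List ℤ)} (hA : CaL D A) {wd : List ℕ} {d : ℕ} (h : PowT D.rank A wd d) :
    ∃ l : List (I D), l.map Fin.val = wd ∧ wp l ^ d = 1 := by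
  obtain ⟨l, rfl⟩ := exists_map_val h.1
  have k : ∀ d (μ : List ℤ), μ.length = D.rank → toΛ D ((runL A (l.map Fin.val))^[d] μ) = wL (wp l ^ d) (toΛ D μ) := fun d => by
    induction d with
    | zero => simp
    | succ d ih => exact fun μ hμ => by rw [Function.iterate_succ_apply, ih _ (toΛ_runL hA hμ l).1, (toΛ_runL hA hμ l).2, pow_succ, wL_mul]
  have : wL (wp l ^ d) = LinearMap.id := LinearMap.pi_ext' fun i => LinearMap.ext_ring (by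
    simpa [h.2 i i.2, toΛ_eL] using (k d _ (length_eL _ i)).symm)
  exact ⟨l, rfl, W_ext fun r => wt_injective (by rw [← wL_wt, this, one_smul]; rfl)⟩

section fm
variable {k : Type*} [Field k] {p : ℕ} [hp : Fact p.Prime] [CharP k p] {G₀ : Type*} [Group G₀] (m : FM D k p G₀)

theorem FM.vy_mem (hP : m.P = LinearMap.id) {w : W D} {d : ℕ} (hw : w ^ d = 1) (y : Λ D →ₗ[ℤ] ℤ) {ζ : kˣ} (hζ : ζ ^ m.q ^ d = ζ) :
    (fun i => ζ ^ vy w y m.q d (Pi.single i 1)) ∈ m.TF w⁻¹ := m.mem_TF'.2 fun μ => by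
  have := congrArg (ζ ^ ·) ((vy_succ w y m.q d μ).symm.trans (vy_succ' w y m.q d μ))
  simp only [hw, wL_one, zpow_add, ← Nat.cast_pow] at this
  rw [zpow_mul ζ (m.q ^ d : ℕ), zpow_natCast, hζ, mul_comm, mul_left_inj] at this
  rw [hP, inv_inv, LinearMap.id_apply, tch_zpow_lin, tch_zpow_lin, ← this, mul_comm, zpow_mul, zpow_natCast]

theorem FM.exists_order_mul [IsAlgClosed k] [SC D] (hi : Function.Injective m.π) {w : W D} {n u : D.SteinbergGroup k} (hn : (stS D k).Rep n w) {c : I D → kˣ}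
    (hc : c ∈ m.TF w) (hu : u ∈ m.Fix) (h1 : Commute n u) (h2 : Commute ((stS D k).hl c) u) (h3 : (orderOf c).Coprime (orderOf u)) :
    ∃ x : G₀, orderOf x = orderOf c * orderOf u := by
  obtain ⟨g, h⟩ := m.exists_lang n
  have e : orderOf ((stS D k).hl c) = orderOf c := orderOf_injective r3_st.hprod (hi_st k) c
  refine ⟨m.π ⟨g * (stS D k).hl c * g⁻¹ * (g * u * g⁻¹), mul_mem ((m.conj_mem_Fix hn h).2 hc) (m.mem_Fix.2 ?_)⟩, ?_⟩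
  · rw [map_mul, map_mul, map_inv, m.mem_Fix.1 hu, eq_inv_mul_iff_mul_eq.1 h |>.symm, mul_assoc g, h1.eq]; group
  · rw [orderOf_injective _ hi, Subgroup.orderOf_mk, conj_mul, ← MulAut.conj_apply, MulEquiv.orderOf_eq,
      h2.orderOf_mul_eq_mul_orderOf_of_coprime (e ▸ h3), e]
end fm

def idL (l : ℕ) (a : ℤ) : List (List ℤ) := (List.range l).map fun i => (eL l i).map (a * ·)
def ghL : List (ℕ × List ℤ × List ℤ × List ℕ) := [(1, [1], [1], []), (2, [-1, 1], [1], [1]), (3, [-1, 1, 0], [1], [1]), (4, [-1, 0, 1, 0], [1], [2]),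
  (5, [-1, 1, 0, 0, 0], [1], [1]), (6, [-1, -1, 0, 1, 1, 0], [-1, 1], [3, 2]), (7, [-1, 1, 0, 0, 0, 0, 0], [1], [1]), (8, [-1, 0, 0, 0, 1, 0, 0, 0],
  [1], [4]), (9, [-1, 0, 0, 1, 0, 0, 0, 0, 0], [1], [3]), (10, [-1, -1, 0, 0, 0, 1, 1, 0, 0, 0], [-1, 1], [5, 2]), (12, [-1, 0, -1, 0, 0, 0, 1, 0, 1,
  0, 0, 0], [-1, 0, 1], [6, 4]), (14, [-1, -1, 0, 0, 0, 0, 0, 1, 1, 0, 0, 0, 0, 0], [-1, 1], [7, 2]), (15, [-1, -1, -1, 0, 0, 1, 1, 1, 0, 0, 0, 0, 0,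
  0, 0], [-1, 1], [5, 3]), (18, [-1, 0, 0, -1, 0, 0, 0, 0, 0, 1, 0, 0, 1, 0, 0, 0, 0, 0], [-1, 0, 0, 1], [9, 6]), (20, [-1, 0, -1, 0, 0, 0, 0, 0, 0,
  0, 1, 0, 1, 0, 0, 0, 0, 0, 0, 0], [-1, 0, 1], [10, 4]), (24, [-1, 0, 0, 0, -1, 0, 0, 0, 0, 0, 0, 0, 1, 0, 0, 0, 1, 0, 0, 0, 0, 0, 0, 0], [-1, 0, 0,
  0, 1], [12, 8]), (30, [-1, 1, -1, 0, 0, -1, 1, -1, 0, 0, 0, 0, 0, 0, 0, 1, -1, 1, 0, 0, 1, -1, 1, 0, 0, 0, 0, 0, 0, 0], [1, 1, 0, -1, -1, -1, -1, 0,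
  1, 1], [15, 10, 6])]
def HomA (l : ℕ) (A : List (List ℤ)) (degs : List ℕ) (C : List (ℕ × List ℕ × ℕ × List (List ℤ) × List (List ℤ))) : Prop :=
  (∀ e ∈ degs, ∀ d ∈ e.divisors, d ∈ C.map (·.1)) ∧ ∀ c ∈ C, PowT l A (List.replicate c.2.2.1 c.2.1).flatten c.1 ∧
    ∃ g ∈ ghL, GhT c.1 g.2.1 g.2.2.1 g.2.2.2 ∧ ∀ b < (degs.filter (c.1 ∣ ·)).length, (c.2.2.2.2.getD b []).length = l ∧
      ∀ b' < (degs.filter (c.1 ∣ ·)).length, seqL l A (List.replicate c.2.2.1 c.2.1).flatten (c.2.2.2.1.getD b' []) c.1 (c.2.2.2.2.getD b []) =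
        if b = b' then g.2.1 else List.replicate c.1 0
noncomputable instance decHomA (l : ℕ) (A : List (List ℤ)) (degs : List ℕ) (C : List (ℕ × List ℕ × ℕ × List (List ℤ) × List (List ℤ))) :
    Decidable (HomA l A degs C) := by unfold HomA; infer_instance

theorem HomA.sylow [SC D] {A : List (List ℤ)} (hA : CaL D A) {degs : List ℕ} {C : List (ℕ × List ℕ × ℕ × List (List ℤ) × List (List ℤ))}
    (h : HomA D.rank A degs C) {P P' Q Q' : List (List ℤ)} {dl : List ℕ} (hS : Smith (tab D) P P' Q Q' dl) (hd : ∀ i < D.rank, dl.getD i 0 ∣ degs.prod)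
    (h2 : 2 ∣ degs.prod) {F : Type*} [Field F] [Fintype F] {q z N : ℕ} (hq : Fintype.card F = q) (hz : z ∣ degs.prod)
    (hG : z * Nat.card (D.group F) = q ^ N * (degs.map (q ^ · - 1)).prod) {r : ℕ} [hr : Fact r.Prime] (hrq : ¬ r ∣ q) (hrW : ¬ r ∣ degs.prod)
    (hrG : r ∣ Nat.card (D.group F)) (S : Sylow r (D.group F)) : Nonempty (S ≃* (Fin (degs.filter (fun e => orderOf (q : ZMod r) ∣ e)).length →
      Multiplicative (ZMod (r ^ padicValNat r ((cyclotomic (orderOf (q : ZMod r)) ℤ).eval (q : ℤ)).natAbs)))) := by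
  have q2 : 2 ≤ q := hq ▸ Fintype.one_lt_card
  obtain ⟨p, hp, n, h1, h3⟩ := FiniteField.card' F
  haveI := Fact.mk h1
  obtain ⟨m, e1, e2⟩ := exists_fm D F p
  rw [Nat.card_eq_fintype_card, hq] at e1
  have := m.finite
  rw [val_cyc q2 hrq]
  obtain ⟨v1, v2⟩ := val_prod q2 hrq (hr.out.odd_of_ne_two fun e => hrW (e ▸ h2)) hrW
  obtain ⟨_, h4, h5⟩ := hr.out.prime.dvd_prod_iff.1 ((hr.out.dvd_mul.1 (hG ▸ hrG.mul_left z)).resolve_left (mt hr.out.dvd_of_dvd_pow hrq))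
  obtain ⟨e, he, rfl⟩ := List.mem_map.1 h4
  obtain ⟨c, hc, e3⟩ := List.mem_map.1 (h.1 e he _ (Nat.mem_divisors.2 ⟨(dvd_pow_sub_iff (q := q) (r := r) (by omega)).1 h5, fun e0 => hrW
    ((e0 ▸ dvd_zero r).trans (List.dvd_prod he))⟩))
  obtain ⟨h6, g, -, h7, h8⟩ := h.2 c hc
  obtain ⟨l, e4, h9⟩ := h6.exists hA
  rw [← e4, e3] at h8
  rw [e3] at h7 h9
  have h10 := h7.not_dvd hr.out
  set d := orderOf (q : ZMod r)
  set a := padicValNat r (q ^ d - 1)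
  set M := (degs.filter (d ∣ ·)).length
  obtain ⟨ζ, hζ, -⟩ := exists_prim (k := AlgebraicClosure F) p (N := r ^ a) fun e => hrq (by
    rw [← (Nat.prime_dvd_prime_iff_eq h1 hr.out).1 (h1.dvd_of_dvd_pow e), ← hq, h3]; exact dvd_pow_self p n.ne_zero)
  have k1 : ∀ t : Subgroup.zpowers ζ, t.1 ^ r ^ a = 1 := fun t => orderOf_dvd_iff_pow_eq_one.1 (hζ ▸ orderOf_dvd_of_mem_zpowers t.2)
  let ψ : (Fin M → Subgroup.zpowers ζ) →* m.TF (wp l)⁻¹ := MonoidHom.mk' (fun t => ∏ b : Fin M, ⟨_, m.vy_mem e2 h9 (lfun D (c.2.2.2.1.getD b [])) (ζ := t b) (by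
    obtain ⟨j, e⟩ : r ^ a ∣ q ^ d - 1 := pow_padicValNat_dvd
    rw [e1, ← Nat.sub_add_cancel (Nat.one_le_pow d q (by omega)), e, pow_succ, pow_mul, k1, one_pow, one_mul])⟩) fun s t => by
      rw [← Finset.prod_mul_distrib]; exact Finset.prod_congr rfl fun b _ => Subtype.ext (funext fun i => mul_zpow _ _ _)
  obtain ⟨x, hx⟩ := m.exists_lang ((stS D _).nr (wp l)⁻¹)
  have hi : Function.Injective (m.π.comp ((m.tor (rep_nr _) hx).comp ψ)) := (injective_iff_map_eq_one _).2 fun t ht => funext fun b => by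
    have k2 : (ψ t).1 = 1 := by
      have := pow_gcd_eq_one.2 ⟨hS.pow_eq_one hd ((m.π_tor_eq_one (rep_nr _) hx).1 ht), show (ψ t).1 ^ r ^ a = 1 by
        rw [← Subgroup.coe_pow, ← map_pow, show t ^ r ^ a = 1 from funext fun b => Subtype.ext (k1 _), map_one]; rfl⟩
      rwa [((hr.out.coprime_iff_not_dvd.2 hrW).symm.pow_right a).gcd_eq_one, pow_one] at this
    have k3 := congrArg (MonoidHom.mk' (tch · (toΛ D (c.2.2.2.2.getD b []))) fun x y => mul_tch x y _) k2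
    simp only [ψ, MonoidHom.mk'_apply, SubmonoidClass.coe_finset_prod, _root_.map_prod, tch_zpow_lin, vy_seqL hA l _ _ _ (h8 b b.2).1,
      fun b' : Fin M => (h8 b b.2).2 b' b'.2, map_one, Fin.val_inj] at k3
    rw [Finset.prod_eq_single b (fun b' _ e => by rw [if_neg e.symm, evZ_zero _ (by simp), zpow_zero]) (by simp), if_pos rfl,
      ← orderOf_dvd_iff_zpow_eq_one, Int.natCast_dvd, e1] at k3
    exact Subtype.ext (orderOf_eq_one_iff.1 (Nat.eq_one_of_dvd_coprimes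
      ((hr.out.coprime_iff_not_dvd.2 (mt Int.natCast_dvd.2 h10)).pow_left a) (orderOf_dvd_of_pow_eq_one (k1 _)) k3))
  have hc : Nat.card (Subgroup.zpowers ζ) = r ^ a := (Nat.card_zpowers ζ).trans hζ
  refine ⟨((S.equiv (Sylow.ofCard _ ?_)).trans (MonoidHom.ofInjective hi).symm).trans
    (MulEquiv.piCongrRight fun _ => (hc ▸ zmodCyclicMulEquiv inferInstance).symm)⟩
  have := congrArg (padicValNat r) hG
  rw [padicValNat.mul (ne_zero_of_dvd_ne_zero (fun e : degs.prod = 0 => hrW (e ▸ dvd_zero r)) hz) Nat.card_pos.ne', padicValNat.mul (by positivity) v2, v1,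
    padicValNat.eq_zero_of_not_dvd (fun e => hrW (e.trans hz)), padicValNat.eq_zero_of_not_dvd (mt hr.out.dvd_of_dvd_pow hrq), zero_add, zero_add] at this
  refine (Nat.card_congr (MonoidHom.ofInjective hi).toEquiv).symm.trans ?_
  rw [Nat.card_pi, Nat.factorization_def _ hr.out, this]
  simp [hc, ← pow_mul, mul_comm a]

theorem homG2 : HomA 2 caG2L [2, 6] [(1, [], 1, idL 2 1, idL 2 1), (2, [0, 1], 3, idL 2 (-1), idL 2 1), (3, [0, 1], 2, [[-1, -1]], [[1, 0]]), (6, [0,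
  1], 1, [[-1, -2]], [[1, 0]])] := by decide +kernel
theorem homB2 : HomA 2 caB2L [2, 4] [(1, [], 1, idL 2 1, idL 2 1), (2, [0, 1], 2, idL 2 (-1), idL 2 1), (4, [0, 1], 1, [[-1, -1]], [[1, 0]])] := by
  decide +kernel
theorem homD4 : HomA 4 caD4L [2, 4, 4, 6] [(1, [], 1, idL 4 1, idL 4 1), (2, [0, 2, 1, 3], 3, idL 4 (-1), idL 4 1), (3, [1, 2], 1, [[-1, 0, 0, 0]],
  [[1, -1, -1, 1]]), (4, [0, 1, 0, 2, 1, 3], 1, [[-1, -1, 0, -1], [0, -1, -1, 0]], [[1, 0, 0, 0], [0, 0, 1, 0]]), (6, [0, 2, 1, 3], 1, [[0, -1, 0,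
  0]], [[0, 1, 0, 0]])] := by decide +kernel
theorem homF4 : HomA 4 caF4L [2, 6, 8, 12] [(1, [], 1, idL 4 1, idL 4 1), (2, [0, 2, 1, 3], 6, idL 4 (-1), idL 4 1), (3, [0, 2, 1, 3], 4, [[-1, 0, 1,
  1], [0, -1, -2, -1]], [[1, 0, 0, 0], [0, 1, 0, 0]]), (4, [0, 2, 1, 3], 3, [[-1, 0, 1, 0], [0, -1, -2, -1]], [[1, 0, 0, 0], [0, 1, 0, 0]]), (6, [0,
  2, 1, 3], 2, [[-1, 0, 0, -1], [0, -1, -1, 0]], [[1, 0, 0, 0], [0, 1, 0, 0]]), (8, [3, 2, 1, 2, 1, 0], 1, [[-1, -1, -1, -1]], [[1, 0, 0, 0]]), (12,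
  [0, 2, 1, 3], 1, [[-1, -1, -1, -1]], [[1, 0, 0, 0]])] := by decide +kernel
theorem homE6 : HomA 6 caE6L [2, 5, 6, 8, 9, 12] [(1, [], 1, idL 6 1, idL 6 1), (2, [2, 3, 4, 1], 3, [[1, 0, 1, 1, 0, -1], [0, 1, 1, 1, 1, 1], [1, 0,
  0, -1, -1, -2], [-1, 0, -1, 0, 0, 1]], [[1, 0, 0, -1, 0, 1], [1, -1, -1, 0, 1, 0], [0, -1, 1, 0, -1, 1], [0, -1, 1, -1, 1, 0]]), (3, [1, 2, 5, 0, 3,
  4], 4, [[-1, 0, 0, 1, 1, 1], [0, -1, 0, -1, 0, 0], [0, 0, -1, -1, -1, -1]], [[1, 0, 0, 0, 0, 0], [0, 1, 0, 0, 0, 0], [0, 0, 1, 0, 0, 0]]), (4, [3,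
  4, 1, 2, 1, 5, 1], 2, [[-1, -1, -1, -1, 0, 0], [-1, -1, 0, -1, -1, -1]], [[1, 0, 0, 0, -1, 0], [1, 0, 0, -1, 0, 1]]), (5, [4, 3, 0, 2], 1, [[0, -2,
  -1, -2, -1, 0]], [[-1, 0, -1, 1, 0, 0]]), (6, [1, 2, 5, 0, 3, 4], 2, [[-1, -1, 0, 0, 0, 0], [0, 0, 0, -1, 0, 0]], [[0, 1, 0, 0, 0, 0], [0, 0, 0, 1,
  0, 0]]), (8, [3, 4, 1, 2, 1, 5, 1], 1, [[-1, -1, -1, -1, 0, 0]], [[1, 0, 0, 0, -1, 0]]), (9, [4, 3, 2, 1, 3, 5, 0, 1], 1, [[-1, -1, -1, -1, -1, 0]],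
  [[1, 0, 0, 0, 0, 0]]), (12, [1, 2, 5, 0, 3, 4], 1, [[-1, -1, 0, -1, 0, 0]], [[0, 1, 0, 0, 0, 0]])] := by decide +kernel
theorem homE7 : HomA 7 caE7L [2, 6, 8, 10, 12, 14, 18] [(1, [], 1, idL 7 1, idL 7 1), (2, [3, 1, 4, 6, 0, 2, 5], 9, idL 7 (-1), idL 7 1), (3, [3, 1,
  4, 0, 2, 5], 4, [[0, 0, -1, -1, -1, -1, -1], [1, 1, 2, 2, 1, 1, 1], [-1, -1, -1, -1, -1, -1, -1]], [[0, -1, 0, 0, 0, 0, 1], [0, 0, -1, 0, 0, 1, 0],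
  [0, 1, 0, -1, 0, 0, 1]]), (4, [1, 2, 3, 1, 4, 3], 1, [[1, 0, 1, 1, 0, -1, 0], [-1, 0, -1, -1, -1, 0, 0]], [[1, 0, 0, -1, 0, 1, 0], [1, -1, -1, 0, 1,
  0, 0]]), (5, [5, 1, 3, 4], 1, [[0, 0, -1, -1, 0, 1, 1]], [[0, -1, 1, 0, 0, -1, 1]]), (6, [3, 1, 4, 6, 0, 2, 5], 3, [[-1, 0, 0, 0, 0, -1, -1], [0, 0,
  -1, 0, 1, 1, 1], [0, -1, 0, -1, -1, -1, -1]], [[1, 0, 0, 0, 0, 0, 0], [0, 0, 1, 0, 0, 0, 0], [0, 0, 0, 1, 0, 0, 0]]), (7, [4, 6, 3, 0, 5, 2], 1,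
  [[-1, -3, -3, -5, -4, -3, -1]], [[-1, 1, 0, 0, 0, 0, -1]]), (8, [0, 3, 2, 1, 4], 1, [[1, 1, 2, 2, 1, 1, 0]], [[0, 0, -1, 0, 0, 1, 0]]), (9, [3, 4,
  0, 3, 1, 5, 3, 2], 1, [[1, 2, 2, 3, 2, 1, 1]], [[0, -1, 0, 0, 0, 0, 1]]), (10, [1, 6, 2, 5, 4, 3], 1, [[-1, -1, -1, -1, 0, 0, 0]], [[1, 0, 0, 0, 0,
  -1, 0]]), (12, [3, 1, 4, 0, 2, 5], 1, [[0, 1, 1, 1, 0, 0, 0]], [[0, -1, 0, 0, 0, 0, 1]]), (14, [0, 1, 2, 5, 3, 2, 1, 3, 6, 4, 2], 1, [[1, 0, -1, -1,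
  0, 0, 0]], [[0, 0, 1, 0, 0, 0, 0]]), (18, [3, 1, 4, 6, 0, 2, 5], 1, [[-1, 0, -1, -1, -1, -1, 0]], [[1, 0, 0, 0, 0, 0, 0]])] := by decide +kernel
theorem homE8 : HomA 8 caE8L [2, 8, 12, 14, 18, 20, 24, 30] [(1, [], 1, idL 8 1, idL 8 1), (2, [6, 3, 1, 5, 0, 4, 7, 2], 15, idL 8 (-1), idL 8 1), (3,
  [6, 3, 1, 5, 0, 4, 7, 2], 10, [[-1, 0, 0, 0, 0, 0, 1, 0], [0, -1, 0, 0, 1, 1, 0, 0], [0, 0, -1, 0, 1, 1, 0, 1], [0, 0, 0, -1, -2, -2, -1, -1]], [[1,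
  0, 0, 0, 0, 0, 0, 0], [0, 1, 0, 0, 0, 0, 0, 0], [0, 0, 1, 0, 0, 0, 0, 0], [0, 0, 0, 1, 0, 0, 0, 0]]), (4, [0, 5, 3, 6, 7, 1, 4, 3, 4, 2], 6, [[-1,
  0, 0, 0, 0, 0, -1, -1], [0, -1, 0, 0, 0, 0, 0, -1], [0, 0, -1, 0, 0, -1, 0, 1], [0, 0, 0, -1, -1, 0, 0, 0]], [[1, 0, 0, 0, 0, 0, 0, 0], [0, 1, 0, 0,
  0, 0, 0, 0], [0, 0, 1, 0, 0, 0, 0, 0], [0, 0, 0, 1, 0, 0, 0, 0]]), (5, [6, 3, 1, 5, 0, 4, 7, 2], 6, [[-1, 0, -1, -1, 0, 2, 1, 1], [0, -1, 0, -1, 0,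
  0, 1, 0]], [[1, 0, 0, 0, 0, 0, 0, 0], [0, 1, 0, 0, 0, 0, 0, 0]]), (6, [6, 3, 1, 5, 0, 4, 7, 2], 5, [[-1, 0, 0, 0, 0, 1, 1, 1], [0, -1, 0, 0, 0, -1,
  -1, 0], [0, 0, -1, 0, 0, -1, -2, -1], [0, 0, 0, -1, -1, 0, 1, 0]], [[1, 0, 0, 0, 0, 0, 0, 0], [0, 1, 0, 0, 0, 0, 0, 0], [0, 0, 1, 0, 0, 0, 0, 0],
  [0, 0, 0, 1, 0, 0, 0, 0]]), (7, [4, 5, 1, 6, 3, 7], 1, [[0, -1, -2, -3, -2, -1, -1, 0]], [[0, -1, 1, 0, 0, 0, 0, -1]]), (8, [0, 5, 3, 6, 7, 1, 4, 3,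
  4, 2], 3, [[-1, -1, 0, 0, -1, 1, 2, 0], [0, 0, -1, -1, 0, -1, -1, 0]], [[1, 0, 0, 0, 0, 0, 0, 0], [0, 0, 1, 0, 0, 0, 0, 0]]), (9, [6, 4, 2, 3, 5, 0,
  1], 2, [[1, 0, 1, 1, 0, 0, 1, 0]], [[-1, 0, 0, 0, 0, 0, 0, 1]]), (10, [6, 3, 1, 5, 0, 4, 7, 2], 3, [[-1, 0, -1, -1, 0, 1, 1, 0], [0, -1, 0, -1, -1,
  -1, 0, 0]], [[1, 0, 0, 0, 0, 0, 0, 0], [0, 1, 0, 0, 0, 0, 0, 0]]), (12, [0, 5, 3, 6, 7, 1, 4, 3, 4, 2], 2, [[-1, 0, -1, -1, 1, 0, -1, 0], [0, -1, 0,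
  -1, -1, 0, 0, -1]], [[1, 0, 0, 0, 0, 0, 0, 0], [0, 1, 0, 0, 0, 0, 0, 0]]), (14, [0, 6, 4, 2, 3, 5, 1, 4, 3], 1, [[-1, 1, 1, 1, 1, 1, 0, 0]], [[0,
  -1, 0, 0, 0, 0, 1, 0]]), (15, [6, 3, 1, 5, 0, 4, 7, 2], 2, [[-1, -2, -1, -2, -1, -1, 0, 0]], [[1, 0, 0, 0, 0, 0, 0, 0]]), (18, [6, 4, 2, 3, 5, 0,
  1], 1, [[1, 0, 1, 1, 0, 0, 0, 0]], [[-1, 0, 0, 0, 0, 0, 0, 1]]), (20, [3, 7, 4, 2, 5, 0, 4, 3, 6, 1, 4, 2], 1, [[-1, 0, 0, 0, 0, 0, 0, 0]], [[1, 0,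
  0, 0, 0, 0, 0, 0]]), (24, [0, 5, 3, 6, 7, 1, 4, 3, 4, 2], 1, [[-1, 0, -1, -1, -1, 0, 1, 1]], [[1, 0, 0, 0, 0, 0, 0, 0]]), (30, [6, 3, 1, 5, 0, 4, 7,
  2], 1, [[-1, 0, 0, 0, -1, -1, 0, 1]], [[1, 0, 0, 0, 0, 0, 0, 0]])] := by decide +kernel

end H12
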