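import Cfsg.Agent.H12.St
import Cfsg.Agent.H12.All

/-! Subgroups of `U` normalised by `B`: leading terms (`Lead`), purification by the torus (`Lead.kill`), the certificate `WcT` and the
theorem that weakly closed subgroups of `U` are unipotent radicals (`Cov.weakly_closed`). -/

set_option autoImplicit false

namespace H12
open Cfsg.Lie H13 StSys

variable {D : ChevalleyDatum} [G : Good D] {F : Type*} [Field F] {Γ : Type*} [Group Γ]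

def KillT (T : Tab) (ms : List ℤ) (r s : ℕ) : Prop := ∃ g < T.n, T.pr g s = 0 ∧ T.pr g r ∈ ms
def KabT (T : Tab) (ms : List ℤ) (r : ℕ) : Prop := ∀ s < T.n, r < s → KillT T ms r s
def TermT (T : Tab) (ns : List ℤ) (a b r : ℕ) (P : ℕ → Prop) : Prop := b ≠ a ∧ (∃ c ∈ T.terms a b, c.1 = r ∧ c.2.1 ∈ ns) ∧
  ∀ c ∈ T.terms a b, c.1 < r → P c.1
def WcT (T : Tab) (ms ns : List ℤ) : Prop := (∀ j < T.l, ∀ s < T.sim j, T.n ≤ 2 * s → KillT T ms (T.sim j) s) ∧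
  ∀ r < T.n, T.n ≤ 2 * r → ∃ j < T.l, r = T.sim j ∨ (∃ s ∈ T.refl j r :: List.range T.n, s < T.n ∧ T.n ≤ 2 * s ∧
    (∃ c ∈ T.terms (T.sim j) s, c.1 = r ∧ c.2.2 = (1, 1)) ∧
      TermT T ns (T.sim j) s r (fun _ => False) ∧ TermT T ns s (T.sim j) r (fun _ => False)) ∨
    (T.n ≤ 2 * T.refl j r ∧ T.refl j r < r ∧ KabT T ms (T.refl j r) ∧ KabT T ms (T.sim j) ∧
      ∃ s < T.n, T.n ≤ 2 * s ∧ TermT T ns (T.sim j) s r (KabT T ms))
noncomputable instance decKillT (T : Tab) (ms : List ℤ) (r s : ℕ) : Decidable (KillT T ms r s) := by unfold KillT; infer_instance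
noncomputable instance decKabT (T : Tab) (ms : List ℤ) (r : ℕ) : Decidable (KabT T ms r) := by unfold KabT; infer_instance
noncomputable instance decTermT (T : Tab) (ns : List ℤ) (a b r : ℕ) (P : ℕ → Prop) [DecidablePred P] : Decidable (TermT T ns a b r P) := by
  unfold TermT; infer_instance
noncomputable instance decWcT (T : Tab) (ms ns : List ℤ) : Decidable (WcT T ms ns) := by unfold WcT; infer_instance

theorem wcG2 : WcT (tab chevG2) [1, -1, 2, -2] [1, -1, 3, -3] ∧ WcT (tab chevG2) [1, -1, 2, -2, 3, -3] [1, -1] := by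
  rw [tabG2_eq]; decide +kernel
theorem wcB2 : WcT (tab chevB2) [1, -1, 2, -2] [1, -1] := by rw [tabB2_eq]; decide +kernel
theorem wcD4 : WcT (tab chevD4) [1, -1, 2, -2] [1, -1] := by rw [tabD4_eq]; decide +kernel
theorem wcF4 : WcT (tab chevF4) [1, -1, 2, -2] [1, -1] := by rw [tabF4_eq]; decide +kernel
theorem wcE6 : WcT (tab chevE6) [1, -1] [1, -1] := by rw [tabE6_eq]; decide +kernel
theorem wcE7 : WcT (tab chevE7) [1, -1] [1, -1] := by rw [tabE7_eq]; decide +kernel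
theorem wcE8 : WcT (tab chevE8) [1, -1] [1, -1] := by rw [tabE8_eq]; decide +kernel

theorem fl_lt_iff {r s : Φ D} : fl (wt r) < fl (wt s) ↔ r < s := fl_strictMono.lt_iff_lt (a := r) (b := s)

namespace StSys
variable {S : StSys D F Γ} {θ : Γ →* GL D.Idx F} {X : Subgroup Γ} {ms ns : List ℤ}

variable (S X) in
def Lead (Q : Set (Φ D)) (r : Φ D) (c : ℤ) : Prop := ∃ a ≠ 0, S.x r a ∈ X ⊔ S.gen {s ∈ Q | c ≤ fl (wt s)}
theorem Lead.mono {Q Q' : Set (Φ D)} {r : Φ D} {c : ℤ} (h : S.Lead X Q r c) (hQ : Q ⊆ Q') : S.Lead X Q' r c :=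
  h.imp fun _ h => ⟨h.1, sup_le_sup_left (S.gen_mono fun _ h => And.intro (hQ h.1) h.2) _ h.2⟩

variable (hX : ∀ b ∈ S.B, ∀ x ∈ X, b * x * b⁻¹ ∈ X)
include hX
theorem mem_sup_gen {P : Set (Φ D)} (hP : ∀ r ∈ P, IsPos r) {g : Γ} (hg : g ∈ X ⊔ S.gen P) : ∃ x ∈ X, ∃ z ∈ S.gen P, g = x * z := by
  have h : S.gen P ≤ S.B := (S.gen_mono hP).trans S.U_le_B
  obtain ⟨x, hx, z, hz, e⟩ := (Set.ext_iff.1 (Subgroup.coe_mul_of_right_le_normalizer_left X (S.gen P) fun a ha =>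
    mem_normalizer_of_conj (hX a (h ha)) fun k hk => by simpa using hX _ (inv_mem (h ha)) k hk) g).1 hg
  exact ⟨x, hx, z, hz, e.symm⟩

theorem x_mem_all [Finite F] {r : Φ D} {a : F} (ha : a ≠ 0) (h : S.x r a ∈ X) (t : F) : S.x r t ∈ X := by
  have k (c : F) : S.x r (c ^ 2 * a) ∈ X := by
    rcases eq_or_ne c 0 with rfl | hc
    · simpa using one_mem X
    · simpa [h_conj_x, zpow_ofNat] using hX _ (S.H_le_B (S.h_mem_H r (Units.mk0 c hc))) _ h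
  by_cases h2 : ringChar F = 2
  · obtain ⟨c, hc⟩ := FiniteField.isSquare_of_char_two h2 (t / a)
    convert k c using 2; rw [sq, ← hc]; field_simp
  have h3 : (2 : F) ≠ 0 := Ring.two_ne_zero h2
  convert mul_mem (k ((t / a + 1) / 2)) (inv_mem (k ((t / a - 1) / 2))) using 1
  rw [← x_neg, ← S.add]; congr 1; field_simp; ring

theorem Lead.step {Q : Set (Φ D)} (hQ : Closed Q) (hQ' : ∀ r ∈ Q, IsPos r) {r : Φ D} {c : ℤ} (h : S.Lead X Q r c)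
    (hm : ∀ m ∈ ms, ∃ l : Fˣ, l ^ m ≠ 1) (hk : ∀ s ∈ Q, fl (wt s) = c → KillT (tab D) ms r s) : S.Lead X Q r (c + 1) := by
  obtain ⟨a, ha, h⟩ := h
  obtain ⟨x, hx, z, hz, e⟩ := mem_sup_gen hX (fun s hs => hQ' s hs.1) h
  rcases filt_step hQ (fun s hs => pos_fl s (hQ' s hs)) (fun r _ s _ h => fl_strictMono.injective h) hz with hz | ⟨s, hs, h1, b, z', hz', rfl⟩
  · exact ⟨a, ha, e ▸ mul_mem (Subgroup.mem_sup_left hx) (Subgroup.mem_sup_right hz)⟩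
  obtain ⟨g, hg, h2, h3⟩ := hk s hs h1
  obtain ⟨l, hl⟩ := hm _ h3
  rw [show g = (⟨g, hg⟩ : Φ D) from rfl, pr_tab] at h2 hl
  set k := S.h ⟨g, hg⟩ l
  have hk : k ∈ S.H := S.h_mem_H _ _
  have hz : S.x s b * z' ∈ S.B := S.U_le_B (S.gen_mono (fun s hs => hQ' s hs.1) hz)
  refine ⟨-a + (l ^ pr ⟨g, hg⟩ r : Fˣ) * a, fun h => hl (Units.ext ?_), ?_⟩
  · exact mul_right_cancel₀ ha (by rw [Units.val_one]; linear_combination h)
  have e2 : k * S.x s b * k⁻¹ = S.x s b := by simp [k, h_conj_x, h2]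
  rw [S.add, x_neg, ← h_conj_x, e]
  convert mul_mem (Subgroup.mem_sup_left (hX _ (inv_mem hz) _ (mul_mem (inv_mem hx) (hX k (S.H_le_B hk) x hx))))
    (Subgroup.mem_sup_right (mul_mem (inv_mem hz') (conj_mem_of_normalizer (H_le_normalizer _ hk) hz'))) using 1
  rw [show k * (x * (S.x s b * z')) * k⁻¹ = k * x * k⁻¹ * (k * S.x s b * k⁻¹) * (k * z' * k⁻¹) by group, e2]; group

theorem Lead.kill {Q : Set (Φ D)} (hQ : Closed Q) (hQ' : ∀ r ∈ Q, IsPos r) {r : Φ D} {c d : ℤ} (h : S.Lead X Q r c) (hd : c ≤ d)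
    (hm : ∀ m ∈ ms, ∃ l : Fˣ, l ^ m ≠ 1) (hk : ∀ s ∈ Q, c ≤ fl (wt s) → fl (wt s) < d → KillT (tab D) ms r s) : S.Lead X Q r d := by
  induction d, hd using Int.le_induction with
  | base => exact h
  | succ d hd ih => exact (ih fun s h1 h2 h3 => hk s h1 h2 (by omega)).step hX hQ hQ' hm fun s h1 h2 => hk s h1 (by omega) (by omega)

theorem Lead.all [Finite F] {r : Φ D} (h : S.Lead X {s | IsPos s} r (fl (wt r) + 1)) (hm : ∀ m ∈ ms, ∃ l : Fˣ, l ^ m ≠ 1)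
    (hk : KabT (tab D) ms r) (t : F) : S.x r t ∈ X := by
  obtain ⟨c, hc⟩ := exists_filt_empty {s : Φ D | IsPos s} fl
  obtain ⟨a, ha, h⟩ := h.kill hX closed_isPos (fun _ h => h) (le_max_left _ ((c + 1 : ℕ) : ℤ)) hm fun s _ h _ => hk s s.2 (fl_lt_iff.1 h)
  refine x_mem_all hX ha (sup_le le_rfl (S.gen_le.2 fun s hs => ?_) h) t
  exact (Set.eq_empty_iff_forall_notMem.1 hc s ⟨hs.1, (le_max_right _ _).trans hs.2⟩).elim

omit hX in
theorem lead_of_term (hn : ∀ n ∈ ns, (n : F) ≠ 0) {a b r : Φ D} (ha : IsPos a) (hb : IsPos b) {P : ℕ → Prop} (h : TermT (tab D) ns a b r P)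
    (hP : ∀ s : Φ D, PosComb a b s → s < r → P s → ∀ t, S.x s t ∈ X) {t u : F} (ht : t ≠ 0) (hu : u ≠ 0)
    (hK : (S.x b u)⁻¹ * (S.x a t)⁻¹ * S.x b u * S.x a t ∈ X ⊔ S.gen {s ∈ {s | IsPos s} | fl (wt r) + 1 ≤ fl (wt s)}) :
    S.Lead X {s | IsPos s} r (fl (wt r) + 1) := by
  obtain ⟨h1, ⟨c, hc, c1, h2⟩, h3⟩ := h
  have h1 : b ≠ a := fun h => h1 (congrArg Fin.val h)
  refine ⟨_, ?_, x_mem_of_cword h1 (ha.ne_ng hb) (List.mem_map.2 ⟨(r, c.2), mem_toΦ.2 (c1 ▸ hc), rfl⟩) hK fun s hs h4 v => ?_⟩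
  · simp [hn _ h2, ht, hu]
  have h5 : PosComb a b s.1 := ⟨_, _, cterms_spec h1 (ha.ne_ng hb) hs⟩
  rcases lt_or_gt_of_ne h4 with h4 | h4
  · exact Subgroup.mem_sup_left (hP _ h5 h4 (h3 _ (mem_toΦ.1 hs) h4) v)
  · exact Subgroup.mem_sup_right (S.x_mem (And.intro (closed_isPos _ ha _ hb _ h5) (fl_lt_iff.2 h4)) v)

theorem Lead.comm (hn : ∀ n ∈ ns, (n : F) ≠ 0) {a b r : Φ D} (ha : IsPos a) (hb : IsPos b) (h : TermT (tab D) ns a b r fun _ => False)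
    (e : wt r = wt a + wt b) (hl : S.Lead X {s | IsPos s} b (fl (wt b) + 1)) : S.Lead X {s | IsPos s} r (fl (wt r) + 1) := by
  obtain ⟨u, hu, hl⟩ := hl
  obtain ⟨x, hx, z, hz, e2⟩ := mem_sup_gen hX (fun s hs => hs.1) hl
  refine lead_of_term hn ha hb h (fun _ _ _ h => h.elim) one_ne_zero hu ?_
  have h1 := S.gen_comm_mem closed_isPos pos_fl _ _ hz (S.x_mem (r := a) (And.intro ha le_rfl) 1)
  rw [show fl (wt b) + 1 + fl (wt a) = fl (wt r) + 1 by rw [e, map_add]; ring] at h1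
  convert mul_mem (Subgroup.mem_sup_left (hX _ (inv_mem (S.U_le_B (S.gen_mono (fun s hs => hs.1) hz))) _
    (mul_mem (inv_mem hx) (hX _ (inv_mem (S.U_le_B (S.x_mem_U ha 1))) x hx)))) (Subgroup.mem_sup_right h1) using 1
  rw [e2]; group

theorem lead_all [Finite F] (hw : WcT (tab D) ms ns) (hm : ∀ m ∈ ms, ∃ l : Fˣ, l ^ m ≠ 1) (hn : ∀ n ∈ ns, (n : F) ≠ 0) (hU : X ≤ S.U) {J : Set (I D)}
    (h1 : ∀ j ∈ J, ∀ x ∈ X, S.n (sim j) 1 * x * (S.n (sim j) 1)⁻¹ ∈ X) (h2 : ∀ j ∉ J, ¬ X ≤ S.Up (sW j)) (r : Φ D) (hr : IsPos r) (hJ : ¬ InJ J r) :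
    S.Lead X {s | IsPos s} r (fl (wt r) + 1) := by
  induction r using WellFoundedLT.induction with | _ r ih => ?_
  have lt {a b s : Φ D} (ha : IsPos a) (hb : IsPos b) (h : PosComb a b s) : a < s ∧ b < s := by
    have := h.le (pos_fl a ha) (pos_fl b hb); have := pos_fl a ha; have := pos_fl b hb
    exact ⟨fl_lt_iff.1 (by omega), fl_lt_iff.1 (by omega)⟩
  obtain ⟨j, hj, h | ⟨s, -, hs, ps, ⟨c, hc, c1, c2⟩, t1, t2⟩ | ⟨p1, l1, k1, k2, s, hs, ps, t1⟩⟩ := hw.2 r r.2 hr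
  · obtain rfl : r = sim ⟨j, hj⟩ := Fin.ext h
    obtain ⟨x, hx, h3⟩ := SetLike.not_le_iff_exists.1 (h2 _ (mt inJ_sim.2 hJ))
    obtain ⟨b, hb, a, ha, rfl⟩ := U_decomp' (sW ⟨j, hj⟩) (hU hx)
    obtain ⟨t, rfl⟩ := mem_Um_sW.1 hb
    have h4 : S.Lead X {s | IsPos s ∧ s ≠ sim ⟨j, hj⟩} (sim ⟨j, hj⟩) 1 := by
      refine ⟨t, fun h => h3 (by simpa [h] using ha), ?_⟩
      rw [S.gen_filt_one fun s hs => pos_fl s hs.1]
      refine (mul_mem_cancel_right (Subgroup.mem_sup_right (S.gen_mono ?_ ha))).1 (Subgroup.mem_sup_left hx)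
      exact fun s hs => ⟨hs.1, by rintro rfl; exact not_isPos_ng_sim _ (by simpa using hs.2)⟩
    exact (h4.kill hX (closed_pos_ne _) (fun _ h => h.1) (by have := pos_fl _ hr; omega) hm fun s h5 _ h6 =>
      hw.1 j hj s (fl_lt_iff.1 (lt_of_le_of_ne (by omega) fun h => h5.2 (fl_strictMono.injective h))) h5.1).mono fun _ h => h.1
  · have e := (cterms_spec (r := sim ⟨j, hj⟩) (s := ⟨s, hs⟩) (c := (r, c.2)) (fun h => t1.1 (congrArg Fin.val h)) ((isPos_sim _).ne_ng ps)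
      (mem_toΦ.2 (c1 ▸ hc))).2.2
    simp only [c2, Nat.cast_one, one_smul] at e
    obtain ⟨l1, l2⟩ := lt (isPos_sim ⟨j, hj⟩) (b := ⟨s, hs⟩) ps ⟨1, 1, one_pos, one_pos, by simpa using e⟩
    by_cases h3 : InJ J ⟨s, hs⟩
    · exact (ih _ l1 (isPos_sim _) fun h => hJ (closed_inJ J _ h _ h3 _ ⟨1, 1, one_pos, one_pos, by simpa using e⟩)).comm hX hn
        (a := ⟨s, hs⟩) ps (isPos_sim ⟨j, hj⟩) t2 (e.trans (add_comm _ _))
    · exact (ih _ l2 ps h3).comm hX hn (b := ⟨s, hs⟩) (isPos_sim ⟨j, hj⟩) ps t1 e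
  by_cases h3 : ⟨j, hj⟩ ∈ J
  · have h4 := (ih (sref ⟨j, hj⟩ r) l1 p1 fun h => hJ ((inJ_smul (sW_mem_WJ h3)).1 (by rwa [sW_smul]))).all hX hm k1
    refine ⟨_, ?_, Subgroup.mem_sup_left (by simpa [n_conj_x] using h1 _ h3 _ (h4 1))⟩
    rw [← coe_ηu]; exact Units.ne_zero _
  replace ps : IsPos (⟨s, hs⟩ : Φ D) := ps
  have p2 : ∀ u, PosComb (sim ⟨j, hj⟩) ⟨s, hs⟩ u → ¬ InJ J u := fun u h =>
    (pos_not_inJ_add (Or.inl ps) ⟨isPos_sim _, mt inJ_sim.1 h3⟩ h.symm).2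
  obtain ⟨c, hc, c1, -⟩ := t1.2.1
  have l2 := (lt (isPos_sim _) ps ⟨_, _, cterms_spec (r := sim ⟨j, hj⟩) (s := ⟨s, hs⟩) (c := (r, c.2)) (fun h => t1.1 (congrArg Fin.val h))
    ((isPos_sim _).ne_ng ps) (mem_toΦ.2 (c1 ▸ hc))⟩).1
  have h4 := (ih _ l2 (isPos_sim _) (mt inJ_sim.1 h3)).all hX hm k2 1
  refine lead_of_term hn (isPos_sim ⟨j, hj⟩) (b := ⟨s, hs⟩) ps t1 (fun u h l k => (ih u l (closed_isPos _ (isPos_sim _) _ ps _ h) (p2 u h)).all hX hm k)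
    one_ne_zero one_ne_zero (Subgroup.mem_sup_left (mul_mem ?_ h4))
  simpa using hX _ (inv_mem (S.U_le_B (S.x_mem_U (r := ⟨s, hs⟩) ps 1))) _ (inv_mem h4)

omit hX in
theorem Cov.weakly_closed [Finite F] (hθ : S.Cov θ) (hw : WcT (tab D) ms ns) (hm : ∀ m ∈ ms, ∃ l : Fˣ, l ^ m ≠ 1) (hn : ∀ n ∈ ns, (n : F) ≠ 0) (hU : X ≤ S.U)
    (h : ∀ g ∈ S.T, (∀ x ∈ X, g * x * g⁻¹ ∈ S.U) → ∀ x ∈ X, g * x * g⁻¹ ∈ X) : ∃ J, X = S.UJ J := by
  have hX : ∀ b ∈ S.B, ∀ x ∈ X, b * x * b⁻¹ ∈ X := fun b hb => h b (S.B_le_T hb) fun x hx =>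
    conj_mem_of_normalizer (UJ_empty (S := S) ▸ P_le_normalizer ∅ (B_le_P _ hb)) (hU hx)
  set J := {j | X ≤ S.Up (sW j)}
  have h1 : ∀ j ∈ J, ∀ x ∈ X, S.n (sim j) 1 * x * (S.n (sim j) 1)⁻¹ ∈ X := fun j hj =>
    h _ (S.N_le_T (S.n_mem_N _ _)) fun x hx => (rep_n_sim j 1).conj_Up (hj hx)
  have h2 : X ≤ S.UJ J := fun x hx => by
    obtain ⟨l, hl, e⟩ := exists_word_WJ (w0J_mem J)
    refine Up_w0J (S := S) J ▸ hθ.mem_Up (e ▸ rep_nw l) (hU hx) (S.U_le_B (hU ?_))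
    clear e
    induction l with
    | nil => simpa
    | cons i l ih => simpa [mul_assoc] using h1 i (hl i (by simp)) _ (ih fun i hi => hl i (by simp [hi]))
  refine ⟨J, h2.antisymm (S.gen_le.2 fun r hr => ?_)⟩
  induction r using WellFoundedGT.induction with | _ r ih => ?_
  obtain ⟨a, ha, h3⟩ := lead_all hX hw hm hn hU h1 (fun _ h => h) r hr.1 hr.2
  obtain ⟨x, hx, z, hz, e⟩ := mem_sup_gen hX (fun s hs => hs.1) h3
  have h4 : z ∈ S.UJ J := (mul_mem_cancel_left (h2 hx)).1 (e ▸ S.x_mem hr a)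
  refine x_mem_all hX ha (e ▸ mul_mem hx (S.gen_le.2 (fun s hs => ih s (fl_lt_iff.1 hs.1.2) hs.2) (hθ.gen_inf (f := fl)
    (closed_filt closed_isPos pos_fl _) (fun s hs => pos_fl s hs.1) (fun s hs u hu v h => pos_not_inJ_add (Or.inl hs.1) hu h) (fun s hs => pos_fl s hs.1) hz h4)))
end StSys

end H12
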